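import Cfsg.Agent.H33.SolvFix

/-! AH tower (row S4162): solvable groups with distinct class sizes.  Definitions, jobs, kit.
Proofs: `blueprints/AH.md`. -/

set_option autoImplicit false
set_option linter.unusedSectionVars false

namespace H91.AH

open H33.Solv Subgroup MulAction

/-- The centraliser order. -/
noncomputable def cc {G : Type} [Group G] (x : G) : ℕ := Nat.card (centralizer ({x} : Set G))

/-- Elements with the same centraliser order are conjugate. -/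
def AH (G : Type) [Group G] : Prop := ∀ x y : G, cc x = cc y → IsConj x y

/-- Rational groups. -/
def Rat (G : Type) [Group G] : Prop := ∀ (x : G) (k : ℕ), k.Coprime (orderOf x) → IsConj x (x ^ k)

/-- Real groups. -/
def Real (G : Type) [Group G] : Prop := ∀ x : G, IsConj x x⁻¹

/-- A statement on finite solvable groups. -/
def AllG (P : ∀ (G : Type) [Group G], Prop) : Prop :=
  ∀ (G : Type) [Group G] [Finite G], Group.IsSolvable G → P G

open Classical in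
/-- The set of centraliser orders. -/
noncomputable def FF (G : Type) [Group G] : Finset ℕ :=
  (Nat.card G).divisors.filter fun c => ∃ x : G, cc x = c

/-! ### Basic jobs -/

def JobCCQ : Prop := ∀ (G H : Type) [Group G] [Finite G] [Group H] (φ : G →* H),
  Function.Surjective φ → ∀ (Z : Subgroup G) (x : G), Z ≤ φ.ker → Z ≤ center G →
    (orderOf x).Coprime (Nat.card Z) → cc (φ x) * Nat.card Z ≤ cc x

def JobRD : Prop := ∀ (G : Type) [Group G] [Finite G], Rat G → ∀ x : G,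
  orderOf x * (orderOf x).totient ∣ Nat.card G

def JobIDX : Prop := AllG fun G _ => Nontrivial G → Real G → ∃ K : Subgroup G, K.index = 2

def JobSN : Prop := AllG fun G _ => Real G → ∀ S : Sylow 2 G,
  normalizer ((S : Subgroup G) : Set G) ≤ (S : Subgroup G)

def JobSUM : Prop := (∀ (G : Type) [Group G] [Finite G], AH G → ∀ (P : ℕ → Prop) [DecidablePred P],
    (Nat.card {x : G // P (cc x)} : ℚ) = Nat.card G * ∑ c ∈ (FF G).filter P, (1 / c : ℚ)) ∧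
  ∀ (G H : Type) [Group G] [Finite G] [Group H] (φ : G →* H), Function.Surjective φ →
    3 * Nat.card H ≤ 4 * Nat.card {h : H // 4 ∣ orderOf h} →
    3 * Nat.card G ≤ 4 * Nat.card {x : G // 4 ∣ cc x}

def JobT3 : Prop := ∀ (G : Type) [Group G] [Finite G], AH G → ∀ x : G, cc x = 3 → ∀ y : G,
  3 ∣ cc y → cc y = 3 ∨ cc y = Nat.card G

def JobC2 : Prop := AllG fun G _ => Nontrivial G → AH G → ∀ x : G, cc x = 2 →
  Nonempty (G ≃* Equiv.Perm (Fin 3))

/-! ### Centralisers of order four -/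

def V4 (G : Type) [Group G] : Prop :=
  ∃ S : Sylow 2 G, Nat.card S = 4 ∧ ∀ y ∈ (S : Subgroup G), y * y = 1

/-- A non-abelian Sylow 2-subgroup of order 8. -/
structure S8 {G : Type} [Group G] (S : Sylow 2 G) (s a : G) : Prop where
  card : Nat.card S = 8
  mem : ∀ y, y ∈ (S : Subgroup G) ↔ ∃ i : ℕ, y = s ^ i ∨ y = s ^ i * a
  os : orderOf s = 4
  inv : a * s * a⁻¹ = s⁻¹
  na : a ∉ zpowers s
  sq : a * a = 1 ∨ a * a = s * s

/-- The dihedral configuration. -/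
structure D8 {G : Type} [Group G] (S : Sylow 2 G) (s a : G) : Prop where
  s8 : S8 S s a
  a2 : a * a = 1
  c12 : cc a = 12
  inv : ∀ y : G, Commute y a → Odd (orderOf y) → s * s * y * (s * s)⁻¹ = y⁻¹
  fus : IsConj (s * a) (s * s)

def JobC4 : Prop := JobRD → AllG fun G _ => Rat G → ∀ x : G, cc x = 4 →
  V4 G ∨ ∃ (S : Sylow 2 G) (s a : G), S8 S s a

def JobCA : Prop := AllG fun G _ => Rat G → ∀ (S : Sylow 2 G) (s a : G), S8 S s a →
  ∀ w : G, orderOf w = 4 → cc w = 4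

def JobCB : Prop := AllG fun G _ => AH G → ∀ e : G, orderOf e = 2 → 4 ∣ cc e → ¬ 8 ∣ cc e →
  (cc e = 4 ∨ cc e = 12) ∧ ∀ y f : G, Commute y e → Odd (orderOf y) → Commute f e → f * f = 1 →
    f ≠ 1 → f ≠ e → f * y * f⁻¹ = y⁻¹

def JobVQ : Prop := JobSN → JobIDX → JobCA → JobCB → AllG fun G _ => AH G →
  ¬ V4 G ∧ ∀ (S : Sylow 2 G) (s a : G), S8 S s a → a * a ≠ s * s

def JobDA : Prop := JobIDX → JobCA → JobCB → AllG fun G _ => AH G →
  ∀ (S : Sylow 2 G) (s a : G), S8 S s a → a * a = 1 → ∃ a' : G, D8 S s a'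

def JobDB : Prop := JobSN → JobCA → AllG fun G _ => AH G →
  ∀ (S : Sylow 2 G) (s a : G), D8 S s a → cc (s * s) = 8

def JobDC : Prop := AllG fun G _ => ∀ (S : Sylow 2 G) (s a : G), D8 S s a → cc (s * s) ≠ 8

/-! ### The top module -/

/-- The module `V` over `ZMod p` of a rational group `V H`. -/
structure RV (p : ℕ) (H V : Type) [Group H] [AddCommGroup V] [Module (ZMod p) V]
    [DistribMulAction H V] : Prop where
  sol : Group.IsSolvable H
  cop : ¬ p ∣ Nat.card H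
  nt : Nontrivial V
  faith : ∀ h : H, (∀ v : V, h • v = v) → h = 1
  rat : ∀ (c : H) (v : V) (a : ZMod p) (k : ℕ), c • v = v → a ≠ 0 → k.Coprime (orderOf c) →
    ∃ h : H, h • v = a • v ∧ h * c * h⁻¹ = c ^ k

/-- A statement on finite groups acting on finite `ZMod p`-modules. -/
def AllM (P : ∀ (p : ℕ) (H V : Type) [Group H] [AddCommGroup V] [Module (ZMod p) V]
    [DistribMulAction H V], Prop) : Prop :=
  ∀ (p : ℕ) [Fact p.Prime] (H V : Type) [Group H] [Finite H] [AddCommGroup V] [Finite V]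
    [Module (ZMod p) V] [DistribMulAction H V], P p H V

/-- The lower bound for the centraliser order of `v h`. -/
noncomputable def lk {H V : Type} [Group H] [AddCommGroup V] [DistribMulAction H V] (h : H) (v : V) :
    ℕ := Nat.card (fix V h) * Nat.card (centralizer ({h} : Set H) ⊓ stabilizer H v : Subgroup H)

/-- `V` is a self-centralising elementary abelian normal Sylow `p`-subgroup. -/
structure Mon {X : Type} [Group X] (p : ℕ) (V : Subgroup X) : Prop where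
  pr : p.Prime
  ne : V ≠ ⊥
  ex : ∀ v ∈ V, v ^ p = 1
  cent : centralizer (V : Set X) = V
  cop : ¬ p ∣ V.index

/-- `W` is `V` written additively. -/
structure Md {X W : Type} [Group X] (V : Subgroup X) [V.Normal] [AddCommGroup W]
    [DistribMulAction (X ⧸ V) W] (π : X → W) : Prop where
  sec : Sec ⊥ V π
  act : ∀ g : X, ∀ a ∈ V, (g : X ⧸ V) • π a = π (g * a * g⁻¹)

def JobTP1 : Prop := AllG fun G _ => ∀ Q : ℕ → Prop, (∃ q, q.Prime ∧ Q q ∧ q ∣ Nat.card G) →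
  ∃ (K : Subgroup G) (_ : K.Normal) (p : ℕ) (V : Subgroup (G ⧸ K)), V.Normal ∧ Q p ∧ Mon p V ∧
    ∀ q, q.Prime → Q q → ¬ q ∣ V.index

def JobTP2 : Prop := AllG fun X _ => Rat X → ∀ (p : ℕ) (V : Subgroup X) [V.Normal], Mon p V →
  ∃ (W : Type) (_ : AddCommGroup W) (_ : Finite W) (_ : Module (ZMod p) W)
    (_ : DistribMulAction (X ⧸ V) W) (π : X → W), Md V π ∧ Nat.card W = Nat.card V ∧ RV p (X ⧸ V) W

def JobTP3 : Prop := AllG fun X _ => ∀ (p : ℕ) (V : Subgroup X) [V.Normal], Mon p V →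
  ∀ (W : Type) [AddCommGroup W] [DistribMulAction (X ⧸ V) W] (π : X → W), Md V π → ∀ x : X,
    ∃ w : W, (x : X ⧸ V) • w = w ∧ lk (x : X ⧸ V) w ≤ cc x

/-! ### Coprime modules -/

def JobOP : Prop := ∀ (r : ℕ) (R Y : Type) [Group R] [AddCommGroup Y] [Finite Y]
  [DistribMulAction R Y] (B : AddSubgroup Y) (α β : R), r.Prime → r.Coprime (Nat.card Y) →
    (∀ y ∈ B, α • y ∈ B ∧ β • y ∈ B ∧ α ^ r • y = y ∧ β ^ r • y = y ∧ α • β • y = β • α • y) →
    Nat.card B * Nat.card (B ⊓ fix Y α ⊓ fix Y β : AddSubgroup Y) ^ r =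
      Nat.card (B ⊓ fix Y β : AddSubgroup Y) *
        ∏ i ∈ Finset.range r, Nat.card (B ⊓ fix Y (α * β ^ i) : AddSubgroup Y)

def TW : Prop := ∀ (r : ℕ) (R Y Y' : Type) [Group R] [Finite R] [AddCommGroup Y] [Finite Y]
  [DistribMulAction R Y] [AddCommGroup Y'] [Finite Y'] [DistribMulAction R Y'], r.Prime →
    IsPGroup r R → r.Coprime (Nat.card Y) → r.Coprime (Nat.card Y') →
    (∀ c : R, Nat.card (fix Y c) = Nat.card (fix Y' c)) →
    Nat.card (fixedPoints R Y) = Nat.card (fixedPoints R Y')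

def JobTW : Prop := JobOP → TW

def LAM : Prop := AllM fun p H V _ _ _ _ => ∀ (r : ℕ) (R : Subgroup H) (z : H) (χ : H → ZMod p)
  (μ : ZMod p) (v : V), r.Prime → r ≠ p → IsPGroup r R → (∀ c ∈ R, Commute c z) →
    (∀ c ∈ R, ∃ t : H, t * c * t⁻¹ = c⁻¹ ∧ t * z * t⁻¹ = z⁻¹) → v ≠ 0 →
    (∀ c ∈ R, c • v = χ c • v) → z • v = μ • v →
    ∃ w : V, w ≠ 0 ∧ (∀ c ∈ R, c⁻¹ • w = χ c • w) ∧ z⁻¹ • w = μ • w

def JobLAM : Prop := TW → LAM

/-- `z` centralises every abelian subgroup of coprime order that it normalises. -/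
def FR {H : Type} [Group H] (z : H) : Prop := ∀ A : Subgroup H, IsMulCommutative A →
  (Nat.card A).Coprime (orderOf z) → z ∈ normalizer (A : Set H) → ∀ a ∈ A, Commute z a

def JobFRB : Prop := ∀ (H V : Type) [Group H] [Finite H] [AddCommGroup V] [Finite V]
  [DistribMulAction H V], (Nat.card H).Coprime (Nat.card V) →
    (∀ h : H, (∀ v : V, h • v = v) → h = 1) → ∀ z : H, (orderOf z).Prime → fix V z = ⊥ → FR z

/-- Subgroups of prime power order are cyclic or generalised quaternion. -/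
def CQ (Y : Type) [Group Y] : Prop := ∀ (q : ℕ) (P : Subgroup Y), q.Prime → IsPGroup q P →
  IsCyclic P ∨ (q = 2 ∧ ∃ n : ℕ, Nonempty (P ≃* QuaternionGroup (2 ^ n)))

def JobCQ : Prop := JobOP → ∀ (Y U : Type) [Group Y] [Finite Y] [AddCommGroup U] [Finite U] [Nontrivial U]
  [DistribMulAction Y U], (Nat.card Y).Coprime (Nat.card U) →
    (∀ y : Y, y ≠ 1 → ∀ u : U, y • u = u → u = 0) → CQ Y

def AB : Prop := ∀ (M : Type) [Group M] [Finite M] (C T : Subgroup M) (z : M), C.Normal →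
  Group.IsSolvable C → (∀ c ∈ C, ∃ d ∈ C, d * c * d⁻¹ = c⁻¹) → T ≤ C → IsPGroup 2 T →
    Odd (T.relIndex C) → Odd (orderOf z) → z ∈ normalizer (T : Set M) →
    (∀ c ∈ C, ∃ d ∈ C, z * c * z⁻¹ = d * c * d⁻¹) → ∀ c ∈ T, Commute c z

def JobAB : Prop := JobSN → AB

/-! ### Large primes -/

/-- `T` is a Sylow 2-subgroup of all stabilisers of its non-zero fixed vectors. -/
structure G1 (p : ℕ) {H : Type} (V : Type) [Group H] [AddCommGroup V] [Module (ZMod p) V]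
    [DistribMulAction H V] (T : Subgroup H) : Prop where
  two : IsPGroup 2 T
  ex : ∃ u : V, u ≠ 0 ∧ ∀ c ∈ T, c • u = u
  odd : ∀ u : V, u ≠ 0 → (∀ c ∈ T, c • u = u) → Odd (T.relIndex (stabilizer H u))
  sn : ∀ u : V, u ≠ 0 → (∀ c ∈ T, c • u = u) → ∀ g ∈ normalizer (T : Set H), g • u = u → g ∈ T
  ep : ∀ u : V, u ≠ 0 → (∀ c ∈ T, c • u = u) → ∀ a : ZMod p, a ≠ 0 →
    ∃ g ∈ normalizer (T : Set H), g • u = a • u

def JobG1 : Prop := JobSN → AllM fun p H V _ _ _ _ => RV p H V → ∃ T : Subgroup H, G1 p V T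

def JobG2 : Prop := LAM → AB → AllM fun p H V _ _ _ _ => RV p H V → p ≠ 2 → ∀ T : Subgroup H,
  G1 p V T → ∀ y ∈ normalizer (T : Set H), ∀ (l : ZMod p) (r k : ℕ), r.Prime → l ^ r ^ k = 1 →
    (∀ u : V, (∀ c ∈ T, c • u = u) → y • u = l • u) → l * l = 1

def JobQA : Prop := ∀ (Q : Type) [Group Q] [Finite Q], IsPGroup 2 Q →
  (IsCyclic Q ∨ ∃ n : ℕ, Nonempty (Q ≃* QuaternionGroup (2 ^ n))) →
    {σ : MulAut Q | σ ≠ 1 ∧ Odd (orderOf σ)}.ncard ≤ 8

def JobG3 : Prop := JobQA → AllG fun Y _ => CQ Y → (∀ z : Y, (orderOf z).Prime → FR z) →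
  ∀ r : ℕ, r.Prime → r ≠ 2 → r ≤ 7 → {y : Y | orderOf y = r}.ncard ≤ 8

def JobG4 : Prop := AllG fun Y _ => CQ Y → (∀ q : ℕ, q.Prime → q ∣ Nat.card Y → q ≤ 7) →
  {w : Y | ∃ y : Y, orderOf y = 16 ∧ w = y ^ 4}.ncard ≤ 2

def GOW : Prop := AllM fun p H V _ _ _ _ => RV p H V →
  (∀ q : ℕ, q.Prime → q ∣ Nat.card H → q ≤ 7) → p ≤ 7

def JobG5 : Prop := JobSN → LAM → AB → JobQA → JobOP → JobG1 → JobG2 → JobG3 → JobG4 → JobFRB →
  JobCQ → GOW

/-! ### The primes five and seven -/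

/-- The `p`-elements lie in a normal `r'`-subgroup. -/
def CaseA (G : Type) [Group G] (p r : ℕ) : Prop :=
  ∃ N : Subgroup G, N.Normal ∧ ¬ r ∣ Nat.card N ∧ ∀ (y : G) (k : ℕ), y ^ p ^ k = 1 → y ∈ N

/-- An `r`-section `W`. -/
structure LW (G W : Type) [Group G] [AddCommGroup W] [DistribMulAction G W] (r : ℕ) : Prop where
  ex : ∀ w : W, r • w = 0
  link : ∀ x : G, Nat.card (fix W x) * orderOf (toPermHom G W x) ≤ cc x

def JobDI : Prop := JobCCQ → AllG fun G _ => ∀ p r : ℕ, p.Prime → r.Prime → p ≠ r →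
  CaseA G p r ∨ ∃ (W : Type) (_ : AddCommGroup W) (_ : Finite W) (_ : DistribMulAction G W),
    LW G W r ∧ p ∣ Nat.card (toPermHom G W).range

def JobP1 : Prop := AllG fun E _ => ∀ (p : ℕ) (y g t : E), p.Prime → ¬ p * p ∣ Nat.card E →
  orderOf y = p → g * y * g⁻¹ = y ^ 2 → t * g * t⁻¹ = g⁻¹ → p = 3

def JobP2 : Prop := LAM → AllG fun E _ => ∀ (p r : ℕ) (N : Subgroup E) (y g w : E), p.Prime →
  r.Prime → p ≠ r → N.Normal → ¬ r ∣ Nat.card N → y ∈ N → orderOf y = p → g * y * g⁻¹ = y ^ 2 →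
    Commute w y → Commute w g → (∃ k, g ^ r ^ k = 1) → (∃ k, w ^ r ^ k = 1) → ¬ p * p ∣ cc w →
    (∀ (c : E) (k : ℕ), c ^ r ^ k = 1 → IsConj c c⁻¹) → p = 3

def PP : Prop := AllG fun G _ => Rat G → ∀ p r : ℕ, (p = 5 ∧ r = 2 ∨ p = 7 ∧ r = 3) → ∀ x : G,
  p ∣ cc x → ¬ p * p ∣ cc x → r ∣ orderOf x ∧ ¬ CaseA G p r

def JobPP : Prop := LAM → JobP1 → JobP2 → PP

def JobGU : Prop := ∀ (G W : Type) [Group G] [AddCommGroup W] [Finite W] [DistribMulAction G W]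
  (r : ℕ), r.Prime → (∀ w : W, r • w = 0) →
    (∃ n, Nat.card W = r ^ n ∧
      Nat.card (toPermHom G W).range ∣ ∏ i ∈ Finset.range n, (r ^ n - r ^ i)) ∧
    ∀ (x : G) (k : ℕ), orderOf (toPermHom G W x) = r ^ k →
      Nat.card W ≤ Nat.card (fix W x) ^ r ^ k

def JobKW : Prop := JobGU → ∀ (G W : Type) [Group G] [Finite G] [AddCommGroup W] [Finite W]
  [DistribMulAction G W] (x : G),
    (LW G W 2 → 25 ∣ Nat.card (toPermHom G W).range → cc x ≠ 8) ∧
    (LW G W 2 → 125 ∣ Nat.card (toPermHom G W).range → cc x ≠ 16) ∧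
    (LW G W 3 → 49 ∣ Nat.card (toPermHom G W).range → cc x ≠ 9 ∧ cc x ≠ 27)

def V5 : Prop := AllM fun p H V _ _ _ _ => RV p H V → p = 5 → ∀ h : H,
  h = 1 ∨ (orderOf h).Prime → Nat.card (fix V h) ≠ 5

def JobV5 : Prop := LAM → V5

def JobK10 : Prop := V5 → AllM fun p H V _ _ _ _ => RV p H V → (p = 7 → Nat.card V ≠ 7) ∧
  (p = 5 → 125 ≤ Nat.card V → ∀ (h : H) (v : V), h • v = v → h * h = 1 → 10 < lk h v)

def JobV25 : Prop := JobRD → V5 → AllM fun p H V _ _ _ _ => RV p H V → p = 5 → Nat.card V = 25 →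
  3 * Nat.card H ≤ 4 * Nat.card {h : H // 4 ∣ orderOf h}

def JobMN : Prop := AllG fun D _ => ∀ z : D, orderOf z = 3 → cc z ≤ 3 → FR z → Nat.card D ≤ 6

def K3 : Prop := AllM fun p E V _ _ _ _ => Group.IsSolvable E → (p = 5 ∨ p = 7) → ¬ p ∣ Nat.card E →
  ∀ (Z : Subgroup E) (z : E) (v : V), Z ≤ center E → (∀ c ∈ Z, ∀ w : V, c • w = w) →
    (Nat.card Z).Coprime 3 → orderOf z = 3 → cc z ≤ 3 * Nat.card Z → fix V z = ⊥ → v ≠ 0 →
    ¬ ∀ a : ZMod p, a ≠ 0 → ∃ g : E, g • v = a • v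

def JobK3 : Prop := JobCCQ → JobFRB → JobMN → K3

def JobKA : Prop := JobCCQ → AllM fun p H V _ _ _ _ => RV p H V → (p = 5 ∨ p = 7) → ∀ z t : H,
  orderOf z = 3 → orderOf t = 2 → Commute z t →
    Nat.card (centralizer ({z} : Set H) ⊓ centralizer ({t} : Set H) : Subgroup H) ≤ 6 → fix V z = ⊥

def JobKB : Prop := ∀ (H : Type) [Group H] [Finite H] (z t : H) (M : Subgroup H), orderOf z = 3 →
  orderOf t = 2 → t ∈ center H → cc z ≤ 6 → FR z → M.Normal → t ∈ M →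
    (∀ x ∈ M, x * x ∈ zpowers t) → (∀ x ∈ M, ∀ y ∈ M, x * y * x⁻¹ * y⁻¹ ∈ zpowers t) →
    M ≠ zpowers t → Nat.card M = 8 ∧ ∀ x ∈ M, x ∉ zpowers t → x * x = t

def JobKC : Prop := JobCCQ → JobKB → AllG fun H _ => ∀ z t : H, orderOf z = 3 → orderOf t = 2 →
  t ∈ center H → cc z ≤ 6 → FR z → (zpowers z).Normal ∨ ∃ M : Subgroup H, M.Normal ∧ t ∈ M ∧
    Nat.card M = 8 ∧ (∀ x ∈ M, x ∉ zpowers t → x * x = t) ∧ centralizer (M : Set H) ≤ zpowers t

def JobKE : Prop := JobRD → ∀ (H : Type) [Group H] [Finite H] (z t : H) (M : Subgroup H), Rat H →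
  orderOf z = 3 → orderOf t = 2 → t ∈ center H → M.Normal → t ∈ M → Nat.card M = 8 →
    (∀ x ∈ M, x ∉ zpowers t → x * x = t) → ¬ centralizer (M : Set H) ≤ zpowers t

def JobKD : Prop := JobRD → AllM fun p H V _ _ _ _ => RV p H V → (p = 5 ∨ p = 7) → ∀ z : H,
  orderOf z = 3 → cc z ≤ 6 → ¬ (zpowers z).Normal

def K6 : Prop := AllM fun p H V _ _ _ _ => RV p H V → (p = 5 ∨ p = 7) → ∀ (h : H) (v : V),
  h • v = v → h ^ 6 = 1 → 6 < lk h v

def JobK6 : Prop := JobCCQ → JobRD → JobFRB → V5 → K3 → JobKA → JobKB → JobKC → JobKE → JobKD → K6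

/-! ### Arithmetic -/

def P5 (c : ℕ) : Prop := 5 ∣ c → 25 ∣ c ∨ 2 ∣ c
def P7 (c : ℕ) : Prop := 7 ∣ c → 49 ∣ c ∨ 3 ∣ c

/-- The alternative for the prime 7. -/
def Alt7 (F : Finset ℕ) : Prop := (∀ c ∈ F, 7 ∣ c → 49 ∣ c) ∨ (9 ∉ F ∧ 27 ∉ F)

def JobPL : Prop := ∀ F : Finset ℕ, (∀ c ∈ F, c ≠ 0 ∧ ∀ q : ℕ, q.Prime → q ∣ c → q ≤ 7) →
  1 ∉ F → 2 ∉ F → 4 ∉ F → (∀ c ∈ F, P5 c ∧ P7 c) →
    (8 ∉ F → ∑ c ∈ F.filter (4 ∣ ·), (1 / c : ℚ) < 3 / 4) ∧
    (((∃ n, ∀ c ∈ F, c ∣ n ∧ (3 ∣ c → c = 3 ∨ c = n)) ∨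
      (3 ∉ F ∧ ∀ c ∈ F, ¬ 5 ∣ c ∧ ¬ 7 ∣ c) ∨
      (3 ∉ F ∧ 6 ∉ F ∧ Alt7 F ∧
        ((∀ c ∈ F, 5 ∣ c → 25 ∣ c) ∨ (8 ∉ F ∧ 16 ∉ F ∧ 10 ∉ F ∧ 25 ∉ F)))) →
      ∑ c ∈ F, (1 / c : ℚ) < 1)

/-! ### Kit -/

section Kit

variable {G : Type} [Group G]

theorem mem_cent {x y : G} : y ∈ centralizer ({x} : Set G) ↔ Commute y x :=
  mem_centralizer_singleton_iff

theorem cc_dvd (x : G) : cc x ∣ Nat.card G := card_subgroup_dvd_card _

theorem cc_pos [Finite G] (x : G) : 0 < cc x := Nat.card_pos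

theorem orderOf_dvd_cc {x y : G} (h : Commute y x) : orderOf y ∣ cc x :=
  (centralizer ({x} : Set G)).orderOf_dvd_natCard (mem_cent.2 h)

theorem cc_one : cc (1 : G) = Nat.card G := by
  have : centralizer ({1} : Set G) = ⊤ := eq_top_iff.2 fun y _ => mem_cent.2 (Commute.one_right y)
  rw [cc, this, card_top]

theorem cc_congr {x y : G} (h : ∀ g : G, Commute g x ↔ Commute g y) : cc x = cc y := by
  have : centralizer ({x} : Set G) = centralizer ({y} : Set G) :=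
    Subgroup.ext fun g => by rw [mem_cent, mem_cent, h]
  rw [cc, this, cc]

theorem cc_conj (g x : G) : cc (g * x * g⁻¹) = cc x :=
  Nat.card_congr ((MulAut.conj g⁻¹).toEquiv.subtypeEquiv fun y => by
    rw [mem_cent, mem_cent]
    change y * (g * x * g⁻¹) = (g * x * g⁻¹) * y ↔ g⁻¹ * y * g⁻¹⁻¹ * x = x * (g⁻¹ * y * g⁻¹⁻¹)
    constructor
    · intro h
      calc _ = g⁻¹ * (y * (g * x * g⁻¹)) * g := by group
        _ = _ := by rw [h]; group
    · intro h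
      calc _ = g * (g⁻¹ * y * g⁻¹⁻¹ * x) * g⁻¹ := by group
        _ = _ := by rw [h]; group)

theorem IsConj.cc {x y : G} (h : IsConj x y) : cc x = cc y := by
  obtain ⟨g, rfl⟩ := isConj_iff.1 h
  exact (cc_conj g x).symm

theorem AH.rat [Finite G] (h : AH G) : Rat G := fun x k hk => h _ _ (cc_congr fun g =>
  ⟨fun e => e.pow_right k, fun e => by
    obtain ⟨m, hm⟩ := exists_pow_eq_self_of_coprime hk
    rw [← hm]
    exact e.pow_right m⟩)

theorem pow_pred [Finite G] (x : G) : x ^ (orderOf x - 1) = x⁻¹ :=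
  eq_inv_of_mul_eq_one_left (by
    rw [← pow_succ, Nat.sub_add_cancel (orderOf_pos x), pow_orderOf_eq_one])

theorem cop_pred {n : ℕ} (h : 0 < n) : (n - 1).Coprime n := by
  obtain ⟨m, rfl⟩ : ∃ m, n = m + 1 := ⟨n - 1, by omega⟩
  simp

theorem Rat.real [Finite G] (h : Rat G) : Real G := fun x =>
  pow_pred x ▸ h x _ (cop_pred (orderOf_pos x))

theorem Rat.pair [Finite G] (h : Rat G) {x y : G} (hc : Commute x y)
    (ho : (orderOf x).Coprime (orderOf y)) {a b : ℕ} (ha : a.Coprime (orderOf x))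
    (hb : b.Coprime (orderOf y)) : ∃ g : G, g * x * g⁻¹ = x ^ a ∧ g * y * g⁻¹ = y ^ b := by
  obtain ⟨k, k1, k2⟩ := Nat.chineseRemainder ho a b
  have hk : k.Coprime (orderOf (x * y)) := by
    rw [hc.orderOf_mul_eq_mul_orderOf_of_coprime ho]
    exact Nat.Coprime.mul_right (by rwa [Nat.Coprime, k1.gcd_eq]) (by rwa [Nat.Coprime, k2.gcd_eq])
  obtain ⟨g, hg⟩ := isConj_iff.1 (h _ k hk)
  obtain ⟨m, m1, m2⟩ := Nat.chineseRemainder ho 1 0
  obtain ⟨n, n1, n2⟩ := Nat.chineseRemainder ho 0 1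
  have ex : (x * y) ^ m = x := by
    rw [hc.mul_pow, pow_eq_pow_iff_modEq.2 m1, pow_eq_pow_iff_modEq.2 m2]; simp
  have ey : (x * y) ^ n = y := by
    rw [hc.mul_pow, pow_eq_pow_iff_modEq.2 n1, pow_eq_pow_iff_modEq.2 n2]; simp
  refine ⟨g, ?_, ?_⟩
  · rw [← pow_eq_pow_iff_modEq.2 k1]
    conv_lhs => rw [← ex]
    rw [← conj_pow, hg, ← pow_mul, mul_comm k, pow_mul, ex]
  · rw [← pow_eq_pow_iff_modEq.2 k2]
    conv_lhs => rw [← ey]
    rw [← conj_pow, hg, ← pow_mul, mul_comm k, pow_mul, ey]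

/-- Centralise `x`, invert `y`. -/
theorem Rat.pair_inv [Finite G] (h : Rat G) {x y : G} (hc : Commute x y)
    (ho : (orderOf x).Coprime (orderOf y)) : ∃ g : G, Commute g x ∧ g * y * g⁻¹ = y⁻¹ := by
  obtain ⟨g, h1, h2⟩ := h.pair hc ho (Nat.coprime_one_left _) (cop_pred (orderOf_pos y))
  exact ⟨g, mul_inv_eq_iff_eq_mul.1 (h1.trans (pow_one x)), h2.trans (pow_pred y)⟩

/-- Invert both. -/
theorem Rat.inv_inv [Finite G] (h : Rat G) {x y : G} (hc : Commute x y)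
    (ho : (orderOf x).Coprime (orderOf y)) : ∃ g : G, g * x * g⁻¹ = x⁻¹ ∧ g * y * g⁻¹ = y⁻¹ := by
  obtain ⟨g, h1, h2⟩ := h.pair hc ho (cop_pred (orderOf_pos x)) (cop_pred (orderOf_pos y))
  exact ⟨g, h1.trans (pow_pred x), h2.trans (pow_pred y)⟩

theorem Rat.map [Finite G] (h : Rat G) {H : Type} [Group H] (φ : G →* H)
    (hφ : Function.Surjective φ) : Rat H := fun y k hk => by
  obtain ⟨x, rfl⟩ := hφ y
  haveI : NeZero (orderOf x) := ⟨(orderOf_pos x).ne'⟩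
  obtain ⟨u, hu⟩ := ZMod.unitsMap_surjective (orderOf_map_dvd φ x) (ZMod.unitOfCoprime k hk)
  have e : (u : ZMod (orderOf x)).val ≡ k [MOD orderOf (φ x)] := by
    rw [← ZMod.natCast_eq_natCast_iff]
    have := congrArg Units.val hu
    rwa [ZMod.unitsMap_val, ZMod.coe_unitOfCoprime, ZMod.cast_eq_val] at this
  have := φ.map_isConj (h x _ (ZMod.val_coe_unit_coprime u))
  rwa [map_pow, pow_eq_pow_iff_modEq.2 e] at this

theorem Real.map (h : Real G) {H : Type} [Group H] (φ : G →* H) (hφ : Function.Surjective φ) :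
    Real H := fun y => by
  obtain ⟨x, rfl⟩ := hφ y
  exact map_inv φ x ▸ φ.map_isConj (h x)

/-- Minimal normal subgroups inside a solvable normal subgroup. -/
theorem exists_minN [Finite G] (L : Subgroup G) [L.Normal] (hs : Group.IsSolvable L) (hL : L ≠ ⊥) :
    ∃ (M : Subgroup G) (q : ℕ), M.Normal ∧ M ≤ L ∧ M ≠ ⊥ ∧ q.Prime ∧ q ∣ Nat.card M ∧ IsPGroup q M ∧
      (∀ a ∈ M, a ^ q = 1) ∧ (∀ a ∈ M, ∀ b ∈ M, Commute a b) ∧
      ∀ K : Subgroup G, K.Normal → K ≤ M → K = ⊥ ∨ K = M := by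
  obtain ⟨M, h1, h2, h3, h4⟩ := H2.exists_minimal_normal_le L hL
  have := H2.isSolvable_of_le h2
  obtain ⟨q, q1, q2, q3, q4⟩ := H2.exists_elementaryAbelian_of_minimal_normal h3 h4
  have := q3.1
  exact ⟨M, q, h1, h2, h3, q1, q2, q4, q3.2, fun a ha b hb => setLike_mul_comm ha hb, h4⟩

/-- The `r`-part of an element: a power `g ^ m` of `r`-power order with `m ≡ 1` modulo `r ^ k`. -/
theorem exists_part [Finite G] {r : ℕ} (hr : r.Prime) (g : G) (k : ℕ) :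
    ∃ m j : ℕ, m ≡ 1 [MOD r ^ k] ∧ (g ^ m) ^ r ^ j = 1 := by
  obtain ⟨j, n, hn, e⟩ := Nat.exists_eq_pow_mul_and_not_dvd (orderOf_pos g).ne' r hr.ne_one
  obtain ⟨m, m1, m2⟩ := Nat.chineseRemainder
    (((Nat.Prime.coprime_iff_not_dvd hr).2 hn).pow_left k) 1 0
  refine ⟨m, j, m1, ?_⟩
  rw [← pow_mul, ← orderOf_dvd_iff_pow_eq_one, e, mul_comm]
  exact Nat.mul_dvd_mul_right (Nat.modEq_zero_iff_dvd.1 m2) _

variable {p : ℕ} {H V : Type} [Group H] [AddCommGroup V] [Module (ZMod p) V] [DistribMulAction H V]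

theorem smul_sc (h : H) (a : ZMod p) (v : V) : h • a • v = a • h • v :=
  ZMod.map_smul (DistribSMul.toAddMonoidHom V h) a v

theorem pow_smul_eig {h : H} {a : ZMod p} {v : V} (e : h • v = a • v) (n : ℕ) :
    h ^ n • v = a ^ n • v := by
  induction n with
  | zero => rw [pow_zero, pow_zero, one_smul, one_smul]
  | succ n ih => rw [pow_succ, mul_smul, e, smul_sc, ih, smul_smul, pow_succ']

theorem card_pow [Fact p.Prime] [Finite V] (U : AddSubgroup V) : ∃ n, Nat.card U = p ^ n := by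
  let U' : Submodule (ZMod p) V := AddSubgroup.toZModSubmodule p U
  have := Module.natCard_eq_pow_finrank (K := ZMod p) (V := U')
  rw [Nat.card_zmod] at this
  exact ⟨_, this⟩

theorem RV.ratH [Fact p.Prime] (h : RV p H V) : Rat H := fun x k hk =>
  let ⟨g, _, e⟩ := h.rat x 0 1 k (smul_zero x) one_ne_zero hk
  isConj_iff.2 ⟨g, e⟩

/-- The eigenvector property inside the centraliser of `c`. -/
theorem RV.ep (h : RV p H V) {c : H} {v : V} (e : c • v = v) {a : ZMod p} (ha : a ≠ 0) :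
    ∃ g : H, g • v = a • v ∧ Commute g c :=
  let ⟨g, e1, e2⟩ := h.rat c v a 1 e ha (Nat.coprime_one_left _)
  ⟨g, e1, mul_inv_eq_iff_eq_mul.1 (e2.trans (pow_one c))⟩

theorem RV.coprime [hp : Fact p.Prime] [Finite V] (h : RV p H V) :
    (Nat.card H).Coprime (Nat.card V) := by
  obtain ⟨n, hn⟩ := card_pow (p := p) (⊤ : AddSubgroup V)
  rw [AddSubgroup.card_top] at hn
  rw [hn]
  exact ((Nat.Prime.coprime_iff_not_dvd hp.out).2 h.cop).symm.pow_right n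

end Kit

end H91.AH
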