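import Cfsg.Agent.H33.SolvC3
import Cfsg.Agent.H12.CLKit

/-! VC tower (row S4070): vector stabilisers of small derived length in solvable completely
reducible linear groups.  Definitions, jobs, kit.  Proofs: `blueprints/VC.md`. -/

set_option autoImplicit false
set_option linter.unusedSectionVars false

namespace H91.VC

open H33.Solv Subgroup MulAction Module
open scoped commutatorElement

/-- The derived series of a subgroup. -/
def ds {G : Type} [Group G] (X : Subgroup G) : ℕ → Subgroup G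
  | 0 => X
  | n + 1 => ⁅ds X n, ds X n⁆

/-- `X` acts trivially on `Ω`. -/
def Triv {G : Type} (Ω : Type) [Group G] [MulAction G Ω] (X : Subgroup G) : Prop :=
  ∀ g ∈ X, ∀ x : Ω, g • x = x

/-- `c` points in different orbits with stabilisers of derived length `≤ d` modulo the kernel. -/
def Orb (G V : Type) [Group G] [MulAction G V] (c d : ℕ) : Prop :=
  ∃ u : ℕ → V, (∀ j < c, Triv V (ds (stabilizer G (u j)) d)) ∧
    ∀ j < c, ∀ k < c, ∀ g : G, g • u j = u k → j = k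

/-- The stabiliser of a colouring. -/
def cst (G : Type) {Ω : Type} [Group G] [MulAction G Ω] (χ : Ω → ℕ) : Subgroup G where
  carrier := {g | ∀ x, χ (g • x) = χ x}
  one_mem' x := by rw [one_smul]
  mul_mem' {a b} ha hb x := by rw [mul_smul, ha, hb]
  inv_mem' {a} ha x := by rw [← ha, smul_inv_smul]

/-- `c'` inequivalent colourings with `c` colours and stabilisers of derived length `≤ t`. -/
def PCol (G Ω : Type) [Group G] [MulAction G Ω] (c c' t : ℕ) : Prop :=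
  ∃ χ : ℕ → Ω → ℕ, (∀ j < c', (∀ x, χ j x < c) ∧ Triv Ω (ds (cst G (χ j)) t)) ∧
    ∀ j < c', ∀ k < c', ∀ g : G, (∀ x, χ j (g • x) = χ k x) → j = k

/-- The derived length table for completely reducible modules of order `m < 65536`. -/
def FF (m : ℕ) : ℕ :=
  if m < 3 then 0 else if m < 4 then 1 else if m < 9 then 2 else if m < 64 then 4 else
    if m < 4096 then 6 else 8

/-- The derived length table for permutation groups of degree `k ≤ 7`. -/
def hh (k : ℕ) : ℕ := if k < 2 then 0 else if k < 3 then 1 else if k < 4 then 2 else 3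

/-- A statement on a finite solvable group acting on a finite abelian group. -/
def AllV (P : ∀ (G V : Type) [Group G] [AddCommGroup V] [DistribMulAction G V], Prop) : Prop :=
  ∀ (G V : Type) [Group G] [Finite G] [AddCommGroup V] [Finite V] [DistribMulAction G V],
    Group.IsSolvable G → P G V

/-- A statement on a maximal subgroup of a finite solvable group. -/
def AllH (P : ∀ (G : Type) [Group G], Subgroup G → Prop) : Prop :=
  ∀ (G : Type) [Group G] [Finite G] (H : Subgroup G), Group.IsSolvable G → IsCoatom H → P G H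

def DL : Prop := AllV fun G V _ _ _ => CR G V → Nat.card V < 65536 →
  Triv V (ds (⊤ : Subgroup G) (FF (Nat.card V)))

def PD : Prop := ∀ (G : Type) [Group G] [Finite G], Group.IsSolvable G → ∀ (X H : Subgroup G)
  (L : ℕ), L ≤ 7 → H.relIndex X ≤ L → ds X (hh L) ≤ H

def MainA : Prop := AllV fun G V _ _ _ => CR G V → Orb G V 1 9

def MainB : Prop := AllV fun G V _ _ _ => Odd (Nat.card G) → Odd (Nat.card V) → CR G V → Orb G V 1 1

/-! ### Permutation groups -/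

/-- The coset space of `H` is the affine space `M`. -/
structure Aff {G M : Type} [Group G] [AddCommGroup M] [DistribMulAction G M] (H : Subgroup G)
    (β : G → M) : Prop where
  irr : Irr G M
  surj : Function.Surjective β
  eq : ∀ x y, β x = β y ↔ x⁻¹ * y ∈ H
  coc : ∀ g x, β (g * x) = β g + g • β x
  card : Nat.card M = H.index

def JobAFF : Prop := AllH fun G _ H => ∃ (M : Type) (_ : AddCommGroup M) (_ : Finite M)
  (_ : DistribMulAction G M) (β : G → M), Aff H β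

def JobPD : Prop := JobAFF → DL → PD

def JobBASE : Prop := JobAFF → AllH fun G _ H => ∃ B : Finset (G ⧸ H), B.card ≤ 4 ∧
  (H.index.Prime → B.card ≤ 2) ∧ ∀ g : G, (∀ x ∈ B, g • x = x) → ∀ x : G ⧸ H, g • x = x

/-- `c'` different size vectors: `c` classes, total `k`, all classes except `ρ` have size at most
`L`, and together at least `b`. -/
def SV (k b c c' L : ℕ) : Prop := ∃ (n : ℕ → ℕ → ℕ) (ρ : ℕ → ℕ),
  (∀ j < c', ∑ i ∈ Finset.range c, n j i = k ∧ b + n j (ρ j) ≤ k ∧ ∀ i < c, i ≠ ρ j → n j i ≤ L) ∧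
    ∀ j < c', ∀ j' < c', (∀ i < c, n j i = n j' i) → j = j'

def JobSV : Prop := ∀ k b : ℕ, 2 ≤ k → b ≤ k → b ≤ 4 → (k.Prime → b ≤ 2) →
  SV k b 5 5 1 ∧ SV k b 4 5 2 ∧ SV k b 3 5 3 ∧ (SV k b 2 3 2 ∨ SV k b 2 4 3 ∨ SV k b 2 5 7)

def JobCOL : Prop := PD → ∀ (G Ω : Type) [Group G] [Finite G] [Finite Ω] [MulAction G Ω],
  Group.IsSolvable G → ∀ (B : Finset Ω) (c c' L : ℕ), L ≤ 7 →
    (∀ g : G, (∀ x ∈ B, g • x = x) → ∀ x : Ω, g • x = x) → SV (Nat.card Ω) B.card c c' L →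
    PCol G Ω c c' (hh L)

def JobODC : Prop := AllH fun G _ H => Odd (Nat.card G) → PCol G (G ⧸ H) 2 2 0

/-! ### Imprimitive modules -/

/-- The output of `H33.Solv.coarsen`. -/
structure Imp {G V : Type} [Group G] [AddCommGroup V] [DistribMulAction G V] (e : V →+ V)
    (H : Subgroup G) : Prop where
  irr : Irr G V
  ne : e ≠ 0
  idem : ∀ v, e (e v) = e v
  comm : ∀ h ∈ H, ∀ v, h • e v = e (h • v)
  orth : ∀ g ∉ H, ∀ v, e (g • e v) = 0

def JobIMP : Prop := AllV fun G V _ _ _ => ∀ (e : V →+ V) (H : Subgroup G) (m : Imp e H)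
  (c d c' t : ℕ), @Orb H e.range _ (subAct _ (inv_range m.comm)).toMulAction c d →
    PCol G (G ⧸ H) c c' t → Orb G V c' (t + d)

def JobIMD : Prop := AllV fun G V _ _ _ => ∀ (e : V →+ V) (H : Subgroup G) (m : Imp e H),
  Nat.card e.range ^ H.index ≤ Nat.card V ∧ ∀ a b : ℕ,
    @Triv H e.range _ (subAct _ (inv_range m.comm)).toMulAction (ds ⊤ a) →
    ds (⊤ : Subgroup G) b ≤ H → Triv V (ds (⊤ : Subgroup G) (b + a))

/-! ### Primitive modules -/

/-- The primitive setting: `Z` the scalars, `W = N / Z`. -/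
structure Cx {K G V W : Type} [Field K] [Group G] [AddCommGroup V] [Module K V]
    [DistribMulAction G V] [AddCommGroup W] [DistribMulAction G W] (s : Scal K G V)
    (N : Subgroup G) (π : G → W) : Prop where
  sol : Group.IsSolvable G
  ns : NS s.ι.range N
  sec : Sec s.ι.range N π
  act : ∀ g : G, ∀ a ∈ N, g • π a = π (g * a * g⁻¹)

def AllC (P : ∀ (K G V W : Type) [Field K] [Group G] [AddCommGroup V] [Module K V]
    [DistribMulAction G V] [AddCommGroup W] [DistribMulAction G W],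
    (_ _ _ : Subgroup G) → Prop) : Prop :=
  ∀ (K G V W : Type) [Field K] [Finite K] [Group G] [Finite G] [AddCommGroup V] [Module K V]
    [Finite V] [Nontrivial V] [DistribMulAction G V] [FaithfulSMul G V] [AddCommGroup W] [Finite W]
    [DistribMulAction G W] (s : Scal K G V) (N : Subgroup G) (π : G → W), Cx s N π →
    P K G V W s.ι.range N (centralizer (s.ι.range : Set G))

def JobKER : Prop := AllC fun _ G V W _ _ _ _ _ _ _ _ N C => ds (⊤ : Subgroup G) 1 ≤ C ∧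
  (∀ X : Subgroup G, X ≤ C → Triv W X → X ≤ N) ∧ ds N 2 = ⊥ ∧
  ∀ v : V, v ≠ 0 → ds (N ⊓ stabilizer G v) 1 = ⊥

def JobSZ : Prop := AllC fun K _ V W _ _ _ _ _ _ _ _ _ _ => ∃ e : ℕ, Nat.card W = e * e ∧
  e ≤ finrank K V ∧ ∀ r : ℕ, r.Prime → r ∣ e → r ∣ Nat.card K - 1

def JobORA : Prop := AllC fun K G _ W _ _ _ _ _ _ _ _ _ _ =>
  Nat.card G ≤ (Nat.card K - 1).totient * (Nat.card K - 1) * Nat.card W ^ 4

def JobFIX : Prop := AllC fun K _ V W _ _ _ _ _ _ _ Z _ C => ∀ g ∈ C, g ∉ Z →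
  Nat.card (fix V g) ≤ Nat.card K ^ ((finrank K V + finrank K V / (Nat.card W).minFac) / 2)

def JobCNT : Prop := ∀ (G V : Type) [Group G] [Finite G] [Finite V] [MulAction G V] (S : Set V)
  (c : ℕ), S.ncard + c * Nat.card G < Nat.card V → ∃ u : ℕ → V, (∀ j ≤ c, u j ∉ S) ∧
    ∀ j ≤ c, ∀ k ≤ c, ∀ g : G, g • u j = u k → j = k

def JobREG : Prop := AllC fun _ G V _ _ _ _ _ _ _ _ Z _ C => ∀ b : ℕ,
  (∀ g ∈ C, g ∉ Z → Nat.card (fix V g) ≤ b) →
    {v : V | C ⊓ stabilizer G v ≠ ⊥}.ncard ≤ Nat.card G * b + 1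

def JobARA : Prop := ∀ q e n g : ℕ, 2 ≤ q → e ≤ n → (∀ r : ℕ, r.Prime → r ∣ e → r ∣ q - 1) →
  g ≤ (q - 1).totient * (q - 1) * (e * e) ^ 4 →
  (10 ≤ e → e ≠ 16 → 1 + 2 * g < q ^ n) ∧ (64 ≤ e → 1 + 4 * g < q ^ n) ∧
  (256 ≤ e → ∀ r, 2 ≤ r → g * q ^ ((n + n / r) / 2) + 1 + 4 * g < q ^ n)

def JobARF : Prop := (∀ a b, a ≤ b → FF a ≤ FF b) ∧
  (∀ b k m, 2 ≤ b → 2 ≤ k → b ^ k ≤ m → m < 65536 → FF k + 1 + FF b ≤ FF m) ∧
  ∀ q e n, 2 ≤ q → 2 ≤ e → e ≤ n → (∀ r : ℕ, r.Prime → r ∣ e → r ∣ q - 1) → q ^ n < 65536 →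
    e * e < q ^ n ∧ FF (e * e) + 2 ≤ FF (q ^ n)

open H12.CL in
def JobTY2 : Prop := AllX fun r _ _ W _ _ _ _ _ S =>
  (∀ T : Submodule (ZMod r) W, (∀ a, a ∈ T ↔ S.Gd a) → ∀ a ∈ T, (∀ b ∈ T, S.B a b = 0) → a = 0) →
    Ty S.B S.Gd

open H12.CL in
def JobSTX : Prop := AllP fun r _ V W _ _ _ _ _ S M N _ _ => ∀ A : Finset W, 0 ∈ A →
  (∀ a ∈ A, a ∈ N) → ¬ r ∣ A.card → ∃ v : V, v ≠ 0 ∧ ∀ a, S.St v a ↔ a ∈ M ∧ ∀ b ∈ A, S.B a b = 0

open H12.CL in
def ST3 : Prop := AllX fun r _ V W _ _ _ _ _ S => Ty S.B S.Gd → 64 ≤ Nat.card W → r ≤ 3 →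
  (∃ u : Fin 3 → V, (∀ i, u i ≠ 0) ∧ Function.Injective fun i => {a | S.St (u i) a}.ncard) ∨
  (Nat.card W = 64 ∧ ∃ v w : V, v ≠ 0 ∧ {a | S.St v a}.ncard = 4 ∧ w ≠ 0 ∧
    {a | S.St w a}.ncard = 1)

def JobST3 : Prop := JobSTX → ST3

def ST : Prop := AllC fun _ G V W _ _ _ _ _ _ _ _ N _ =>
  Nat.card W = 64 ∨ Nat.card W = 81 ∨ Nat.card W = 256 →
  (∃ u : Fin 3 → V, (∀ i, u i ≠ 0) ∧
    Function.Injective fun i => Nat.card ↥(N ⊓ stabilizer G (u i))) ∨
  (Nat.card W = 64 ∧ ∃ v w : V, v ≠ 0 ∧ Nat.card ↥(N ⊓ stabilizer G v) = 4 ∧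
    Nat.card ↥(N ⊓ stabilizer G w) = 1)

def JobBR : Prop := JobTY2 → ST3 → ST

def JobSP : Prop := PD → AllC fun _ G V W _ _ _ _ _ _ _ _ N _ => Nat.card W = 64 → ∀ v : V,
  v ≠ 0 → Nat.card ↥(N ⊓ stabilizer G v) = 4 → Triv W (ds (stabilizer G v) 4)

/-! ### Odd order -/

def JobSCO : Prop := AllV fun G V _ _ _ => Nontrivial V → Odd (Nat.card G) → Irr G V → QPrim G V →
  ∃ (K G' : Type) (_ : Field K) (_ : Finite K) (_ : Module K V) (_ : Group G') (_ : Finite G')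
    (_ : DistribMulAction G' V) (_ : FaithfulSMul G' V) (s : Scal K G' V), Group.IsSolvable G' ∧
    (∀ g : G, ∃ g' : G', ∀ v : V, g • v = g' • v) ∧ Odd s.ι.range.index

def JobBAD : Prop := AllC fun K G V _ _ _ _ _ _ _ _ Z _ C => Odd Z.index → ∀ b : ℕ,
  (∀ g ∈ C, g ∉ Z → Nat.card (fix V g) ≤ b) →
  (Z.relIndex C - 1) * (b + finrank K V * Nat.card K ^ (finrank K V / 2)) + 2 < 2 * Nat.card V →
    ∃ v : V, v ≠ 0 ∧ C ⊓ stabilizer G v = ⊥

def XS : Prop := AllV fun Y W _ _ _ => FaithfulSMul Y W → Odd (Nat.card Y) → CR Y W →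
  ∀ r : ℕ, r.Prime → (∀ w : W, r • w = 0) →
  (Nat.card W = 9 → Nat.card Y ≤ 1) ∧ (Nat.card W = 25 → Nat.card Y ≤ 3) ∧
  (Nat.card W = 49 → Nat.card Y ≤ 9) ∧ (Nat.card W = 81 → ¬ 13 ∣ Nat.card Y → Nat.card Y ≤ 5)

def X13 : Prop := AllC fun _ G _ W _ _ _ _ _ _ _ Z _ _ => Odd Z.index → Nat.card W = 81 →
  ∀ g : G, (∀ w : W, g ^ 13 • w = w) → ∀ w : W, g • w = w

def JobORB : Prop := XS → X13 → AllC fun _ _ _ W _ _ _ _ _ _ _ Z _ C => Odd Z.index →
  Z.relIndex C ≤ Nat.card W ^ 3 ∧ (Nat.card W = 9 → Z.relIndex C ≤ 9) ∧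
  (Nat.card W = 25 → Z.relIndex C ≤ 75) ∧ (Nat.card W = 49 → Z.relIndex C ≤ 441) ∧
  (Nat.card W = 81 → Z.relIndex C ≤ 405)

def JobO27 : Prop := AllC fun _ _ _ W _ _ _ _ _ _ _ Z _ C => Odd Z.index → Nat.card W = 729 →
  Z.relIndex C ≤ 729 * (364 * 243)

def JobARB : Prop := ∀ q e n T : ℕ, 2 ≤ q → Odd q → 2 ≤ e → Odd e → e ≤ n →
  (∀ r : ℕ, r.Prime → r ∣ e → r ∣ q - 1) → T ≤ (e * e) ^ 3 → (e = 3 → T ≤ 9) → (e = 5 → T ≤ 75) →
  (e = 7 → T ≤ 441) → (e = 9 → T ≤ 405) → (e = 27 → T ≤ 729 * (364 * 243)) →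
  (T - 1) * (q ^ ((n + n / (e * e).minFac) / 2) + n * q ^ (n / 2)) + 2 < 2 * q ^ n

/-! ### The row -/

def Stmt.{u, v} : Prop := ∀ {G : Type u} {V : Type v} [Group G] [Finite G] [Group.IsSolvable G]
    {p : ℕ} [Fact p.Prime] [AddCommGroup V] [Module (ZMod p) V] [Finite V] [DistribMulAction G V]
    [FaithfulSMul G V], (∀ W : Submodule (ZMod p) V, (∀ (g : G) (w : V), w ∈ W → g • w ∈ W) →
      ∃ W' : Submodule (ZMod p) V, (∀ (g : G) (w : V), w ∈ W' → g • w ∈ W') ∧ IsCompl W W') →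
    (∃ v : V, derivedSeries ↥(stabilizer G v) 9 = ⊥) ∧
    (Odd (Nat.card G) → p ≠ 2 → ∃ v : V, IsMulCommutative ↥(stabilizer G v))

def JobWRAP.{u, v} : Prop := MainA → MainB → Stmt.{u, v}

/-! ### Kit -/

section Kit

variable {G G' : Type} [Group G] [Group G'] {X Y : Subgroup G}

@[simp] theorem ds_zero (X : Subgroup G) : ds X 0 = X := rfl
theorem ds_succ (X : Subgroup G) (n : ℕ) : ds X (n + 1) = ⁅ds X n, ds X n⁆ := rfl
theorem ds_one (X : Subgroup G) : ds X 1 = ⁅X, X⁆ := rfl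

theorem ds_mono (h : X ≤ Y) : ∀ n, ds X n ≤ ds Y n
  | 0 => h
  | n + 1 => commutator_mono (ds_mono h n) (ds_mono h n)

theorem ds_add (X : Subgroup G) (m : ℕ) : ∀ n, ds X (m + n) = ds (ds X m) n
  | 0 => rfl
  | n + 1 => by rw [← add_assoc, ds_succ, ds_succ, ds_add X m n]

theorem ds_le (X : Subgroup G) : ∀ n, ds X n ≤ X
  | 0 => le_rfl
  | n + 1 => (commutator_le.2 fun _ ha _ hb => by
      rw [commutatorElement_def]
      exact mul_mem (mul_mem (mul_mem ha hb) (inv_mem ha)) (inv_mem hb)).trans (ds_le X n)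

theorem ds_anti (X : Subgroup G) {m n : ℕ} (h : m ≤ n) : ds X n ≤ ds X m := by
  obtain ⟨k, rfl⟩ := Nat.exists_eq_add_of_le h
  rw [ds_add]; exact ds_le _ _

/-- `ds X m ≤ Y` and `ds Y n ≤ Z` give `ds X (m + n) ≤ Z`. -/
theorem ds_trans {Z : Subgroup G} {m n : ℕ} (h : ds X m ≤ Y) (h' : ds Y n ≤ Z) :
    ds X (m + n) ≤ Z := by
  rw [ds_add]; exact (ds_mono h n).trans h'

theorem ds_map (φ : G →* G') (X : Subgroup G) : ∀ n, (ds X n).map φ = ds (X.map φ) n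
  | 0 => rfl
  | n + 1 => by rw [ds_succ, ds_succ, Subgroup.map_commutator, ds_map φ X n]

theorem ds_le_comap (φ : G →* G') {X' : Subgroup G'} (h : X ≤ X'.comap φ) (n : ℕ) :
    ds X n ≤ (ds X' n).comap φ :=
  map_le_iff_le_comap.1 ((ds_map φ X n).le.trans (ds_mono (map_le_iff_le_comap.2 h) n))

theorem ds_top (n : ℕ) : ds (⊤ : Subgroup G) n = derivedSeries G n := by
  induction n with
  | zero => rfl
  | succ n ih => rw [ds_succ, derivedSeries_succ, ih]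

instance ds_normal (X : Subgroup G) [X.Normal] : ∀ n, (ds X n).Normal
  | 0 => ‹_›
  | n + 1 => have := ds_normal X n; Subgroup.commutator_normal _ _

/-- The series of `X` computed inside `X`. -/
theorem ds_sub (X : Subgroup G) (n : ℕ) : (ds (⊤ : Subgroup X) n).map X.subtype = ds X n := by
  rw [ds_map, ← MonoidHom.range_eq_map, range_subtype]

theorem mem_ds_conj (g : G) {a : G} {n : ℕ} (h : ∀ x ∈ X, g * x * g⁻¹ ∈ Y) (ha : a ∈ ds X n) :
    g * a * g⁻¹ ∈ ds Y n :=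
  ds_le_comap (MulAut.conj g).toMonoidHom (X' := Y) h n ha

variable {Ω : Type} [MulAction G Ω]

theorem Triv.mono (h : Triv Ω Y) (k : X ≤ Y) : Triv Ω X := fun g hg => h g (k hg)

theorem Triv.anti {m n : ℕ} (h : Triv Ω (ds X m)) (k : m ≤ n) : Triv Ω (ds X n) :=
  h.mono (ds_anti X k)

theorem Triv.of_bot (h : X = ⊥) : Triv Ω X := fun g hg x => by
  rw [h, mem_bot] at hg
  rw [hg, one_smul]

theorem Triv.eq_bot [FaithfulSMul G Ω] (h : Triv Ω X) : X = ⊥ :=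
  eq_bot_iff.2 fun g hg => eq_of_smul_eq_smul (α := Ω) fun x => by rw [h g hg, one_smul]

theorem triv_iff : Triv Ω X ↔ X ≤ (toPermHom G Ω).ker :=
  ⟨fun h g hg => Equiv.ext (h g hg), fun h _ hg x => DFunLike.congr_fun (h hg) x⟩

theorem mem_cst {χ : Ω → ℕ} {g : G} : g ∈ cst G χ ↔ ∀ x, χ (g • x) = χ x := Iff.rfl

theorem Orb.mono {c d c' d' : ℕ} (h : Orb G Ω c d) (hc : c' ≤ c) (hd : d ≤ d') : Orb G Ω c' d' :=
  let ⟨u, h1, h2⟩ := h
  ⟨u, fun j hj => (h1 j (hj.trans_le hc)).anti hd,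
    fun j hj k hk => h2 j (hj.trans_le hc) k (hk.trans_le hc)⟩

theorem exists_hom [MulAction G' Ω] [FaithfulSMul G' Ω]
    (e : ∀ g : G, ∃ g' : G', ∀ v : Ω, g • v = g' • v) : ∃ φ : G →* G', ∀ g (v : Ω), g • v = φ g • v := by
  choose f hf using e
  exact ⟨MonoidHom.mk' f fun a b => eq_of_smul_eq_smul (α := Ω) fun v => by
    rw [← hf, mul_smul, mul_smul, ← hf, ← hf], hf⟩

theorem Triv.comap [MulAction G' Ω] {φ : G →* G'} (e : ∀ g (v : Ω), g • v = φ g • v)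
    {X' : Subgroup G'} (k : X ≤ X'.comap φ) {n : ℕ} (h : Triv Ω (ds X' n)) : Triv Ω (ds X n) :=
  fun g hg v => (e g v).trans (h _ (ds_le_comap φ k n hg) v)

theorem Orb.comap [MulAction G' Ω] {φ : G →* G'} (e : ∀ g (v : Ω), g • v = φ g • v) {c d : ℕ}
    (h : Orb G' Ω c d) : Orb G Ω c d :=
  let ⟨u, h1, h2⟩ := h
  ⟨u, fun j hj => Triv.comap e (X' := stabilizer G' (u j))
    (fun g hg => (e g _).symm.trans hg) (h1 j hj),
    fun j hj k hk g hg => h2 j hj k hk (φ g) ((e g _).symm.trans hg)⟩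

variable {W : Type} [AddCommGroup W] [DistribMulAction G W]

/-- Trivial on `A / B` and on `B / C` gives: the commutator subgroup is trivial on `A / C`. -/
theorem chain {A B C : AddSubgroup W}
    (h1 : ∀ g ∈ X, ∀ w ∈ A, g • w - w ∈ B) (h2 : ∀ g ∈ X, ∀ w ∈ B, g • w - w ∈ C)
    (hA : ∀ g ∈ X, ∀ w ∈ A, g • w ∈ A) : ∀ g ∈ ds X 1, ∀ w ∈ A, g • w - w ∈ C := by
  let L : Subgroup G :=
    { carrier := {g | g ∈ X ∧ ∀ w ∈ A, g • w - w ∈ C}
      one_mem' := ⟨one_mem _, fun w _ => by rw [one_smul, sub_self]; exact zero_mem _⟩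
      mul_mem' := fun {a b} ha hb => ⟨mul_mem ha.1 hb.1, fun w hw => by
        rw [mul_smul, ← sub_add_sub_cancel _ (b • w)]
        exact add_mem (ha.2 _ (hA b hb.1 w hw)) (hb.2 w hw)⟩
      inv_mem' := fun {a} ha => ⟨inv_mem ha.1, fun w hw => by
        have := neg_mem (ha.2 _ (hA _ (inv_mem ha.1) w hw))
        rwa [smul_inv_smul, neg_sub] at this⟩ }
  refine fun g hg => ((commutator_le (H₃ := L)).2 (fun a ha b hb => ⟨ds_le X 1
    (commutator_mem_commutator ha hb), fun w hw => ?_⟩) hg).2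
  obtain ⟨w, rfl⟩ : ∃ w', (b * a) • w' = w := MulAction.surjective (b * a) w
  have hw' : w ∈ A := by
    have := hA _ (inv_mem (mul_mem hb ha)) _ hw
    rwa [inv_smul_smul] at this
  rw [← mul_smul, show ⁅a, b⁆ * (b * a) = a * b by rw [commutatorElement_def]; group, mul_smul,
    mul_smul, show a • b • w - b • a • w = (a • (b • w - w) - (b • w - w)) -
      (b • (a • w - w) - (a • w - w)) by rw [smul_sub, smul_sub]; abel]
  exact sub_mem (h2 a ha _ (h1 b hb w hw')) (h2 b hb _ (h1 a ha w hw'))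

end Kit

section KitC

variable {K G V W : Type} [Field K] [Group G] [Finite G] [AddCommGroup V] [Module K V]
  [DistribMulAction G V] [AddCommGroup W] [DistribMulAction G W] {s : Scal K G V}
  {N : Subgroup G} {π : G → W} (c : Cx s N π)
include c

theorem Cx.cr : CR G W := c.ns.cr c.ns.nn c.ns.le le_rfl c.sec c.act

theorem Cx.le_C : N ≤ centralizer (s.ι.range : Set G) := fun a ha z hz => c.ns.cent a ha z hz

theorem Cx.triv {a : G} (ha : a ∈ N) (w : W) : a • w = w := by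
  obtain ⟨b, hb, rfl⟩ := c.sec.surj w
  rw [c.act a b hb, show a * b * a⁻¹ = ⁅a, b⁆ * b by rw [commutatorElement_def]; group,
    c.sec.mul _ (c.ns.le (c.ns.comm a ha b hb)) b hb,
    (c.sec.zero _ (c.ns.le (c.ns.comm a ha b hb))).2 (c.ns.comm a ha b hb), zero_add]

/-- A linear element that acts trivially on `W` lies in `N`. -/
theorem Cx.ker {g : G} (hg : g ∈ centralizer (s.ι.range : Set G)) (h : ∀ w : W, g • w = w) :
    g ∈ N := c.ns.n3 hg fun a ha => by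
  have h1 := c.ns.nn.conj_mem a ha g
  rw [commutatorElement_def, ← c.sec.zero _ (mul_mem h1 (inv_mem ha)), c.sec.mul _ h1 _ (inv_mem ha),
    ← c.act g a ha, h, c.sec.inv ha, add_neg_cancel]

/-- If the order of `W` is a power of `r`, then `W` has exponent `r`. -/
theorem Cx.elem {r k : ℕ} (h : Nat.card W = r ^ k) (hk : k ≠ 0) (w : W) : r • w = 0 := by
  obtain ⟨a, ha, rfl⟩ := c.sec.surj w
  have key : ∀ j, a ^ r ^ (j + 1) ∈ s.ι.range → a ^ r ∈ s.ι.range := fun j => by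
    induction j with
    | zero => simp
    | succ j ih =>
      refine fun e => ih ?_
      have := c.ns.sqfree (pow_mem ha (r ^ j)) (r := r) (by
        rwa [← pow_mul, ← mul_assoc, ← pow_succ, ← pow_succ])
      rwa [← pow_mul, ← pow_succ] at this
  obtain ⟨j, rfl⟩ := Nat.exists_eq_succ_of_ne_zero hk
  rw [← c.sec.pow ha, c.sec.zero _ (pow_mem ha _)]
  refine key j ((c.sec.zero _ (pow_mem ha _)).1 ?_)
  rw [c.sec.pow ha, ← h, card_nsmul_eq_zero']

end KitC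

end H91.VC
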