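import Mathlib
import Cfsg.Agent.H42.IVSpec

/-! Tower IV, job C: the centralizer of `a` centralises a fixed point free involution. -/

set_option autoImplicit false

namespace H91.IVC

open H42.IV Subgroup Nat

universe u

theorem card_cen {Ω : Type*} [Fintype Ω] [DecidableEq Ω] (ι : Equiv.Perm Ω) (h2 : ι ^ 2 = 1)
    (hf : ∀ x, ι x ≠ x) {h : ℕ} (hc : Fintype.card Ω ≤ 2 * h) :
    Nat.card (centralizer ({ι} : Set (Equiv.Perm Ω))) ≤ 2 ^ h * h ! := by
  have : Fact (Nat.Prime 2) := ⟨Nat.prime_two⟩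
  have e := Equiv.Perm.cycleType_of_pow_prime_eq_one h2
  have s : ι.cycleType.sum = Fintype.card Ω := by
    rw [Equiv.Perm.sum_cycleType, ← Finset.card_univ]
    exact congrArg _ (Finset.eq_univ_of_forall fun x => Equiv.Perm.mem_support.2 (hf x))
  rw [Equiv.Perm.nat_card_centralizer, s, Nat.sub_self, factorial_zero, one_mul]
  generalize ι.cycleType.card = k at e
  rw [e] at s ⊢
  rw [Multiset.sum_replicate, smul_eq_mul] at s
  have kh : k ≤ h := by omega
  rw [Multiset.prod_replicate]
  refine Nat.mul_le_mul (Nat.pow_le_pow_right two_pos kh) ?_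
  rw [Multiset.toFinset_replicate]
  split_ifs
  · exact factorial_pos h
  · rw [Finset.prod_singleton, Multiset.count_replicate_self]
    exact factorial_le kh

theorem jobC : JobC.{u} := by
  intro H _ _ a h st hJ hz
  classical
  let Ω : Set H := J a \ {1}
  have := Fintype.ofFinite Ω
  have hΩ : Fintype.card Ω ≤ 2 * h := by
    rw [← Nat.card_eq_fintype_card, Nat.card_coe_set_eq,
      Set.ncard_diff_singleton_of_mem (show (1 : H) ∈ J a from ⟨by simp, by simp⟩)]
    omega
  have cj : ∀ (g : centralizer ({a} : Set H)) (x : Ω), (g : H) * x * (g : H)⁻¹ ∈ Ω := fun g x => by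
    have c : (g : H) * a = a * g := mem_centralizer_singleton_iff.1 g.2
    refine ⟨⟨?_, ?_⟩, fun e => x.2.2 (conj_eq_one_iff.1 e)⟩
    · rw [show (g : H) * x * (g : H)⁻¹ = MulAut.conj (g : H) x from rfl, MulEquiv.orderOf_eq]
      exact x.2.1.1
    · calc a * ((g : H) * x * (g : H)⁻¹) * a⁻¹ = (a * g) * x * (a * g)⁻¹ := by group
        _ = g * (a * x * a⁻¹) * (g : H)⁻¹ := by rw [← c]; group
        _ = _ := by rw [x.2.1.2]; group
  have iv : ∀ x : Ω, (x : H)⁻¹ ∈ Ω := fun x => ⟨⟨by rw [orderOf_inv]; exact x.2.1.1, by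
    rw [show a * (x : H)⁻¹ * a⁻¹ = (a * x * a⁻¹)⁻¹ by group, x.2.1.2]⟩, fun e => x.2.2 (inv_eq_one.1 e)⟩
  let ι : Equiv.Perm Ω := ⟨fun x => ⟨_, iv x⟩, fun x => ⟨_, iv x⟩,
    fun x => Subtype.ext (inv_inv _), fun x => Subtype.ext (inv_inv _)⟩
  let f : centralizer ({a} : Set H) →* Equiv.Perm Ω := MonoidHom.toHomPerm
    { toFun := fun g x => ⟨_, cj g x⟩
      map_one' := funext fun x => Subtype.ext (by simp [Function.End.one_def])
      map_mul' := fun g k => funext fun x => Subtype.ext (by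
        change (g : H) * k * x * ((g : H) * k)⁻¹ = g * (k * x * (k : H)⁻¹) * (g : H)⁻¹
        group) }
  have hf : ∀ g x, (f g x : H) = g * x * (g : H)⁻¹ := fun _ _ => rfl
  have hi : Function.Injective f := (injective_iff_map_eq_one f).2 fun g e => by
    have l : closure (insert a (J a)) ≤ centralizer {(g : H)} := (closure_le _).2 (by
      rintro x (rfl | hx)
      · exact mem_centralizer_singleton_iff.2 (mem_centralizer_singleton_iff.1 g.2).symm
      by_cases x1 : x = 1
      · exact x1 ▸ one_mem _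
      have := hf g ⟨x, hx, x1⟩
      rw [e] at this
      exact mem_centralizer_singleton_iff.2 (eq_mul_inv_iff_mul_eq.1 this))
    have : (g : H) ∈ center H := mem_center_iff.2 fun x =>
      mem_centralizer_singleton_iff.1 (l (st.gen ▸ mem_top x))
    exact Subtype.ext (mem_bot.1 (hz ▸ this))
  refine le_trans (Nat.card_le_card_of_injective (fun g => (⟨f g, mem_centralizer_singleton_iff.2
    (Equiv.ext fun x => Subtype.ext ?_)⟩ : centralizer ({ι} : Set (Equiv.Perm Ω))))
    fun g k e => hi (congrArg Subtype.val e)) (card_cen ι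
      (Equiv.ext fun x => Subtype.ext (inv_inv _)) (fun x e => x.2.2 ?_) hΩ)
  · change (g : H) * (x : H)⁻¹ * (g : H)⁻¹ = ((g : H) * x * (g : H)⁻¹)⁻¹
    group
  · have e' : (x : H)⁻¹ = x := congrArg Subtype.val e
    have : orderOf (x : H) ∣ 2 := orderOf_dvd_of_pow_eq_one (by
      rw [pow_two]; nth_rewrite 1 [← e']; exact inv_mul_cancel _)
    exact orderOf_eq_one_iff.1 ((Nat.coprime_two_right.2 x.2.1.1).eq_one_of_dvd this)

end H91.IVC
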