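import Cfsg.Agent.H91.CL3Def

/-! CL3 tower (row S3621), chapters 0-2: the jobs.  Notes: `blueprints/CL3a.md`. -/

set_option autoImplicit false
set_option linter.unusedSectionVars false

namespace H91.CL

open Subgroup
open scoped commutatorElement Pointwise

/-- The only invariant equivalence relations are the trivial ones. -/
def Prim (G Ω : Type) [Group G] [MulAction G Ω] : Prop :=
  ∀ r : Setoid Ω, (∀ (g : G) (a b : Ω), r a b → r (g • a) (g • b)) → r = ⊥ ∨ r = ⊤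

section Defs

variable (G : Type) {V : Type} [Group G] [AddCommGroup V] [DistribMulAction G V]

variable (V) in
/-- The only invariant subgroups are the trivial ones. -/
def Irr : Prop := ∀ W : AddSubgroup V, (∀ (g : G), ∀ x ∈ W, g • x ∈ W) → W = ⊥ ∨ W = ⊤

/-- `h` agrees on triples with the affine maps of `G`. -/
def T3 (h : V → V) : Prop :=
  ∀ x y z, ∃ (c : V) (g : G), h x = c + g • x ∧ h y = c + g • y ∧ h z = c + g • z

/-- Every permutation of the 3-closure of `V : G` that fixes `0` is additive. -/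
def AffAdd (V : Type) [AddCommGroup V] [DistribMulAction G V] : Prop :=
  ∀ h : Equiv.Perm V, h 0 = 0 → T3 G h → ∀ x y, h (x + y) = h x + h y

/-- `V` is the direct sum of the (at least two) members of `J`, and `G` permutes them. -/
structure Dec (J : Set (AddSubgroup V)) : Prop where
  ind : sSupIndep J
  top : sSup J = ⊤
  ne : ⊥ ∉ J
  two : J.Nontrivial
  perm : ∀ (g : G), ∀ W ∈ J, g • W ∈ J

end Defs

/-- A statement on a finite group acting on a finite abelian group. -/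
def AllV (P : ∀ (V G : Type) [AddCommGroup V] [Group G] [DistribMulAction G V], Prop) : Prop :=
  ∀ (V G : Type) [AddCommGroup V] [Finite V] [Group G] [Finite G] [DistribMulAction G V], P V G

/-- A statement on `H` in the closure of the solvable group `G`. -/
def AllL (P : ∀ (V G H : Type) [AddCommGroup V] [Group G] [Group H] [DistribMulAction G V]
    [DistribMulAction H V], Prop) : Prop :=
  ∀ (V G H : Type) [AddCommGroup V] [Finite V] [Group G] [Finite G] [Group H] [Finite H]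
    [DistribMulAction G V] [DistribMulAction H V], Group.IsSolvable G → PC G H V → P V G H

/-! ### Chapter 0 -/

def JobIDEM : Prop := AllV fun V G _ _ _ => Nontrivial V → ∀ (p : ℕ) (A : Subgroup G), p.Prime →
  (∀ v : V, p • v = 0) → A.Normal → (∀ a ∈ A, ∀ b ∈ A, a * b = b * a) → ¬ p ∣ Nat.card A →
  (∃ J : Set (AddSubgroup V), Dec G J ∧ ∀ W ∈ J, ∀ a ∈ A, a • W = W) ∨
  ∃ (K : Type) (_ : Field K) (_ : Finite K) (_ : Module K V), (∀ g : G, Semi K V g) ∧
    (∀ a ∈ A, ∃ c : K, ∀ v : V, a • v = c • v) ∧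
    AddSubgroup.closure {c : K | ∃ a ∈ A, ∀ v : V, a • v = c • v} = ⊤

def JobSING : Prop := ∀ (K : Type) [Field K] [Finite K] (h : K → K), Function.Injective h →
  (∀ u v, ∃ (c : K) (σ : K ≃+* K) (a b : ℤ), h u = a • (c * σ u) ∧ h v = b • (c * σ v)) →
  ∃ (c : K) (σ : K ≃+* K), ∀ u, ∃ a : ℤ, h u = a • (c * σ u)

def JobIrr : Prop := AllV fun V G _ _ _ => Nontrivial V → FaithfulSMul G V → Irr G V →
  ∃ p : ℕ, p.Prime ∧ (∀ v : V, p • v = 0) ∧ ∀ A : Subgroup G, A.Normal →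
    (∀ a ∈ A, ∀ b ∈ A, a * b = b * a) → ¬ p ∣ Nat.card A

/-! ### Chapter 1 -/

def JobPRed : Prop := ∀ (Ω G H : Type) [Finite Ω] [Group G] [Finite G] [Group H] [Finite H]
  [MulAction G Ω] [MulAction H Ω], PP (Nat.card Ω) → Group.IsSolvable G → C3 G H Ω →
  ¬ Prim G Ω → SolOn H Ω

def JobPStr : Prop := ∀ (Ω G : Type) [Finite Ω] [Group G] [Finite G] [MulAction G Ω],
  Group.IsSolvable G → Prim G Ω → (∃ (g : G) (x : Ω), g • x ≠ x) →
  ∃ (_ : AddCommGroup Ω) (G₀ : Type) (_ : Group G₀) (_ : Finite G₀) (_ : DistribMulAction G₀ Ω),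
    Group.IsSolvable G₀ ∧ FaithfulSMul G₀ Ω ∧ Irr G₀ Ω ∧
    ∀ g : G, ∃ (c : Ω) (g₀ : G₀), ∀ x : Ω, g • x = c + g₀ • x

def JobPEnd : Prop := AllV fun V G _ _ _ => ∀ (H : Type) [Group H] [Finite H] [MulAction H V],
  LL (Nat.card V + 1) → Group.IsSolvable G → (∀ h : H, T3 G fun x : V => h • x) → AffAdd G V →
  SolOn H V

def JobADD1 : Prop := AllV fun V G _ _ _ => ∀ (K : Type) [Field K] [Finite K] [Module K V],
  (∀ v : V, v + v = 0) → 2 < Nat.card K → (∀ g : G, Semi K V g) → AffAdd G V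

def JobHAM : Prop := AllV fun V G _ _ _ => ∀ J : Set (AddSubgroup V), Dec G J →
  ∀ h : Equiv.Perm V, h 0 = 0 → T3 G h →
    (∀ W ∈ J, ∀ x ∈ W, ∀ y ∈ W, h (x + y) = h x + h y) → ∀ x y, h (x + y) = h x + h y

def JobAff2 : Prop := AllV fun V G _ _ _ => ∀ A : Subgroup G, (∀ v : V, v + v = 0) → A.Normal →
  (∀ a ∈ A, ∀ b ∈ A, a * b = b * a) → ¬ 2 ∣ Nat.card A →
  (∀ v : V, (∀ a ∈ A, a • v = v) → v = 0) → AffAdd G V

def JobAff : Prop := AllV fun V G _ _ _ => Group.IsSolvable G → FaithfulSMul G V → Irr G V →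
  AffAdd G V

/-! ### Chapter 2 -/

def JobLRed : Prop := AllL fun V G H _ _ _ _ _ => LL (Nat.card V) → ¬ Irr G V → SolOn H V

def JobLImp : Prop := AllL fun V G H _ _ _ _ _ => PP (Nat.card V) → LL (Nat.card V) →
  ∀ J : Set (AddSubgroup V), Dec G J → SolOn H V

def JobLSemi : Prop := AllL fun V G H _ _ _ _ _ => ∀ (K : Type) [Field K] [Finite K] [Module K V],
  (∀ g : G, Semi K V g) → ∀ h : H, Semi K V h

section K

variable {K : Type} (V : Type) {Γ : Type} [Field K] [AddCommGroup V] [Module K V] [Group Γ]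
  [DistribMulAction Γ V]

/-- `Γ` is the full automorphism group of `V`, `G` is maximal solvable and irreducible. -/
structure MX (G : Subgroup Γ) : Prop where
  full : ∀ f : V →+ V, Function.Bijective f → ∃ γ : Γ, ∀ v, γ • v = f v
  max : ∀ G' : Subgroup Γ, G ≤ G' → Group.IsSolvable G' → G' ≤ G
  irr : Irr G V

/-- The scalars are a maximal abelian normal subgroup of `G`. -/
def MA (sc : Kˣ →* Γ) (G : Subgroup Γ) : Prop := ∀ B ≤ G, G ≤ normalizer (B : Set Γ) →
  (∀ a ∈ B, ∀ b ∈ B, a * b = b * a) → sc.range ≤ B → B ≤ sc.range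

/-- `T / Kˣ` is abelian and `Z(T) = Kˣ`. -/
structure Cls (sc : Kˣ →* Γ) (T : Subgroup Γ) : Prop where
  sc_le : sc.range ≤ T
  lin : ∀ x ∈ T, Lin K V x
  comm : ∀ x ∈ T, ∀ y ∈ T, ⁅x, y⁆ ∈ sc.range
  cen : ∀ x ∈ T, (∀ y ∈ T, x * y = y * x) → x ∈ sc.range

/-- The order of `T` is prime to the characteristic; automorphisms trivial on `T / Kˣ` and `Kˣ`
are inner. -/
structure Inn (sc : Kˣ →* Γ) (T : Subgroup Γ) : Prop where
  card : (Nat.card T : K) ≠ 0
  hom : ∀ h : Γ, Lin K V h → (∀ s ∈ T, ⁅h, s⁆ ∈ sc.range) →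
    ∃ s₀ ∈ T, ∀ s ∈ T, s₀⁻¹ * h * s = s * (s₀⁻¹ * h)

/-- The subgroup `S` of STR. -/
structure Str (sc : Kˣ →* Γ) (G S : Subgroup Γ) : Prop where
  le : S ≤ G
  nor : G ≤ normalizer (S : Set Γ)
  cls : Cls V sc S
  inn : Inn V sc S
  cen : ∀ c ∈ G, (∀ s ∈ S, c * s = s * c) → c ∈ sc.range
  gen : S ≤ sc.range ⊔ sSup {E | Piece V sc G E}

/-- The elements of `Γ` that act as an element of the ring generated by `S`. -/
def Lam [Finite Γ] (S : Subgroup Γ) : Subgroup Γ where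
  carrier := {γ | DistribMulAction.toAddMonoidEnd Γ V γ ∈
    Subring.closure (DistribMulAction.toAddMonoidEnd Γ V '' S)}
  one_mem' := by simp only [Set.mem_setOf_eq, map_one]; exact one_mem _
  mul_mem' ha hb := by simp only [Set.mem_setOf_eq, map_mul]; exact mul_mem ha hb
  inv_mem' {a} ha := by
    obtain ⟨n, hn⟩ : ∃ n : ℕ, a ^ n = a⁻¹ := mem_powers_iff_mem_zpowers.2 (inv_mem (mem_zpowers a))
    simp only [Set.mem_setOf_eq, ← hn, map_pow]
    exact pow_mem ha n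

end K

/-- `AllK` with `Finite Γ` passed on. -/
def AllF (P : ∀ (K V Γ : Type) [Field K] [AddCommGroup V] [Module K V] [Group Γ] [Finite Γ]
    [DistribMulAction Γ V], (Kˣ →* Γ) → Subgroup Γ → Subgroup Γ → Prop) : Prop :=
  ∀ (K V Γ : Type) [Field K] [Finite K] [AddCommGroup V] [Module K V] [Finite V] [Nontrivial V]
    [Group Γ] [Finite Γ] [DistribMulAction Γ V] [FaithfulSMul Γ V] (sc : Kˣ →* Γ)
    (G H : Subgroup Γ), KS V sc G H → P K V Γ sc G H

def JobInn : Prop := AllK fun _ V _ _ _ _ _ _ sc _ _ => ∀ T, Cls V sc T → Inn V sc T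

def JobSTR : Prop := AllK fun _ V _ _ _ _ _ _ sc G _ => MA sc G → ∃ S, Str V sc G S

def JobM1 : Prop := AllF fun K V _ _ _ _ _ _ _ sc G _ => ∀ S, MX V G → Str V sc G S →
  ∀ c ∈ G, Lin K V c → ∃ l ∈ Lam V S, ∀ s ∈ S, l * s = c * s * c⁻¹ * l

def JobM2 : Prop := AllF fun K V _ _ _ _ _ _ _ sc G _ => ∀ S, MX V G → Str V sc G S →
  (∀ c ∈ G, Lin K V c → ∃ l ∈ Lam V S, ∀ s ∈ S, l * s = c * s * c⁻¹ * l) →
  ∀ c ∈ G, Lin K V c → c ∈ Lam V S

def JobM3 : Prop := AllF fun K V Γ _ _ _ _ _ _ sc G _ => ∀ S, MX V G → Str V sc G S →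
  (∀ c ∈ G, Lin K V c → c ∈ Lam V S) → ∀ γ : Γ, (∀ s ∈ S, γ * s = s * γ) → γ ∈ sc.range

def JobEND : Prop := AllK fun _ V Γ _ _ _ _ _ sc G H => ∀ S, Str V sc G S →
  (∀ γ : Γ, (∀ s ∈ S, γ * s = s * γ) → γ ∈ sc.range) →
  (∀ E, Piece V sc G E → SolMod H fun h => ∀ x ∈ E, ⁅(h : Γ), x⁆ ∈ sc.range) →
  Group.IsSolvable H

/-! ### Kit -/

section Kit

variable {G V : Type} [Group G] [AddCommGroup V] [DistribMulAction G V]

theorem T3.symm {h : Equiv.Perm V} (t : T3 G h) : T3 G h.symm := fun x y z => by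
  obtain ⟨c, g, h1, h2, h3⟩ := t (h.symm x) (h.symm y) (h.symm z)
  rw [Equiv.apply_symm_apply] at h1 h2 h3
  refine ⟨-(g⁻¹ • c), g⁻¹, ?_, ?_, ?_⟩
  · conv_rhs => rw [h1, smul_add, inv_smul_smul, neg_add_cancel_left]
  · conv_rhs => rw [h2, smul_add, inv_smul_smul, neg_add_cancel_left]
  · conv_rhs => rw [h3, smul_add, inv_smul_smul, neg_add_cancel_left]

/-- Two members of a decomposition with a common non-zero vector are equal. -/
theorem Dec.eq {J : Set (AddSubgroup V)} (d : Dec G J) {W W' : AddSubgroup V} (h : W ∈ J)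
    (h' : W' ∈ J) {x : V} (h0 : x ≠ 0) (hx : x ∈ W) (hx' : x ∈ W') : W = W' := by
  by_contra k
  exact h0 (AddSubgroup.disjoint_def.1 (d.ind.pairwiseDisjoint h h' k) hx hx')

theorem Dec.exists_ne {J : Set (AddSubgroup V)} (d : Dec G J) {W : AddSubgroup V} (h : W ∈ J) :
    ∃ x ∈ W, x ≠ 0 := by
  by_contra k
  push Not at k
  exact d.ne ((eq_bot_iff.2 k : W = ⊥) ▸ h)

theorem Dec.ne_top {J : Set (AddSubgroup V)} (d : Dec G J) {W : AddSubgroup V} (h : W ∈ J) :
    W ≠ ⊤ := by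
  rintro rfl
  obtain ⟨W, h1, h2⟩ := d.two.exists_ne ⊤
  obtain ⟨x, h3, h4⟩ := d.exists_ne h1
  exact h2 (d.eq h1 h h4 h3 trivial)

theorem card_lt [Finite V] {W : AddSubgroup V} (h : W ≠ ⊤) : Nat.card W < Nat.card V :=
  lt_of_le_of_ne (AddSubgroup.card_le_card_addGroup W) fun k => h (AddSubgroup.eq_top_of_card_eq _ k)

variable {Γ : Type} [Group Γ] {A B : Subgroup Γ}

/-- `A B / B` is an image of `A`. -/
theorem solMod_sup (hA : Group.IsSolvable A) (hn : A ≤ normalizer (B : Set Γ)) :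
    SolMod ↥(A ⊔ B) fun a => (a : Γ) ∈ B := by
  haveI : (B.subgroupOf (A ⊔ B)).Normal :=
    (normal_subgroupOf_iff_le_normalizer le_sup_right).2 (sup_le hn le_normalizer)
  have hs : Function.Surjective ((QuotientGroup.mk' (B.subgroupOf (A ⊔ B))).comp
      (inclusion (le_sup_left : A ≤ A ⊔ B))) := fun q => by
    obtain ⟨⟨g, hg⟩, rfl⟩ := QuotientGroup.mk'_surjective _ q
    have hg' := hg
    rw [← SetLike.mem_coe, coe_mul_of_left_le_normalizer_right _ _ hn] at hg'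
    obtain ⟨a, ha, b, hb, rfl⟩ := hg'
    exact ⟨⟨a, ha⟩, QuotientGroup.eq.2 (by simpa [mem_subgroupOf] using hb)⟩
  exact (SolMod.of_hom (QuotientGroup.mk' (B.subgroupOf (A ⊔ B)))
    (Group.isSolvable_of_surjective hs)).mono fun a k => (QuotientGroup.eq_one_iff a).1 k

theorem solv_of_le (hB : Group.IsSolvable B) (h : A ≤ B) : Group.IsSolvable A :=
  Group.isSolvable_of_isSolvable_injective (inclusion_injective h)

theorem solv_sup (hA : Group.IsSolvable A) (hB : Group.IsSolvable B)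
    (hn : A ≤ normalizer (B : Set Γ)) : Group.IsSolvable ↥(A ⊔ B) :=
  SolMod.solvable (B.subgroupOf (A ⊔ B)) (solMod_sup hA hn)
    (Group.isSolvable_of_isSolvable_injective
      (f := (subgroupOfEquivOfLe (le_sup_right : B ≤ A ⊔ B)).toMonoidHom)
      (subgroupOfEquivOfLe (le_sup_right : B ≤ A ⊔ B)).injective)

theorem solv_of_comm (h : ∀ a ∈ A, ∀ b ∈ A, a * b = b * a) : Group.IsSolvable A :=
  Group.isSolvable_of_comm fun a b => Subtype.ext (h a a.2 b b.2)

end Kit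

end H91.CL
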