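import Cfsg.Agent.H58.SOSpec
import Cfsg.Agent.S0249

/-! Tower SIM, chapter OUT, job GL: the projective general linear group has a component. -/

set_option autoImplicit false

namespace H91.SOGl

open Subgroup Cfsg Matrix H58.SO

theorem hc {n : ℕ} {F : Type} [Field F]
    (h : IsSimpleGroup (ProjectiveSpecialLinearGroup (Fin n) F)) :
    HasComponent (ProjGenLinGroup (Fin n) F) := by
  refine hc_normal ProjectiveSpecialLinearGroup.toPGL ProjectiveSpecialLinearGroup.toPGL_injective
    ⟨?_⟩ (hc_simple h)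
  rintro _ ⟨s, rfl⟩ g
  obtain ⟨s, rfl⟩ := QuotientGroup.mk_surjective s
  obtain ⟨g, rfl⟩ := ProjGenLinGroup.mk_surjective g
  refine ⟨QuotientGroup.mk ⟨(g * SpecialLinearGroup.toGL s * g⁻¹ : GL (Fin n) F), ?_⟩, ?_⟩
  · rw [← GeneralLinearGroup.val_det_apply, map_mul, map_mul, map_inv, mul_inv_cancel_comm,
      GeneralLinearGroup.val_det_apply]
    exact s.2
  · refine Eq.trans (b := ProjGenLinGroup.mk (g * SpecialLinearGroup.toGL s * g⁻¹))
      (congrArg ProjGenLinGroup.mk (Units.ext rfl)) ?_
    rw [map_mul, map_mul, map_inv]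
    rfl

theorem jobGL : JobGL := by
  intro n F _ _ hn
  rcases hn.eq_or_lt with rfl | hn
  swap
  · exact .inl (hc (Cfsg.Agent.S0249.result n hn))
  by_cases h4 : 4 ≤ Fintype.card F
  · exact .inl (hc (ProjectiveSpecialLinearGroup.rank_two_simple
      (Nat.card_eq_fintype_card (α := F) ▸ h4)))
  have h2 : 1 < Fintype.card F := Fintype.one_lt_card
  refine .inr ⟨rfl, by omega, (card_quotient_dvd_card (center (GL (Fin 2) F))).trans ?_, fun h => ?_⟩
  · rw [card_GL_field]
    generalize Fintype.card F = q at h2 h4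
    obtain rfl | rfl : q = 2 ∨ q = 3 := by omega
    all_goals decide
  · let a : GL (Fin 2) F := GeneralLinearGroup.mkOfDetNeZero !![1, 1; 0, 1] (by simp [det_fin_two])
    let b : GL (Fin 2) F := GeneralLinearGroup.mkOfDetNeZero !![1, 0; 1, 1] (by simp [det_fin_two])
    have e := h (ProjGenLinGroup.mk a) (ProjGenLinGroup.mk b)
    rw [← map_mul, ← map_mul, ProjGenLinGroup.mk_eq_mk_iff] at e
    obtain ⟨u, hu⟩ := e
    have e' := congrArg Units.val hu
    have e1 := congrFun (congrFun e' 0) 0
    have e2 := congrFun (congrFun e' 0) 1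
    simp [a, b, mul_apply, Fin.sum_univ_two, GeneralLinearGroup.scalar] at e1 e2
    simp [e2] at e1

end H91.SOGl
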