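import Cfsg.Agent.H91.AHSpec

/-! AH tower (row S4162): assembly. -/

set_option autoImplicit false

namespace H91.AHA

open H33.Solv Subgroup MulAction H91.AH

def TOP : Prop := AllG fun G _ => Rat G → ∀ Q : ℕ → Prop, (∃ q, q.Prime ∧ Q q ∧ q ∣ Nat.card G) →
  ∃ (p : ℕ) (_ : Fact p.Prime) (H V : Type) (_ : Group H) (_ : Finite H) (_ : AddCommGroup V)
    (_ : Finite V) (_ : Module (ZMod p) V) (_ : DistribMulAction H V) (φ : G →* H),
    Q p ∧ RV p H V ∧ Function.Surjective φ ∧ (∀ q, q.Prime → Q q → ¬ q ∣ Nat.card H) ∧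
      Nat.card V ∣ Nat.card G ∧ ∀ x : G, ∃ v : V, φ x • v = v ∧ lk (φ x) v ≤ cc x

theorem cc_le (hq : JobCCQ) {G H : Type} [Group G] [Finite G] [Group H] (φ : G →* H)
    (hφ : Function.Surjective φ) (x : G) : cc (φ x) ≤ cc x := by
  have := hq G H φ hφ ⊥ x bot_le bot_le (by simp)
  simpa using this

theorem top (hq : JobCCQ) (h1 : JobTP1) (h2 : JobTP2) (h3 : JobTP3) : TOP := by
  intro G _ _ hs hr Q hQ
  obtain ⟨K, hK, p, V, hV, hp, hm, hi⟩ := h1 G hs Q hQ
  have sK := QuotientGroup.mk'_surjective K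
  have hsX : Group.IsSolvable (G ⧸ K) := inferInstance
  obtain ⟨W, i1, i2, i3, i4, π, md, hc, rv⟩ := h2 (G ⧸ K) hsX (hr.map _ sK) p V hm
  refine ⟨p, ⟨hm.pr⟩, (G ⧸ K) ⧸ V, W, inferInstance, inferInstance, i1, i2, i3, i4,
    (QuotientGroup.mk' V).comp (QuotientGroup.mk' K), hp, rv,
    (QuotientGroup.mk'_surjective V).comp sK, hi, ?_, fun x => ?_⟩
  · rw [hc]
    exact (card_subgroup_dvd_card V).trans (card_quotient_dvd_card K)
  · obtain ⟨w, e1, e2⟩ := h3 (G ⧸ K) hsX p V hm W π md (QuotientGroup.mk' K x)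
    exact ⟨w, e1, e2.trans (cc_le hq _ sK x)⟩

variable {G : Type} [Group G] [Finite G]

theorem pow_cc (x : G) : x ^ cc x = 1 :=
  orderOf_dvd_iff_pow_eq_one.1 (orderOf_dvd_cc (Commute.refl x))

theorem smooth (ht : TOP) (hg : GOW) (hs : Group.IsSolvable G) (hr : Rat G) {q : ℕ} (hq : q.Prime)
    (hd : q ∣ Nat.card G) : q ≤ 7 := by
  by_contra hlt
  obtain ⟨p, _, H, V, _, _, _, _, _, _, φ, hp, rv, -, hn, -⟩ :=
    ht G hs hr (fun n => ¬ n ≤ 7) ⟨q, hq, hlt, hd⟩
  exact hp (hg p H V rv fun r h1 h2 => by_contra fun h3 => hn r h1 h3 h2)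

theorem no6 (ht : TOP) (h6 : K6) (hs : Group.IsSolvable G) (hr : Rat G) {q : ℕ}
    (hq : q = 5 ∨ q = 7) (hd : q ∣ Nat.card G) (x : G) : cc x ≠ 6 := fun e => by
  obtain ⟨p, _, H, V, _, _, _, _, _, _, φ, hp, rv, -, -, -, hl⟩ :=
    ht G hs hr (· = q) ⟨q, by rcases hq with rfl | rfl <;> norm_num, rfl, hd⟩
  obtain ⟨v, e1, e2⟩ := hl x
  have := h6 p H V rv (hp ▸ hq) _ v e1 (by rw [← map_pow, ← e, pow_cc, map_one])
  omega

theorem card_cases {p : ℕ} [hp : Fact p.Prime] {H V : Type} [Group H] [AddCommGroup V] [Finite V]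
    [Module (ZMod p) V] [DistribMulAction H V] (rv : RV p H V) (h1 : Nat.card V ≠ p) :
    Nat.card V = p * p ∨ p * p * p ∣ Nat.card V := by
  obtain ⟨n, hn⟩ := card_pow (p := p) (⊤ : AddSubgroup V)
  rw [AddSubgroup.card_top] at hn
  have := rv.nt
  have h0 : Nat.card V ≠ 1 := Finite.one_lt_card.ne'
  match n, hn with
  | 0, hn => exact (h0 hn).elim
  | 1, hn => exact (h1 (hn.trans (pow_one p))).elim
  | 2, hn => exact Or.inl (hn.trans (pow_two p))
  | n + 3, hn => exact Or.inr ⟨p ^ n, by rw [hn]; ring⟩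

theorem mem_FF {c : ℕ} : c ∈ FF G ↔ ∃ x : G, cc x = c := by
  classical
  unfold FF
  rw [Finset.mem_filter, Nat.mem_divisors]
  exact ⟨fun h => h.2, fun ⟨x, e⟩ => ⟨⟨e ▸ cc_dvd x, Nat.card_pos.ne'⟩, x, e⟩⟩

theorem not_mem_FF {c : ℕ} (h : ∀ x : G, cc x ≠ c) : c ∉ FF G := fun k =>
  let ⟨x, e⟩ := mem_FF.1 k
  h x e

theorem alt7 (ht : TOP) (hq : JobCCQ) (hd : JobDI) (hpp : PP) (hgu : JobGU) (hkw : JobKW) (h5 : V5)
    (h10 : JobK10) (hs : Group.IsSolvable G) (hr : Rat G) : Alt7 (FF G) := by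
  rcases hd hq G hs 7 3 (by norm_num) (by norm_num) (by norm_num) with hA | ⟨W, _, _, _, lw, h7⟩
  · refine Or.inl fun c hc h => by_contra fun h' => ?_
    obtain ⟨x, rfl⟩ := mem_FF.1 hc
    exact (hpp G hs hr 7 3 (Or.inr ⟨rfl, rfl⟩) x h h').2 hA
  · have sj := (toPermHom G W).rangeRestrict_surjective
    obtain ⟨p, _, H, V, _, _, _, _, _, _, φ, hp, rv, -, -, hv, -⟩ :=
      ht (toPermHom G W).range (Group.isSolvable_of_surjective sj) (hr.map _ sj) (· = 7)
        ⟨7, by norm_num, rfl, h7⟩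
    have hp' : p = 7 := hp
    subst hp'
    have h49 : 49 ∣ Nat.card (toPermHom G W).range := by
      refine Dvd.dvd.trans ?_ hv
      rcases card_cases rv ((h10 h5 7 H V rv).1 rfl) with e | e
      · rw [e]
      · exact Dvd.dvd.trans (by norm_num) e
    exact Or.inr ⟨not_mem_FF fun x => ((hkw hgu G W x).2.2 lw h49).1,
      not_mem_FF fun x => ((hkw hgu G W x).2.2 lw h49).2⟩

theorem lk_one {H V : Type} [Group H] [Finite H] [AddCommGroup V] [DistribMulAction H V] (v : V) :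
    Nat.card V ≤ lk (1 : H) v := by
  have : fix V (1 : H) = ⊤ := eq_top_iff.2 fun w _ => mem_fix.2 (one_smul H w)
  rw [lk, this, AddSubgroup.card_top]
  exact Nat.le_mul_of_pos_right _ Nat.card_pos

theorem alt5 (ht : TOP) (hq : JobCCQ) (hd : JobDI) (hpp : PP) (hgu : JobGU) (hkw : JobKW) (h5 : V5)
    (h10 : JobK10) (hrd : JobRD) (h25 : JobV25) (hsum : JobSUM) (hs : Group.IsSolvable G)
    (hr : Rat G) : (∀ c ∈ FF G, 5 ∣ c → 25 ∣ c) ∨
      (8 ∉ FF G ∧ 16 ∉ FF G ∧ 10 ∉ FF G ∧ 25 ∉ FF G) ∨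
      (8 ∉ FF G ∧ 3 * Nat.card G ≤ 4 * Nat.card {x : G // 4 ∣ cc x}) := by
  rcases hd hq G hs 5 2 (by norm_num) (by norm_num) (by norm_num) with hA | ⟨W, _, _, _, lw, h7⟩
  · refine Or.inl fun c hc h => by_contra fun h' => ?_
    obtain ⟨x, rfl⟩ := mem_FF.1 hc
    exact (hpp G hs hr 5 2 (Or.inl ⟨rfl, rfl⟩) x h h').2 hA
  · have sj := (toPermHom G W).rangeRestrict_surjective
    obtain ⟨p, _, H, V, _, _, _, _, _, _, φ, hp, rv, sφ, -, hv, hl⟩ :=
      ht (toPermHom G W).range (Group.isSolvable_of_surjective sj) (hr.map _ sj) (· = 5)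
        ⟨5, by norm_num, rfl, h7⟩
    have hp' : p = 5 := hp
    subst hp'
    have hV : Nat.card V ≠ 5 := by
      have := h5 5 H V rv rfl 1 (Or.inl rfl)
      rwa [show fix V (1 : H) = ⊤ from eq_top_iff.2 fun w _ => mem_fix.2 (one_smul H w),
        AddSubgroup.card_top] at this
    rcases card_cases rv hV with e | e
    · refine Or.inr (Or.inr ⟨not_mem_FF fun x => (hkw hgu G W x).1 lw (by rw [e] at hv; exact hv), ?_⟩)
      exact hsum.2 G H (φ.comp (toPermHom G W).rangeRestrict) (sφ.comp sj) (h25 hrd h5 5 H V rv rfl e)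
    · have h125 : 125 ∣ Nat.card (toPermHom G W).range := Dvd.dvd.trans e hv
      have hle : 125 ≤ Nat.card V := Nat.le_of_dvd Nat.card_pos e
      have key : ∀ (x : G) (n : ℕ), cc x = 5 * n ∨ cc x = 25 * n → ∃ (h : H) (v : V), h • v = v ∧
          h ^ n = 1 ∧ lk h v ≤ cc x := fun x n hn => by
        obtain ⟨v, e1, e2⟩ := hl ((toPermHom G W).rangeRestrict x)
        refine ⟨_, v, e1, ?_, e2.trans (cc_le hq _ sj x)⟩
        have c5 : (orderOf (φ ((toPermHom G W).rangeRestrict x))).Coprime 5 :=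
          ((Nat.Prime.coprime_iff_not_dvd (by norm_num)).2 fun k =>
            rv.cop (k.trans (orderOf_dvd_natCard _))).symm
        have hx : orderOf (φ ((toPermHom G W).rangeRestrict x)) ∣ cc x :=
          orderOf_dvd_iff_pow_eq_one.2 (by rw [← map_pow, ← map_pow, pow_cc, map_one, map_one])
        rw [← orderOf_dvd_iff_pow_eq_one]
        rcases hn with hn | hn <;> rw [hn] at hx
        · exact c5.dvd_of_dvd_mul_left hx
        · exact (c5.pow_right 2).dvd_of_dvd_mul_left hx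
      refine Or.inr (Or.inl ⟨not_mem_FF fun x => (hkw hgu G W x).1 lw (Dvd.dvd.trans (by norm_num) h125),
        not_mem_FF fun x => (hkw hgu G W x).2.1 lw h125, not_mem_FF fun x e => ?_,
        not_mem_FF fun x e => ?_⟩)
      · obtain ⟨h, v, e1, e2, e3⟩ := key x 2 (Or.inl e)
        have := (h10 h5 5 H V rv).2 rfl hle h v e1 (by rw [← pow_two, e2])
        omega
      · obtain ⟨h, v, e1, e2, e3⟩ := key x 1 (Or.inr e)
        rw [pow_one] at e2
        subst e2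
        have := lk_one (H := H) v
        omega

theorem no4 (hrd : JobRD) (hsn : JobSN) (hi : JobIDX) (hc4 : JobC4) (hca : JobCA) (hcb : JobCB)
    (hvq : JobVQ) (hda : JobDA) (hdb : JobDB) (hdc : JobDC) (hs : Group.IsSolvable G) (h : AH G)
    (x : G) : cc x ≠ 4 := fun e => by
  obtain ⟨n1, n2⟩ := hvq hsn hi hca hcb G hs h
  rcases hc4 hrd G hs h.rat x e with k | ⟨S, s, a, k⟩
  · exact n1 k
  · obtain ⟨a', d⟩ := hda hi hca hcb G hs h S s a k (k.sq.resolve_right (n2 S s a k))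
    exact hdc G hs S s a' d (hdb hsn hca G hs h S s a' d)

theorem fin (ht : TOP) (hg : GOW) (h6 : K6) (hq : JobCCQ) (hd : JobDI) (hpp : PP) (hgu : JobGU)
    (hkw : JobKW) (h5 : V5) (h10 : JobK10) (hrd : JobRD) (h25 : JobV25) (hsum : JobSUM) (ht3 : JobT3)
    (hpl : JobPL) [Nontrivial G] (hs : Group.IsSolvable G) (h : AH G) (n2 : ∀ x : G, cc x ≠ 2)
    (n4 : ∀ x : G, cc x ≠ 4) : False := by
  have hr := h.rat
  have h0 : (0 : ℚ) < Nat.card G := by exact_mod_cast Nat.card_pos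
  have n1 : ∀ x : G, cc x ≠ 1 := fun x e => by
    have h1 : x = 1 := by rw [← pow_one x, ← e, pow_cc]
    rw [h1, cc_one] at e
    exact Finite.one_lt_card.ne' e
  obtain ⟨q4, pl⟩ := hpl (FF G) (fun c hc => by
      obtain ⟨x, rfl⟩ := mem_FF.1 hc
      exact ⟨(cc_pos x).ne', fun q hq hd => smooth ht hg hs hr hq (hd.trans (cc_dvd x))⟩)
    (not_mem_FF n1) (not_mem_FF n2) (not_mem_FF n4) (fun c hc => by
      obtain ⟨x, rfl⟩ := mem_FF.1 hc
      have o := orderOf_dvd_cc (Commute.refl x)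
      exact ⟨fun k => or_iff_not_imp_left.2 fun k' =>
          (hpp G hs hr 5 2 (Or.inl ⟨rfl, rfl⟩) x k k').1.trans o,
        fun k => or_iff_not_imp_left.2 fun k' =>
          (hpp G hs hr 7 3 (Or.inr ⟨rfl, rfl⟩) x k k').1.trans o⟩)
  have tot : ∑ c ∈ FF G, (1 / c : ℚ) = 1 := by
    have := hsum.1 G h (fun _ => True)
    rw [Finset.filter_true, Nat.card_congr (Equiv.subtypeUnivEquiv fun _ => trivial)] at this
    exact (mul_left_cancel₀ h0.ne' (this.symm.trans (mul_one _).symm))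
  refine (pl ?_).ne tot
  by_cases h3 : 3 ∈ FF G
  · obtain ⟨x, e⟩ := mem_FF.1 h3
    refine Or.inl ⟨Nat.card G, fun c hc => ?_⟩
    obtain ⟨y, rfl⟩ := mem_FF.1 hc
    exact ⟨cc_dvd y, ht3 G h x e y⟩
  by_cases h57 : 5 ∣ Nat.card G ∨ 7 ∣ Nat.card G
  · refine Or.inr (Or.inr ⟨h3, not_mem_FF ?_, alt7 ht hq hd hpp hgu hkw h5 h10 hs hr, ?_⟩)
    · rcases h57 with k | k
      · exact no6 ht h6 hs hr (Or.inl rfl) k
      · exact no6 ht h6 hs hr (Or.inr rfl) k
    · rcases alt5 ht hq hd hpp hgu hkw h5 h10 hrd h25 hsum hs hr with k | k | ⟨k1, k2⟩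
      · exact Or.inl k
      · exact Or.inr k
      · have e := hsum.1 G h (4 ∣ ·)
        have k3 : (3 : ℚ) * Nat.card G ≤ 4 * Nat.card {x : G // 4 ∣ cc x} := by exact_mod_cast k2
        have k4 := mul_lt_mul_of_pos_left (q4 k1) h0
        rw [← e] at k4
        exact absurd k3 (by linarith)
  · refine Or.inr (Or.inl ⟨h3, fun c hc => ?_⟩)
    obtain ⟨y, rfl⟩ := mem_FF.1 hc
    exact ⟨fun k => h57 (Or.inl (k.trans (cc_dvd y))), fun k => h57 (Or.inr (k.trans (cc_dvd y)))⟩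

/-- The theorem for groups in `Type`. -/
def Main : Prop := AllG fun G _ => Nontrivial G → AH G → Nonempty (G ≃* Equiv.Perm (Fin 3))

theorem main (ccq : JobCCQ) (rd : JobRD) (idx : JobIDX) (sn : JobSN) (sum : JobSUM) (t3 : JobT3)
    (c2 : JobC2) (c4 : JobC4) (ca : JobCA) (cb : JobCB) (vq : JobVQ) (da : JobDA) (db : JobDB)
    (dc : JobDC) (tp1 : JobTP1) (tp2 : JobTP2) (tp3 : JobTP3) (op : JobOP) (tw : JobTW)
    (lam : JobLAM) (frb : JobFRB) (cq : JobCQ) (ab : JobAB) (g1 : JobG1) (g2 : JobG2) (qa : JobQA)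
    (g3 : JobG3) (g4 : JobG4) (g5 : JobG5) (di : JobDI) (p1 : JobP1) (p2 : JobP2) (pp : JobPP)
    (gu : JobGU) (kw : JobKW) (v5 : JobV5) (k10 : JobK10) (v25 : JobV25) (mn : JobMN) (k3 : JobK3)
    (ka : JobKA) (kb : JobKB) (kc : JobKC) (ke : JobKE) (kd : JobKD) (k6 : JobK6) (pl : JobPL) :
    Main := by
  intro G _ _ hs hn h
  by_contra hc
  have L := lam (tw op)
  have V := v5 L
  exact fin (top ccq tp1 tp2 tp3) (g5 sn L (ab sn) qa op g1 g2 g3 g4 frb cq)
    (k6 ccq rd frb V (k3 ccq frb mn) ka kb kc ke kd) ccq di (pp L p1 p2) gu kw V k10 rd v25 sum t3 pl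
    hs h (fun x e => hc (c2 G hs hn h x e)) (no4 rd sn idx c4 ca cb vq da db dc hs h)

theorem card_class {G : Type*} [Group G] (x : G) :
    Nat.card (centralizer ({x} : Set G)) * Nat.card (ConjClasses.mk x).carrier = Nat.card G := by
  rw [← ConjAct.orbit_eq_carrier_conjClasses, Nat.card_coe_set_eq, ← index_stabilizer,
    ConjAct.stabilizer_eq_centralizer]
  exact card_mul_index (G := ConjAct G) _

theorem wrap (hm : Main) {G : Type*} [Group G] [Finite G] [Nontrivial G] (hG : Group.IsSolvable G)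
    (h : Function.Injective fun C : ConjClasses G => Nat.card C.carrier) :
    Nonempty (G ≃* Equiv.Perm (Fin 3)) := by
  let e : Shrink.{0} G ≃* G := Shrink.mulEquiv
  have : Finite (Shrink.{0} G) := Finite.of_equiv _ e.symm.toEquiv
  have key : ∀ x : Shrink.{0} G, cc x = Nat.card (centralizer ({e x} : Set G)) := fun x =>
    Nat.card_congr (e.toEquiv.subtypeEquiv fun y => by
      rw [mem_centralizer_singleton_iff, mem_centralizer_singleton_iff]
      change _ ↔ e y * e x = e x * e y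
      rw [← map_mul, ← map_mul, e.injective.eq_iff])
  obtain ⟨f⟩ := hm (Shrink.{0} G) (H2.isSolvable_of_mulEquiv e.symm) e.symm.injective.nontrivial
    fun x y hxy => by
      rw [key, key] at hxy
      have k := (card_class (e x)).trans (card_class (e y)).symm
      rw [hxy] at k
      have := e.symm.toMonoidHom.map_isConj
        (ConjClasses.mk_eq_mk_iff_isConj.1 (h (Nat.eq_of_mul_eq_mul_left Nat.card_pos k)))
      simpa using this
  exact ⟨e.symm.trans f⟩

end H91.AHA
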