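import Cfsg.Agent.H91.AHSpec
import Cfsg.Agent.S0016

/-! AH tower, small slots IDX, T3, RD, MN, KW, CQ, P1. -/

set_option autoImplicit false

namespace H91.AHS

open H33.Solv Subgroup MulAction H91.AH
open scoped commutatorElement

theorem jobIDX : JobIDX := by
  intro G _ _ hs hn hr
  have hlt := Group.IsSolvable.commutator_lt_top_of_nontrivial G
  obtain ⟨K, hK, hle⟩ := (eq_top_or_exists_le_coatom (_root_.commutator G)).resolve_left hlt.ne
  have cm : ∀ a b : G, a * b * a⁻¹ * b⁻¹ ∈ K := fun a b =>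
    hle (commutator_mem_commutator (mem_top a) (mem_top b))
  have hN : K.Normal := ⟨fun k hk g => by simpa using K.mul_mem (cm g k) hk⟩
  obtain ⟨x, -, hx⟩ := SetLike.exists_of_lt hK.1.lt_top
  have sq : ∀ y : G, y * y ∈ K := fun y => by
    obtain ⟨g, hg⟩ := isConj_iff.1 (hr y)
    have := K.inv_mem (cm g y)
    rwa [hg, ← mul_inv_rev, inv_inv] at this
  let L : Subgroup G :=
    { carrier := {y | y ∈ K ∨ y * x ∈ K}
      one_mem' := Or.inl K.one_mem
      mul_mem' := by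
        rintro a b (ha | ha) (hb | hb)
        · exact Or.inl (K.mul_mem ha hb)
        · exact Or.inr (by rw [mul_assoc]; exact K.mul_mem ha hb)
        · refine Or.inr ?_
          convert K.mul_mem ha (hN.conj_mem b hb x⁻¹) using 1
          group
        · refine Or.inl ?_
          convert K.mul_mem (K.mul_mem ha (hN.conj_mem _ hb x⁻¹)) (K.inv_mem (sq x⁻¹⁻¹)) using 1
          group
      inv_mem' := by
        rintro a (ha | ha)
        · exact Or.inl (K.inv_mem ha)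
        · refine Or.inr ?_
          convert K.mul_mem (K.inv_mem (sq a)) ha using 1
          group }
  have e : L = ⊤ := hK.2 L (lt_of_le_of_ne (fun _ h => Or.inl h) fun e => hx (e ▸ Or.inr (sq x)))
  refine ⟨K, index_eq_two_iff.2 ⟨x, fun b => ?_⟩⟩
  rcases (e ▸ mem_top b : b ∈ L) with h | h
  · exact Or.inr ⟨h, fun k => hx ((K.mul_mem_cancel_left h).1 k)⟩
  · exact Or.inl ⟨h, fun k => hx ((K.mul_mem_cancel_left k).1 h)⟩

variable {G : Type} [Group G] [Finite G]

theorem cent_eq {x : G} (h : cc x ≤ orderOf x) : centralizer ({x} : Set G) = zpowers x :=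
  (eq_of_le_of_card_ge (zpowers_le.2 (mem_cent.2 (Commute.refl x))) (by rwa [Nat.card_zpowers])).symm

theorem zp_eq {p : ℕ} (hp : p.Prime) {x c : G} (ho : orderOf x = p) (hc : c ∈ zpowers x)
    (h1 : c ≠ 1) : zpowers c = zpowers x := by
  refine eq_of_le_of_card_ge (zpowers_le.2 hc) ?_
  rw [Nat.card_zpowers, Nat.card_zpowers, ho]
  exact ((Nat.dvd_prime hp).1 (ho ▸ orderOf_dvd_of_mem_zpowers hc)).resolve_left
    (mt orderOf_eq_one_iff.1 h1) |>.ge

theorem ne_one {p : ℕ} (hp : p.Prime) {x : G} (ho : orderOf x = p) : x ≠ 1 := fun e =>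
  hp.ne_one (by rw [← ho, e, orderOf_one])

theorem exists_central {p : ℕ} [Fact p.Prime] {P : Subgroup G} (hP : IsPGroup p P) (h : P ≠ ⊥) :
    ∃ c ∈ P, orderOf c = p ∧ ∀ y ∈ P, Commute y c := by
  have := (nontrivial_iff_ne_bot P).2 h
  have := hP.center_nontrivial
  obtain ⟨⟨c, hc⟩, hc1⟩ := exists_prime_orderOf_dvd_card' (G := center P) p
    ((hP.to_subgroup _).card_eq_or_dvd.resolve_left Finite.one_lt_card.ne')
  exact ⟨c, c.2, by rw [← hc1, orderOf_mk, orderOf_coe],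
    fun y hy => congrArg Subtype.val (mem_center_iff.1 hc ⟨y, hy⟩)⟩

/-- A `p`-subgroup containing a self-centralising element of order `p`. -/
theorem eq_of_cent {p : ℕ} [hp : Fact p.Prime] {x : G} (ho : orderOf x = p) (h : cc x ≤ p)
    {P : Subgroup G} (hP : IsPGroup p P) (hx : x ∈ P) : P = zpowers x := by
  obtain ⟨c, hc, co, cm⟩ := exists_central hP fun e => ne_one hp.out ho (mem_bot.1 (e ▸ hx))
  have e := cent_eq (ho ▸ h)
  have c3 : x ∈ zpowers c :=
    zp_eq hp.out ho (e ▸ mem_cent.2 (cm x hx).symm) (ne_one hp.out co) ▸ mem_zpowers x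
  refine le_antisymm (fun y hy => e ▸ mem_cent.2 ?_) (zpowers_le.2 hx)
  obtain ⟨k, rfl⟩ := c3
  exact (cm y hy).zpow_right k

theorem cc_zp {x y : G} (h : zpowers x = zpowers y) : cc x = cc y := cc_congr fun g =>
  ⟨fun e => by obtain ⟨k, rfl⟩ : y ∈ zpowers x := h ▸ mem_zpowers y; exact e.zpow_right k,
    fun e => by obtain ⟨k, rfl⟩ : x ∈ zpowers y := h ▸ mem_zpowers x; exact e.zpow_right k⟩

theorem zp_pgroup {p : ℕ} {x : G} (ho : orderOf x = p) : IsPGroup p (zpowers x) :=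
  IsPGroup.of_card (n := 1) (by rw [Nat.card_zpowers, ho, pow_one])

theorem jobT3 : JobT3 := by
  intro G _ _ _ x hx y hy
  have h3 : Fact (Nat.Prime 3) := ⟨Nat.prime_three⟩
  by_cases h1 : x = 1
  · rw [h1, cc_one] at hx
    exact Or.inl (Nat.dvd_antisymm (hx ▸ cc_dvd y) hy)
  have ho : orderOf x = 3 := ((Nat.dvd_prime h3.out).1 (hx ▸ orderOf_dvd_cc (Commute.refl x))).resolve_left
    (mt orderOf_eq_one_iff.1 h1)
  obtain ⟨⟨z, hz⟩, zo⟩ := exists_prime_orderOf_dvd_card' (G := centralizer ({y} : Set G)) 3 hy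
  rw [orderOf_mk] at zo
  obtain ⟨P, hP⟩ := (zp_pgroup ho).exists_le_sylow
  obtain ⟨Q, hQ⟩ := (zp_pgroup zo).exists_le_sylow
  obtain ⟨g, rfl⟩ := exists_smul_eq G Q P
  have e := eq_of_cent ho hx.le (g • Q).2 (hP (mem_zpowers x))
  have m : g * z * g⁻¹ ∈ zpowers x := e ▸ smul_mem_pointwise_smul z (MulAut.conj g) _ (hQ (mem_zpowers z))
  have cz : cc z = 3 := by
    rw [← cc_conj g z, cc_zp (zp_eq h3.out ho m (by simpa using ne_one h3.out zo)), hx]
  by_cases y1 : y = 1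
  · exact Or.inr (y1 ▸ cc_one)
  · exact Or.inl ((cc_zp (zp_eq h3.out zo
      (cent_eq (cz.trans zo.symm).le ▸ mem_cent.2 (mem_cent.1 hz).symm) y1)).trans cz)

theorem card_fib (x : G) (N : Subgroup G) (h : centralizer ({x} : Set G) ≤ N) :
    Nat.card N = cc x * ((fun g => g * x * g⁻¹) '' (N : Set G)).ncard := by
  let _ : MulAction N G := MulAction.compHom G ((MulAut.conj (G := G)).comp N.subtype)
  have e : stabilizer N x = (centralizer ({x} : Set G)).subgroupOf N := Subgroup.ext fun g => by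
    rw [mem_subgroupOf, mem_cent]
    exact mul_inv_eq_iff_eq_mul (a := (g : G) * x)
  rw [← card_mul_index (stabilizer N x), index_stabilizer, e, cc,
    Nat.card_congr (subgroupOfEquivOfLe h).toEquiv]
  congr 2
  ext y
  exact ⟨fun ⟨g, k⟩ => ⟨g, g.2, k⟩, fun ⟨g, hg, k⟩ => ⟨⟨g, hg⟩, k⟩⟩

theorem jobRD : JobRD := by
  intro G _ _ hr x
  classical
  have := Fintype.ofFinite G
  have hle : centralizer ({x} : Set G) ≤ normalizer (zpowers x : Set G) :=
    fun g hg => centralizer_le_normalizer _ (by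
      rintro _ ⟨k, rfl⟩
      exact ((mem_cent.1 hg).symm.zpow_left k).eq)
  refine Dvd.dvd.trans ?_ (card_subgroup_dvd_card (normalizer (zpowers x : Set G)))
  rw [card_fib x _ hle]
  refine Nat.mul_dvd_mul (orderOf_dvd_cc (Commute.refl x)) (dvd_of_eq ?_)
  rw [← IsCyclic.card_orderOf_eq_totient (α := zpowers x) (by rw [Fintype.card_zpowers]),
    ← Set.ncard_coe_finset, ← Set.ncard_image_of_injective _ Subtype.val_injective]
  congr 1
  ext y
  simp only [Finset.coe_filter, Finset.mem_univ, true_and, Set.mem_image, Set.mem_setOf_eq]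
  constructor
  · rintro ⟨⟨_, hy⟩, e, rfl⟩
    obtain ⟨k, rfl⟩ := mem_powers_iff_mem_zpowers.2 hy
    rw [orderOf_mk] at e
    have hk : k.Coprime (orderOf x) := by
      have := orderOf_pow (n := k) x
      change orderOf (x ^ k) = _ at e
      rw [e] at this
      exact Nat.Coprime.symm ((Nat.div_eq_self.1 this.symm).resolve_left (orderOf_pos x).ne')
    obtain ⟨g, hg⟩ := isConj_iff.1 (hr x k hk)
    refine ⟨g, mem_normalizer_fintype ?_, hg⟩
    rintro _ ⟨j, rfl⟩
    rw [← conj_zpow, hg]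
    exact zpow_mem hy j
  · rintro ⟨g, hg, rfl⟩
    exact ⟨⟨_, (mem_normalizer_iff.1 hg x).1 (mem_zpowers x)⟩, by
      rw [orderOf_mk]; exact (MulAut.conj g).orderOf_eq x, rfl⟩

theorem jobMN : JobMN := by
  intro D _ _ hs z ho hz fr
  have h3 : Fact (Nat.Prime 3) := ⟨Nat.prime_three⟩
  have z1 := ne_one h3.out ho
  have e := cent_eq (hz.trans ho.ge)
  obtain ⟨M, q, hM, -, M1, hq, qd, pq, -, cm, -⟩ := exists_minN (⊤ : Subgroup D) inferInstance
    fun k => z1 (mem_bot.1 (k ▸ mem_top z))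
  have hle : M ≤ zpowers z := by
    by_cases q3 : q = 3
    · subst q3
      exact le_sup_left.trans (eq_of_cent ho hz (pq.to_sup_of_normal_left (zp_pgroup ho))
        (mem_sup_right (mem_zpowers z))).le
    · have := Fact.mk hq
      obtain ⟨n, hn⟩ := pq.exists_card_eq
      exact fun a ha => e ▸ mem_cent.2 (fr M ⟨⟨fun a b => Subtype.ext (cm a a.2 b b.2)⟩⟩
        (by rw [hn, ho]; exact ((Nat.coprime_primes hq h3.out).2 q3).pow_left n)
        (normalizer_eq_top M ▸ mem_top z) a ha).symm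
  obtain ⟨c, hc, c1⟩ := (bot_or_exists_ne_one M).resolve_left M1
  have zM : z ∈ M := zpowers_le.2 hc (zp_eq h3.out ho (hle hc) c1 ▸ mem_zpowers z)
  have sub : (fun g => g * z * g⁻¹) '' ((⊤ : Subgroup D) : Set D) ⊆ {z, z ^ 2} := by
    rintro _ ⟨g, -, rfl⟩
    obtain ⟨k, hk⟩ := mem_powers_iff_mem_zpowers.2 (hle (hM.conj_mem z zM g))
    change z ^ k = _ at hk
    rw [← pow_mod_orderOf, ho] at hk
    have : k % 3 = 0 ∨ k % 3 = 1 ∨ k % 3 = 2 := by omega
    rcases this with h | h | h <;> rw [h] at hk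
    · exact (z1 (by simpa using hk.symm)).elim
    · exact Or.inl (hk.symm.trans (pow_one z))
    · exact Or.inr hk.symm
  have := (Set.ncard_le_ncard sub).trans ((Set.ncard_insert_le _ _).trans (by rw [Set.ncard_singleton] : _ ≤ 2))
  rw [← card_top (G := D), card_fib z ⊤ le_top]
  exact Nat.mul_le_mul hz this

theorem bound {W : Type} [AddCommGroup W] [Finite W] [DistribMulAction G W] {r m n : ℕ}
    (gu : JobGU) (hr : r.Prime) (lw : LW G W r) {x : G} (hx : cc x = r ^ m) (hn : Nat.card W = r ^ n) :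
    ∃ a k, a + k ≤ m ∧ n ≤ a * r ^ k := by
  obtain ⟨k, -, hk⟩ := (Nat.dvd_prime_pow hr).1 (hx ▸ (orderOf_map_dvd (toPermHom G W) x).trans
    (orderOf_dvd_cc (Commute.refl x)))
  obtain ⟨a, -, ha⟩ := (Nat.dvd_prime_pow hr).1
    (hn ▸ AddSubgroup.card_addSubgroup_dvd_card (fix W x))
  have h1 := lw.link x
  have h2 := (gu G W r hr lw.ex).2 x k hk
  rw [ha, hk, hx, ← pow_add] at h1
  rw [ha, hn, ← pow_mul] at h2
  exact ⟨a, k, (Nat.pow_le_pow_iff_right hr.one_lt).1 h1, (Nat.pow_le_pow_iff_right hr.one_lt).1 h2⟩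

theorem jobKW : JobKW := by
  intro gu G W _ _ _ _ _ x
  refine ⟨fun lw h e => ?_, fun lw h e => ?_, fun lw h => ?_⟩
  · obtain ⟨n, hn, hd⟩ := (gu G W 2 Nat.prime_two lw.ex).1
    obtain ⟨a, k, h1, h2⟩ := bound (m := 3) gu Nat.prime_two lw e hn
    have : n ≤ 4 := by
      have : k ≤ 3 := by omega
      interval_cases k <;> omega
    have h3 := h.trans hd
    interval_cases n <;> revert h3 <;> decide
  · obtain ⟨n, hn, hd⟩ := (gu G W 2 Nat.prime_two lw.ex).1
    obtain ⟨a, k, h1, h2⟩ := bound (m := 4) gu Nat.prime_two lw e hn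
    have : n ≤ 8 := by
      have : k ≤ 4 := by omega
      interval_cases k <;> omega
    have h3 := h.trans hd
    interval_cases n <;> revert h3 <;> decide
  · obtain ⟨n, hn, hd⟩ := (gu G W 3 Nat.prime_three lw.ex).1
    have key : ∀ m ≤ 3, cc x ≠ 3 ^ m := fun m hm e => by
      obtain ⟨a, k, h1, h2⟩ := bound gu Nat.prime_three lw e hn
      have : n ≤ 9 := by
        have : k ≤ 3 := by omega
        interval_cases k <;> omega
      have h3 := h.trans hd
      interval_cases n <;> revert h3 <;> decide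
    exact ⟨key 2 (by omega), key 3 le_rfl⟩

theorem jobCQ : JobCQ := by
  intro op Y U _ _ _ _ _ _ hc sr q P hq hP
  have := Fact.mk hq
  by_cases h0 : P = ⊥
  · exact Or.inl (h0 ▸ inferInstance)
  obtain ⟨c, hc', co, cm⟩ := exists_central hP h0
  have fb : ∀ y : Y, y ≠ 1 → fix U y = ⊥ := fun y hy => eq_bot_iff.2 fun u hu => sr y hy u hu
  have key : ∀ a ∈ P, a ^ q = 1 → a ∈ zpowers c := fun a ha e => by_contra fun k => by
    have := op q Y U ⊤ a c hq (hc.coprime_dvd_left (co ▸ orderOf_dvd_natCard c)) fun y _ =>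
      ⟨trivial, trivial, by rw [e, one_smul], by rw [← co, pow_orderOf_eq_one, one_smul],
        by rw [← mul_smul, ← mul_smul, (cm a ha).eq]⟩
    rw [fb c (ne_one hq co), Finset.prod_congr rfl fun i _ => by
      rw [fb (a * c ^ i) fun e => k (by
        rw [eq_inv_of_mul_eq_one_left e]; exact inv_mem (pow_mem (mem_zpowers c) i))]] at this
    simp only [inf_bot_eq, AddSubgroup.card_bot, AddSubgroup.card_top, one_pow, mul_one,
      Finset.prod_const] at this
    exact Finite.one_lt_card.ne' this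
  have k2 : ∀ H : Subgroup P, Nat.card H = q → H = zpowers ⟨c, hc'⟩ := fun H hH =>
    eq_of_le_of_card_ge (fun a ha => by
      obtain ⟨k, hk⟩ := key a a.2 (congrArg Subtype.val (show a ^ q = 1 from
        orderOf_dvd_iff_pow_eq_one.1 (hH ▸ H.orderOf_dvd_natCard ha)))
      exact ⟨k, Subtype.ext hk⟩) (by rw [Nat.card_zpowers, orderOf_mk, co, hH])
  exact Cfsg.Agent.S0016.result q hP fun H K hH hK => (k2 H hH).trans (k2 K hK).symm

theorem jobP1 : JobP1 := by
  intro E _ _ hs p y g t hp h2 ho hg ht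
  have := Fact.mk hp
  obtain ⟨B, ⟨hB, yB⟩, hmax⟩ := H2.exists_maximal_subgroup (fun B : Subgroup E => B.Normal ∧ y ∉ B)
    ⟨⊥, inferInstance, fun k => ne_one hp ho (mem_bot.1 k)⟩
  have y1 : (y : E ⧸ B) ≠ 1 := fun e => yB ((QuotientGroup.eq_one_iff y).1 e)
  have yo : orderOf (y : E ⧸ B) = p := ((Nat.dvd_prime hp).1
    (ho ▸ orderOf_map_dvd (QuotientGroup.mk' B) y)).resolve_left (mt orderOf_eq_one_iff.1 y1)
  obtain ⟨M, q, hM, -, M1, hq, -, pq, ex, -, -⟩ := exists_minN (⊤ : Subgroup (E ⧸ B)) inferInstance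
    fun k => y1 (mem_bot.1 (k ▸ mem_top _))
  have yM : (y : E ⧸ B) ∈ M := by_contra fun k => M1 (by
    have e := hmax (M.comap (QuotientGroup.mk' B)) ⟨inferInstance, k⟩ fun b hb => by
      rw [mem_comap, QuotientGroup.mk'_apply, (QuotientGroup.eq_one_iff b).2 hb]
      exact one_mem M
    rw [← map_comap_eq_self_of_surjective (QuotientGroup.mk'_surjective B) M, e,
      QuotientGroup.map_mk'_self])
  obtain rfl : p = q := (Nat.prime_dvd_prime_iff_eq hp hq).1
    (yo ▸ orderOf_dvd_of_pow_eq_one (ex _ yM))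
  obtain ⟨n, hn⟩ := pq.exists_card_eq
  have n1 : n ≤ 1 := by_contra fun k => h2 (((pow_two p ▸ pow_dvd_pow p (by omega : 2 ≤ n)).trans
    (hn ▸ card_subgroup_dvd_card M)).trans (card_quotient_dvd_card B))
  have eM : zpowers (y : E ⧸ B) = M := eq_of_le_of_card_ge (zpowers_le.2 yM) (by
    rw [Nat.card_zpowers, yo, hn]
    exact (Nat.pow_le_pow_right hp.pos n1).trans (pow_one p).le)
  obtain ⟨b, hb⟩ : (t : E ⧸ B) * y * (t : E ⧸ B)⁻¹ ∈ zpowers (y : E ⧸ B) := eM ▸ hM.conj_mem _ yM _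
  have g1 : (g : E ⧸ B) * y * (g : E ⧸ B)⁻¹ = (y : E ⧸ B) ^ 2 := congrArg (QuotientGroup.mk' B) hg
  have t1 : (t : E ⧸ B) * g * (t : E ⧸ B)⁻¹ = (g : E ⧸ B)⁻¹ := congrArg (QuotientGroup.mk' B) ht
  generalize (y : E ⧸ B) = Y, (g : E ⧸ B) = γ, (t : E ⧸ B) = τ at *
  change Y ^ b = _ at hb
  have e1 : γ * (τ * Y * τ⁻¹) * γ⁻¹ = (τ * Y * τ⁻¹) ^ 2 := by
    rw [← hb, ← conj_zpow, g1, ← zpow_natCast, ← zpow_natCast, ← zpow_mul, ← zpow_mul, mul_comm]
  have e2 : γ⁻¹ * (τ * Y * τ⁻¹) * γ⁻¹⁻¹ = (τ * Y * τ⁻¹) ^ 2 := by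
    rw [← t1, conj_pow, ← g1]
    group
  have e3 : τ * Y * τ⁻¹ = (τ * Y * τ⁻¹) ^ (3 + 1) := by
    calc _ = γ * (γ⁻¹ * (τ * Y * τ⁻¹) * γ⁻¹⁻¹) * γ⁻¹ := by group
      _ = _ := by rw [e2, ← conj_pow, e1, ← pow_mul]
  rw [pow_succ, right_eq_mul, conj_pow, conj_eq_one_iff] at e3
  exact (Nat.prime_dvd_prime_iff_eq hp Nat.prime_three).1 (yo ▸ orderOf_dvd_of_pow_eq_one e3)

end H91.AHS
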