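import Cfsg.Agent.H91.AHSpec

/-! AH tower, slot TW: fixed points of coprime `r`-group actions are determined by those of cyclic
subgroups. -/

set_option autoImplicit false

namespace H91.AHTW

open H33.Solv Subgroup MulAction H91.AH

section

variable {R : Type} [Group R]

/-- The fixed points of a subgroup. -/
def F (Y : Type) [AddCommGroup Y] [DistribMulAction R Y] (S : Subgroup R) : AddSubgroup Y :=
  ⨅ c ∈ S, fix Y c

variable {Y : Type} [AddCommGroup Y] [DistribMulAction R Y]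

theorem mem_F {S : Subgroup R} {y : Y} : y ∈ F Y S ↔ S ≤ stabilizer R y := by
  simp only [F, AddSubgroup.mem_iInf, mem_fix]
  rfl

theorem card_F (S : Subgroup R) : Nat.card (F Y S) = Nat.card (fixedPoints S Y) :=
  Nat.card_congr (Equiv.subtypeEquivRight fun _ =>
    mem_F.trans ⟨fun h c => h c.2, fun h c hc => h ⟨c, hc⟩⟩)

theorem card_top' : Nat.card (F Y (⊤ : Subgroup R)) = Nat.card (fixedPoints R Y) :=
  Nat.card_congr (Equiv.subtypeEquivRight fun _ =>
    mem_F.trans ⟨fun h c => h (mem_top c), fun h c _ => h c⟩)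

theorem F_sup (S : Subgroup R) (g : R) : F Y S ⊓ fix Y g = F Y (S ⊔ zpowers g) := by
  ext y
  rw [AddSubgroup.mem_inf, mem_F, mem_F, sup_le_iff, zpowers_le]
  rfl

theorem coatom [Finite R] {r : ℕ} (hr : r.Prime) (hp : IsPGroup r R) {M : Subgroup R}
    (hM : IsCoatom M) : M.Normal ∧ (∀ x : R, x ^ r ∈ M) ∧ ∀ x y : R, (x * y)⁻¹ * (y * x) ∈ M := by
  have := Fact.mk hr
  have := hp.isNilpotent
  have hn : M.Normal := NormalizerCondition.normal_of_coatom M normalizerCondition_of_isNilpotent hM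
  have gen : ∀ x ∉ M, ∀ y : R, (y : R ⧸ M) ∈ zpowers (x : R ⧸ M) := fun x hx y => by
    have e : (zpowers (x : R ⧸ M)).comap (QuotientGroup.mk' M) = ⊤ :=
      hM.2 _ (lt_of_le_of_ne (fun m hm => by
        rw [mem_comap, QuotientGroup.mk'_apply, (QuotientGroup.eq_one_iff m).2 hm]
        exact one_mem _) fun e => hx (e ▸ mem_zpowers (x : R ⧸ M)))
    exact (e ▸ mem_top y : y ∈ (zpowers (x : R ⧸ M)).comap (QuotientGroup.mk' M))
  refine ⟨hn, fun x => by_contra fun hx => ?_, fun x y => ?_⟩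
  · obtain ⟨k, hk⟩ := hp x
    have key : ∀ j : ℕ, x ^ r ^ j ∉ M := fun j => by
      induction j with
      | zero => exact fun h => hx (pow_mem (by simpa using h) r)
      | succ j ih =>
        intro h
        obtain ⟨m, hm⟩ := gen _ hx x
        apply ih
        rw [← QuotientGroup.eq_one_iff, QuotientGroup.mk_pow] at h ⊢
        rw [← hm, ← zpow_natCast, ← zpow_mul, mul_comm, zpow_mul, zpow_natCast, QuotientGroup.mk_pow,
          ← pow_mul, ← pow_succ', h, one_zpow]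
    exact key k (hk ▸ one_mem M)
  · rw [← QuotientGroup.eq, QuotientGroup.mk_mul, QuotientGroup.mk_mul]
    by_cases hx : x ∈ M
    · rw [(QuotientGroup.eq_one_iff x).2 hx, one_mul, mul_one]
    · obtain ⟨m, hm⟩ := gen x hx y
      rw [← hm]
      exact ((Commute.refl _).zpow_right m).eq

theorem mem_sup_zp {D : Subgroup R} [D.Normal] {g x : R} (h : x ∈ D ⊔ zpowers g) :
    ∃ d ∈ D, ∃ i : ℤ, x = d * g ^ i := by
  have : x ∈ ((D ⊔ zpowers g : Subgroup R) : Set R) := h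
  rw [normal_mul] at this
  obtain ⟨d, hd, _, ⟨i, rfl⟩, e⟩ := this
  exact ⟨d, hd, i, e.symm⟩

theorem struct [Finite R] {r : ℕ} (hr : r.Prime) (hp : IsPGroup r R) (hc : ∀ g : R, zpowers g ≠ ⊤) :
    ∃ (D : Subgroup R) (α β : R), D.Normal ∧ (∀ x : R, x ^ r ∈ D) ∧
      (∀ x y : R, (x * y)⁻¹ * (y * x) ∈ D) ∧ (∀ g, D ⊔ zpowers g ≠ ⊤) ∧
      D ⊔ zpowers α ⊔ zpowers β = ⊤ := by
  obtain ⟨M, hM, -⟩ := (eq_top_or_exists_le_coatom (zpowers (1 : R))).resolve_left (hc 1)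
  obtain ⟨β0, -, hβ0⟩ := SetLike.exists_of_lt hM.1.lt_top
  obtain ⟨N, hN, hβN⟩ := (eq_top_or_exists_le_coatom (zpowers β0)).resolve_left (hc β0)
  have hβ := zpowers_le.1 hβN
  obtain ⟨m1, m2, m3⟩ := coatom hr hp hM
  obtain ⟨n1, n2, n3⟩ := coatom hr hp hN
  obtain ⟨α, hα, hα'⟩ : ∃ α ∈ M, α ∉ N := by
    by_contra! h
    exact hβ0 ((hM.le_iff.1 h).resolve_left hN.1 ▸ hβ)
  refine ⟨M ⊓ N, α, β0, inferInstance, fun x => ⟨m2 x, n2 x⟩, fun x y => ⟨m3 x y, n3 x y⟩,
    fun g e => ?_, ?_⟩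
  · obtain ⟨d, hd, i, rfl⟩ := mem_sup_zp (e ▸ mem_top α : α ∈ M ⊓ N ⊔ zpowers g)
    obtain ⟨d', hd', j, rfl⟩ := mem_sup_zp (e ▸ mem_top β0 : β0 ∈ M ⊓ N ⊔ zpowers g)
    have g1 : g ∉ M := fun h => hβ0 (M.mul_mem hd'.1 (M.zpow_mem h j))
    have g2 : g ^ i ∈ M := (M.mul_mem_cancel_left hd.1).1 hα
    by_cases hi : (r : ℤ) ∣ i
    · obtain ⟨k, rfl⟩ := hi
      rw [zpow_mul, zpow_natCast] at hα'
      exact hα' (N.mul_mem hd.2 (N.zpow_mem (n2 g) k))
    · obtain ⟨a, b, hab⟩ := (Nat.prime_iff_prime_int.1 hr).irreducible.coprime_iff_not_dvd.2 hi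
      refine g1 ?_
      rw [← zpow_one g, ← hab, zpow_add, mul_comm a, mul_comm b, zpow_mul, zpow_mul, zpow_natCast]
      exact mul_mem (zpow_mem (m2 g) a) (zpow_mem g2 b)
  · have e1 : N ⊔ zpowers α = ⊤ :=
      hN.2 _ (lt_of_le_of_ne le_sup_left fun e => hα' (e ▸ mem_sup_right (mem_zpowers α)))
    have e2 : M ≤ M ⊓ N ⊔ zpowers α := fun m hm => by
      obtain ⟨d, hd, i, rfl⟩ := mem_sup_zp (e1 ▸ mem_top m : m ∈ N ⊔ zpowers α)
      exact mul_mem (mem_sup_left ⟨(mul_mem_cancel_right (zpow_mem hα i)).1 hm, hd⟩)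
        (mem_sup_right (zpow_mem (mem_zpowers α) i))
    exact hM.2 _ (lt_of_le_of_ne (e2.trans le_sup_left) fun e =>
      hβ0 (e ▸ mem_sup_right (mem_zpowers β0)))

theorem formula (h : JobOP) [Finite Y] {r : ℕ} (hr : r.Prime) (hY : r.Coprime (Nat.card Y))
    {D : Subgroup R} [hD : D.Normal] (α β : R) (h1 : ∀ x : R, x ^ r ∈ D)
    (h2 : ∀ x y : R, (x * y)⁻¹ * (y * x) ∈ D) :
    Nat.card (F Y D) * Nat.card (F Y (D ⊔ zpowers α ⊔ zpowers β)) ^ r =
      Nat.card (F Y (D ⊔ zpowers β)) *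
        ∏ i ∈ Finset.range r, Nat.card (F Y (D ⊔ zpowers (α * β ^ i))) := by
  have inv : ∀ g : R, ∀ y ∈ F Y D, g • y ∈ F Y D := fun g y hy => mem_F.2 fun d hd => by
    have : (g⁻¹ * d * g⁻¹⁻¹) • y = y := mem_F.1 hy (hD.conj_mem d hd g⁻¹)
    rw [inv_inv, mul_smul, mul_smul, inv_smul_eq_iff] at this
    exact this
  have := h r R Y (F Y D) α β hr hY fun y hy => ⟨inv α y hy, inv β y hy, mem_F.1 hy (h1 α),
    mem_F.1 hy (h1 β), by
      have : ((α * β)⁻¹ * (β * α)) • y = y := mem_F.1 hy (h2 α β)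
      rw [mul_smul, inv_smul_eq_iff, mul_smul, mul_smul] at this
      exact this.symm⟩
  simpa only [F_sup] using this

end

theorem jobTW : JobTW := by
  intro hop r R Y Y' _ _ _ _ _ _ _ _ hr hp hY hY' hc
  induction hn : Nat.card R using Nat.strong_induction_on generalizing R with
  | _ n ih =>
    rw [← card_top', ← card_top']
    by_cases hg : ∃ g : R, zpowers g = ⊤
    · obtain ⟨g, e⟩ := hg
      have k : ∀ (Z : Type) [AddCommGroup Z] [DistribMulAction R Z], F Z (⊤ : Subgroup R) = fix Z g :=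
        fun Z _ _ => AddSubgroup.ext fun y => by rw [mem_F, ← e, zpowers_le]; rfl
      rw [k, k, hc]
    · obtain ⟨D, α, β, hD, h1, h2, h3, h4⟩ := struct hr hp fun g e => hg ⟨g, e⟩
      have IH : ∀ S : Subgroup R, S ≠ ⊤ → Nat.card (F Y S) = Nat.card (F Y' S) := fun S hS => by
        rw [card_F, card_F]
        refine ih _ ?_ S (hp.to_subgroup S) (fun c => hc c) rfl
        rw [← hn, ← card_top (G := R)]
        exact Set.Finite.card_lt_card (Set.toFinite _) (SetLike.coe_ssubset_coe.2 hS.lt_top)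
      have e1 := formula hop hr hY α β h1 h2
      have e2 := formula hop hr hY' α β h1 h2
      rw [h4] at e1 e2
      rw [IH D (fun e => h3 1 (by rw [e, top_sup_eq])), IH _ (h3 β),
        Finset.prod_congr rfl fun i _ => IH _ (h3 (α * β ^ i)), ← e2] at e1
      exact Nat.pow_left_injective hr.ne_zero (Nat.eq_of_mul_eq_mul_left Nat.card_pos e1)

end H91.AHTW
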