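import Cfsg.Agent.Base

/-! A map that agrees with an affine map on every triple of points is affine (characteristic ≠ 2);
families with the same linear relations are matched by a linear automorphism. -/

namespace H91

open Module

theorem exists_linearEquiv_of_relations {K V ι : Type*} [Field K] [AddCommGroup V]
    [Module K V] [Fintype ι] {u v : ι → V}
    (h : ∀ c : ι → K, ∑ i, c i • u i = 0 ↔ ∑ i, c i • v i = 0) :
    ∃ g : V ≃ₗ[K] V, ∀ i, g (u i) = v i := by
  classical
  let U := Fintype.linearCombination K u
  let W := Fintype.linearCombination K v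
  have hker : LinearMap.ker U = LinearMap.ker W := by
    ext c
    simp only [LinearMap.mem_ker, U, W, Fintype.linearCombination_apply]
    exact h c
  let f : LinearMap.range U ≃ₗ[K] LinearMap.range W :=
    U.quotKerEquivRange.symm ≪≫ₗ Submodule.quotEquivOfEq _ _ hker ≪≫ₗ W.quotKerEquivRange
  obtain ⟨g, hg⟩ := Submodule.exists_linearEquiv_restrict_eq f
  refine ⟨g, fun i => ?_⟩
  have hU : U (Pi.single i 1) = u i := by simp [U]
  have hW : W (Pi.single i 1) = v i := by simp [W]
  have := hg ⟨U (Pi.single i 1), LinearMap.mem_range_self _ _⟩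
  simp only [f, LinearEquiv.trans_apply, LinearMap.quotKerEquivRange_symm_apply_image,
    Submodule.mkQ_apply, Submodule.quotEquivOfEq_mk, LinearMap.quotKerEquivRange_apply_mk] at this
  rw [← hU, ← this, hW]

theorem affine_of_triples {K V : Type*} [Field K] [AddCommGroup V] [Module K V] (h2 : (2 : K) ≠ 0)
    (σ : Equiv.Perm V)
    (h : ∀ t : Fin 3 → V, ∃ (A : V →ₗ[K] V) (b : V), ∀ i, σ (t i) = A (t i) + b) :
    ∃ (A : V ≃ₗ[K] V) (b : V), ∀ x, σ x = A x + b := by
  have key : ∀ (x y : V) (c : K), σ (x + c • (y - x)) = σ x + c • (σ y - σ x) := by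
    intro x y c
    obtain ⟨A, b, hA⟩ := h ![x, y, x + c • (y - x)]
    have e0 := hA 0
    have e1 := hA 1
    have e2 := hA 2
    simp only [Matrix.cons_val_zero, Matrix.cons_val_one, Matrix.cons_val] at e0 e1 e2
    rw [e0, e1, e2, map_add, map_smul, map_sub]
    module
  have hsmul : ∀ (c : K) (x : V), σ (c • x) - σ 0 = c • (σ x - σ 0) := by
    intro c x
    have := key 0 x c
    simp only [sub_zero, zero_add] at this
    rw [this]; abel
  have hadd : ∀ x y : V, σ (x + y) - σ 0 = (σ x - σ 0) + (σ y - σ 0) := by
    intro x y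
    have e1 := key x y (2⁻¹ : K)
    have e2 := hsmul 2 (x + (2⁻¹ : K) • (y - x))
    have e3 : (2 : K) • (x + (2⁻¹ : K) • (y - x)) = x + y := by
      rw [smul_add, smul_smul, mul_inv_cancel₀ h2, one_smul, two_smul]; abel
    rw [e3, e1] at e2
    rw [e2, smul_sub, smul_add, smul_smul, mul_inv_cancel₀ h2, one_smul, two_smul, two_smul]
    abel
  let L : V →ₗ[K] V :=
    { toFun := fun x => σ x - σ 0
      map_add' := hadd
      map_smul' := hsmul }
  have hbij : Function.Bijective L := by
    constructor
    · intro x y hxy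
      apply σ.injective
      have : σ x - σ 0 = σ y - σ 0 := hxy
      exact sub_left_injective this
    · intro y
      refine ⟨σ.symm (y + σ 0), ?_⟩
      change σ (σ.symm (y + σ 0)) - σ 0 = y
      simp
  refine ⟨LinearEquiv.ofBijective L hbij, σ 0, fun x => ?_⟩
  change σ x = (σ x - σ 0) + σ 0
  abel

end H91
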