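import Cfsg.Agent.H91.CL3Spec

/-! CL3 tower (row S3621): job Aff2. -/

set_option autoImplicit false
set_option linter.unusedSectionVars false

namespace H91.CLB

open H91.CL Subgroup
open scoped Pointwise

theorem jobAff2 (hI : JobIDEM) (h1 : JobADD1) (hH : JobHAM) : JobAff2 := by
  intro V G _ _ _ _ _
  induction hn : Nat.card V using Nat.strong_induction_on generalizing V G with
  | _ n ih =>
  intro A hv hA hc hd hf
  rcases subsingleton_or_nontrivial V with hV | hV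
  · exact fun _ _ _ _ _ => Subsingleton.elim _ _
  rcases hI V G hV 2 A Nat.prime_two (fun v => by rw [two_nsmul, hv]) hA hc hd with
    ⟨J, d, hJ⟩ | ⟨K, _, _, _, k1, k2, -⟩
  swap
  · refine h1 V G K hv ?_ k1
    obtain ⟨v, h0⟩ := exists_ne (0 : V)
    obtain ⟨a, ha, h2⟩ : ∃ a ∈ A, a • v ≠ v := by
      by_contra k
      push Not at k
      exact h0 (hf v k)
    obtain ⟨c, h3⟩ := k2 a ha
    haveI := Fintype.ofFinite K
    rw [Nat.card_eq_fintype_card, Fintype.two_lt_card_iff]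
    refine ⟨0, 1, c, zero_ne_one, ?_, ?_⟩
    · rintro rfl
      exact h0 ((smul_eq_zero_iff_eq a).1 (by rw [h3, zero_smul]))
    · rintro rfl
      exact h2 (by rw [h3, one_smul])
  intro h h0 t
  refine hH V G J d h h0 t fun W hW => ?_
  obtain ⟨u, u1, u2⟩ := d.exists_ne hW
  have t0 : ∀ x y, ∃ g : G, h x = g • x ∧ h y = g • y := fun x y => by
    obtain ⟨c, g, e0, e1, e2⟩ := t 0 x y
    rw [h0, smul_zero, add_zero] at e0
    rw [← e0, zero_add] at e1 e2
    exact ⟨g, e1, e2⟩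
  obtain ⟨g₀, e0, -⟩ := t0 u u
  have st : ∀ (g : G) (x : V), x ≠ 0 → x ∈ W → g • x ∈ W → g • W = W := fun g x x0 x1 x2 =>
    d.eq (d.perm g W hW) hW (by rwa [Ne, smul_eq_zero_iff_eq])
      (AddSubgroup.smul_mem_pointwise_smul_iff.2 x1) x2
  have ap : ∀ g : G, g • W = W → ∀ x ∈ W, g • x ∈ W := fun g k x hx =>
    k ▸ AddSubgroup.smul_mem_pointwise_smul_iff.2 hx
  have hm : ∀ w ∈ W, g₀⁻¹ • h w ∈ W := fun w hw => by
    obtain ⟨g, e1, e2⟩ := t0 u w
    rw [e2, ← mul_smul]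
    exact ap _ (st _ u u2 u1 (by rwa [mul_smul, ← e1, e0, inv_smul_smul])) w hw
  let k : Equiv.Perm W := Equiv.ofBijective (fun w => ⟨_, hm w w.2⟩)
    (Finite.injective_iff_bijective.1 fun a b e => Subtype.ext (h.injective
      (MulAction.injective g₀⁻¹ (congrArg Subtype.val e))))
  letI := subAct (H := MulAction.stabilizer G W) W fun g => ap g g.2
  have aS : A ≤ MulAction.stabilizer G W := fun a ha => hJ W hW a ha
  have key := ih _ (hn ▸ card_lt (d.ne_top hW)) W (MulAction.stabilizer G W) rfl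
    (A.subgroupOf _) (fun v => Subtype.ext (hv v)) inferInstance
    (fun a ha b hb => Subtype.ext (hc _ ha _ hb))
    (by rwa [Nat.card_congr (subgroupOfEquivOfLe aS).toEquiv])
    (fun v e => Subtype.ext (hf v fun a ha => congrArg Subtype.val (e ⟨a, aS ha⟩ ha))) k
    (Subtype.ext (by show g₀⁻¹ • h 0 = 0; rw [h0, smul_zero])) (fun x y z => ?_)
  · intro x hx y hy
    have e : g₀⁻¹ • h (x + y) = g₀⁻¹ • h x + g₀⁻¹ • h y := congrArg Subtype.val (key ⟨x, hx⟩ ⟨y, hy⟩)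
    rwa [← smul_add, smul_left_cancel_iff] at e
  by_cases e : x = y ∧ x = z
  · obtain ⟨rfl, rfl⟩ := e
    exact ⟨k x - x, 1, by simp, by simp, by simp⟩
  obtain ⟨c, g, e1, e2, e3⟩ := t x y z
  have df : ∀ a b : W, h a = c + g • (a : V) → h b = c + g • (b : V) → a ≠ b → (g₀⁻¹ * g) • W = W :=
    fun a b ea eb ne => st _ (a - b) (fun k => ne (Subtype.ext (sub_eq_zero.1 k))) (sub_mem a.2 b.2) (by
      rw [mul_smul, smul_sub, ← add_sub_add_left_eq_sub _ _ c, ← ea, ← eb, smul_sub]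
      exact sub_mem (hm _ a.2) (hm _ b.2))
  have hg : (g₀⁻¹ * g) • W = W := by
    by_cases e' : x = y
    · exact df x z e1 e3 fun k => e ⟨e', k⟩
    · exact df x y e1 e2 e'
  have kk : ∀ a : W, h a = c + g • (a : V) → (k a : V) = g₀⁻¹ • c + (g₀⁻¹ * g) • (a : V) :=
    fun a ea => by show g₀⁻¹ • h a = _; rw [ea, smul_add, mul_smul]
  have hc' : g₀⁻¹ • c ∈ W := by
    rw [← sub_eq_of_eq_add (kk x e1)]
    exact sub_mem (k x).2 (ap _ hg _ x.2)
  exact ⟨⟨_, hc'⟩, ⟨_, hg⟩, Subtype.ext (kk x e1), Subtype.ext (kk y e2), Subtype.ext (kk z e3)⟩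

end H91.CLB
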