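import Cfsg.Agent.H91.CL3Spec

/-! CL3 tower (row S3621): jobs Irr, Aff, LRed and the assembly. -/

set_option autoImplicit false
set_option linter.unusedSectionVars false

namespace H91.CLA

open H91.CL Subgroup
open scoped commutatorElement Pointwise

/-- The vectors fixed by a normal subgroup. -/
theorem fix_bot_or {G V : Type} [Group G] [AddCommGroup V] [DistribMulAction G V] (hI : Irr G V)
    (A : Subgroup G) [hA : A.Normal] :
    (∀ v : V, (∀ a ∈ A, a • v = v) → v = 0) ∨ ∀ v : V, ∀ a ∈ A, a • v = v := by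
  let W : AddSubgroup V :=
    { carrier := {v | ∀ a ∈ A, a • v = v}
      zero_mem' := fun a _ => smul_zero a
      add_mem' := fun h1 h2 a ha => by rw [smul_add, h1 a ha, h2 a ha]
      neg_mem' := fun h1 a ha => by rw [smul_neg, h1 a ha] }
  rcases hI W (fun g x hx a ha => by
    have := hx _ (hA.conj_mem a ha g⁻¹)
    rw [inv_inv, mul_smul, mul_smul, inv_smul_eq_iff] at this
    exact this) with h | h
  · exact Or.inl fun v hv => (h.le hv : v ∈ (⊥ : AddSubgroup V))
  · exact Or.inr fun v => (h.ge trivial : v ∈ W)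

theorem jobIrr : JobIrr := fun V G _ _ _ _ _ hV hF hI => by
  obtain ⟨p, hp, hd⟩ := Nat.exists_prime_and_dvd (Finite.one_lt_card (α := V)).ne'
  haveI := Fact.mk hp
  refine ⟨p, hp, ?_, fun A hA hc hpA => ?_⟩
  · let W : AddSubgroup V := (nsmulAddMonoidHom (α := V) p).ker
    rcases hI W (fun g x hx => by
      have h1 : p • x = 0 := hx
      show p • g • x = 0
      rw [← smul_comm g p x, h1, smul_zero]) with h | h
    · obtain ⟨x, hx⟩ := exists_prime_addOrderOf_dvd_card' p hd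
      have h1 : x ∈ W := by show p • x = 0; rw [← hx]; exact addOrderOf_nsmul_eq_zero x
      rw [h, AddSubgroup.mem_bot] at h1
      rw [h1, addOrderOf_zero] at hx
      exact absurd hx hp.ne_one.symm
    · exact fun v => (h.ge trivial : v ∈ W)
  · let P : Subgroup G :=
      { carrier := {a | a ∈ A ∧ a ^ p = 1}
        one_mem' := ⟨one_mem _, one_pow p⟩
        mul_mem' := fun {a b} h1 h2 => ⟨mul_mem h1.1 h2.1, by
          rw [Commute.mul_pow (hc a h1.1 b h2.1), h1.2, h2.2, mul_one]⟩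
        inv_mem' := fun h1 => ⟨inv_mem h1.1, by rw [inv_pow, h1.2, inv_one]⟩ }
    haveI : P.Normal := ⟨fun a ha g => ⟨hA.conj_mem a ha.1 g, by rw [conj_pow, ha.2]; simp⟩⟩
    have hP : IsPGroup p P := fun a => ⟨1, Subtype.ext (by simpa using a.2.2)⟩
    obtain ⟨b, hb, h0⟩ := hP.exists_fixed_point_of_prime_dvd_card_of_fixed_point V hd
      (a := 0) fun a => smul_zero a
    rcases fix_bot_or hI P with h | h
    · exact h0 (h b fun a ha => hb ⟨a, ha⟩).symm
    · obtain ⟨x, hx⟩ := exists_prime_orderOf_dvd_card' p hpA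
      have h1 : (x : G) = 1 := eq_of_smul_eq_smul (α := V) fun v => by
        rw [h v x ⟨x.2, by rw [← hx, ← coe_pow, pow_orderOf_eq_one, coe_one]⟩, one_smul]
      rw [show x = 1 from Subtype.ext h1, orderOf_one] at hx
      exact hp.ne_one hx.symm

/-- A non-trivial solvable group has a non-trivial abelian normal subgroup. -/
theorem exists_ab {G : Type} [Group G] [Nontrivial G] (h : Group.IsSolvable G) :
    ∃ A : Subgroup G, A.Normal ∧ A ≠ ⊥ ∧ ∀ a ∈ A, ∀ b ∈ A, a * b = b * a := by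
  classical
  have hex : ∃ n, derivedSeries G n = ⊥ := h.1
  have h0 : Nat.find hex ≠ 0 := fun k => by
    have := Nat.find_spec hex
    rw [k] at this
    exact top_ne_bot this
  obtain ⟨m, hm⟩ := Nat.exists_eq_succ_of_ne_zero h0
  refine ⟨derivedSeries G m, inferInstance, Nat.find_min hex (by omega), fun a ha b hb => ?_⟩
  have := Nat.find_spec hex
  rw [hm, derivedSeries_succ] at this
  exact commutatorElement_eq_one_iff_mul_comm.1 (this.le (commutator_mem_commutator ha hb))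

theorem jobAff (h2 : JobAff2) : JobAff := fun V G _ _ _ _ _ hs hF hI h h0 t => by
  rcases subsingleton_or_nontrivial V with hV | hV
  · exact fun _ _ => Subsingleton.elim _ _
  obtain ⟨p, hp, hv, hA⟩ := jobIrr V G hV hF hI
  rcases hp.eq_two_or_odd' with rfl | ⟨k, hk⟩
  · have hv' : ∀ v : V, v + v = 0 := fun v => by rw [← two_nsmul, hv]
    rcases subsingleton_or_nontrivial G with hG | hG
    · intro x y
      rcases eq_or_ne x 0 with rfl | hx
      · rw [zero_add, h0, zero_add]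
      rcases eq_or_ne y 0 with rfl | hy
      · rw [add_zero, h0, add_zero]
      have h1 : AddSubgroup.zmultiples x = ⊤ := (hI _ fun g z hz => by
        rwa [Subsingleton.elim g 1, one_smul]).resolve_left (by simpa using hx)
      obtain ⟨n, rfl⟩ : y ∈ AddSubgroup.zmultiples x := h1.ge trivial
      have h3 : n • x = x := by
        rcases Int.even_or_odd' n with ⟨m, rfl | rfl⟩
        · exact absurd (by show (2 * m) • x = 0; rw [two_mul, add_zsmul, hv']) hy
        · rw [add_zsmul, two_mul, add_zsmul, hv', zero_add, one_zsmul]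
      show h (x + n • x) = h x + h (n • x)
      rw [h3, hv', hv', h0]
    · obtain ⟨A, h3, h4, h5⟩ := exists_ab hs
      refine h2 V G A hv' h3 h5 (hA A h3 h5) ((fix_bot_or hI A).resolve_right fun k => h4 ?_) h h0 t
      exact eq_bot_iff.2 fun a ha => eq_of_smul_eq_smul (α := V) fun v => by
        rw [k v a ha, one_smul]
  · have m2 : ∀ v : V, (k + 1) • v + (k + 1) • v = v := fun v => by
      rw [← add_nsmul, show k + 1 + (k + 1) = p + 1 by omega, add_nsmul, hv, zero_add, one_nsmul]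
    have key : ∀ x y, h ((k + 1) • (x + y)) = (k + 1) • (h x + h y) := fun x y => by
      obtain ⟨c, g, h1, h3, h4⟩ := t x y ((k + 1) • (x + y))
      rw [h4, h1, h3, smul_comm g (k + 1), smul_add g, add_add_add_comm, nsmul_add (c + c),
        nsmul_add c c, m2]
    intro x y
    have h1 := key (x + y) 0
    rw [add_zero, h0, add_zero, key] at h1
    rw [← m2 (h (x + y)), ← h1, m2]

theorem jobLRed : JobLRed := fun V G H _ _ _ _ _ _ _ _ hs pc hL hI => by
  simp only [Irr, not_forall, not_or] at hI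
  obtain ⟨W, hW, h1, h2⟩ := hI
  have hH : ∀ (h : H), ∀ x ∈ W, h • x ∈ W := fun h x hx => by
    obtain ⟨g, a, -, k, -⟩ := pc h x x
    exact k ▸ zsmul_mem (hW g x hx) a
  have s1 : SolMod H fun h => ∀ x ∈ W, h • x = x := by
    letI := subAct W hW
    letI := subAct W hH
    refine (hL W G H (card_lt h2) hs fun h u v => ?_).mono fun h k x hx =>
      congrArg Subtype.val (k ⟨x, hx⟩)
    obtain ⟨g, a, b, k1, k2⟩ := pc h u v
    exact ⟨g, a, b, Subtype.ext k1, Subtype.ext k2⟩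
  have s2 : SolMod H fun h => ∀ x : V, h • x - x ∈ W := by
    letI := quoAct W hW
    letI := quoAct W hH
    have hc : Nat.card (V ⧸ W) < Nat.card V := by
      rw [AddSubgroup.card_eq_card_quotient_mul_card_addSubgroup W]
      haveI := (AddSubgroup.nontrivial_iff_ne_bot W).2 h1
      exact lt_mul_of_one_lt_right Nat.card_pos Finite.one_lt_card
    refine (hL (V ⧸ W) G H hc hs fun h u v => ?_).mono fun h k x =>
      (QuotientAddGroup.eq_iff_sub_mem).1 (k (x : V ⧸ W))
    obtain ⟨u, rfl⟩ := QuotientAddGroup.mk_surjective u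
    obtain ⟨v, rfl⟩ := QuotientAddGroup.mk_surjective v
    obtain ⟨g, a, b, k1, k2⟩ := pc h u v
    exact ⟨g, a, b, congrArg QuotientAddGroup.mk k1, congrArg QuotientAddGroup.mk k2⟩
  refine ((s1.and s2).step (MulAction.toPermHom H V).ker fun a b ha hb => ?_).mono
    fun h k x => DFunLike.congr_fun (MonoidHom.mem_ker.1 k) x
  rw [MonoidHom.mem_ker, map_commutatorElement, commutatorElement_eq_one_iff_mul_comm]
  ext x
  have e1 := ha.1 _ (hb.2 x)
  have e2 := hb.1 _ (ha.2 x)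
  rw [smul_sub, sub_eq_iff_eq_add] at e1 e2
  show a • b • x = b • a • x
  rw [e1, e2]; abel

/-- The closure of `G` for pairs of cyclic subgroups. -/
def cl (V : Type) {Γ : Type} [AddCommGroup V] [Group Γ] [Finite Γ] [DistribMulAction Γ V]
    (G : Subgroup Γ) : Subgroup Γ :=
  let M : Submonoid Γ :=
    { carrier := {h | ∀ u v : V, ∃ g ∈ G, ∃ a b : ℤ, h • u = a • g • u ∧ h • v = b • g • v}
      one_mem' := fun u v => ⟨1, one_mem _, 1, 1, by simp, by simp⟩
      mul_mem' := fun {h k} h1 h2 u v => by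
        obtain ⟨g, g1, a, b, e1, e2⟩ := h2 u v
        obtain ⟨f, f1, c, d, e3, e4⟩ := h1 (g • u) (g • v)
        refine ⟨f * g, mul_mem f1 g1, a * c, b * d, ?_, ?_⟩
        · rw [mul_smul, e1, smul_comm h a, e3, mul_smul, mul_smul]
        · rw [mul_smul, e2, smul_comm h b, e4, mul_smul, mul_smul] }
  { M with
    inv_mem' := fun {a} ha => by
      obtain ⟨n, hn⟩ : ∃ n : ℕ, a ^ n = a⁻¹ := mem_powers_iff_mem_zpowers.2 (inv_mem (mem_zpowers a))
      exact hn ▸ M.pow_mem ha n }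

/-- All jobs. -/
structure Jobs : Prop where
  idem : JobIDEM
  pred : JobPRed
  pstr : JobPStr
  pend : JobPEnd
  aff2 : JobAff2
  limp : JobLImp
  lsemi : JobLSemi
  str : JobSTR
  m1 : JobM1
  m2 : JobM2
  m3 : JobM3
  fin : JobEND
  piece : JobPiece

theorem solv_cl (j : Jobs) {V Γ : Type} [AddCommGroup V] [Finite V] [Nontrivial V] [Group Γ]
    [Finite Γ] [DistribMulAction Γ V] [FaithfulSMul Γ V] (hP : PP (Nat.card V))
    (hL : LL (Nat.card V)) (G : Subgroup Γ) (hs : Group.IsSolvable G)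
    (full : ∀ f : V →+ V, Function.Bijective f → ∃ γ : Γ, ∀ v, γ • v = f v)
    (max : ∀ G' : Subgroup Γ, G ≤ G' → Group.IsSolvable G' → G' ≤ G) :
    Group.IsSolvable (cl V G) := by
  have pc : PC G (cl V G) V := fun h u v => by
    obtain ⟨g, g1, k⟩ := h.2 u v
    exact ⟨⟨g, g1⟩, k⟩
  by_cases hI : Irr G V
  swap
  · exact (jobLRed V G (cl V G) hs pc hL hI).solvable
  obtain ⟨p, hp, hv, hA⟩ := jobIrr V G inferInstance inferInstance hI
  obtain ⟨A, -, ⟨a1, a2⟩, a3⟩ := Finite.exists_le_maximal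
    (p := fun A : Subgroup G => A.Normal ∧ ∀ a ∈ A, ∀ b ∈ A, a * b = b * a) (a := ⊥)
    ⟨inferInstance, fun a ha b _ => by rw [mem_bot.1 ha, one_mul, mul_one]⟩
  rcases j.idem V G inferInstance p A hp hv a1 a2 (hA A a1 a2) with ⟨J, d, -⟩ | ⟨K, _, _, _, k1, k2, -⟩
  · exact (j.limp V G (cl V G) hs pc hP hL J d).solvable
  choose s hsc using fun a : Kˣ => full (DistribSMul.toAddMonoidHom V a) (MulAction.bijective a)
  let sc : Kˣ →* Γ := MonoidHom.mk' s fun a b => eq_of_smul_eq_smul (α := V) fun v => by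
    rw [mul_smul, hsc, hsc, hsc]; exact mul_smul a b v
  have hsc' : ∀ (a : Kˣ) (v : V), sc a • v = (a : K) • v := hsc
  have cj : ∀ g : Γ, Semi K V g → ∀ b ∈ sc.range, g * b * g⁻¹ ∈ sc.range := by
    rintro g ⟨σ, hσ⟩ _ ⟨c, rfl⟩
    exact ⟨Units.map (σ : K →* K) c, eq_of_smul_eq_smul (α := V) fun v => by
      rw [mul_smul, mul_smul, hsc', hsc', hσ, smul_inv_smul]; rfl⟩
  have scG : sc.range ≤ G := le_sup_right.trans (max _ le_sup_left (solv_sup hs
    (solv_of_comm (by rintro _ ⟨a, rfl⟩ _ ⟨b, rfl⟩; rw [← map_mul, mul_comm, map_mul]))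
    fun g hg => mem_normalizer_iff.2 fun b => ⟨cj g (k1 ⟨g, hg⟩) b, fun k => by
      simpa [mul_assoc] using cj g⁻¹ (k1 ⟨g, hg⟩⁻¹) _ k⟩))
  have ks : KS V sc G (cl V G) :=
    ⟨hsc', hs, fun g hg u v => ⟨g, hg, 1, 1, by simp, by simp⟩, scG,
      fun h hh => j.lsemi V G (cl V G) hs pc K k1 ⟨h, hh⟩, fun h hh u v => by
        obtain ⟨g, g1, a, b, e1, e2⟩ := hh u v
        exact ⟨g, g1, a, b, by rw [Int.cast_smul_eq_zsmul, e1], by rw [Int.cast_smul_eq_zsmul, e2]⟩⟩
  have As : ∀ a ∈ A, (a : Γ) ∈ sc.range := fun a ha => by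
    obtain ⟨c, hc⟩ := k2 a ha
    obtain ⟨v, h0⟩ := exists_ne (0 : V)
    have c0 : c ≠ 0 := by
      rintro rfl
      exact h0 ((smul_eq_zero_iff_eq a).1 (by rw [hc, zero_smul]))
    exact ⟨Units.mk0 c c0, eq_of_smul_eq_smul (α := V) fun v => by
      rw [hsc']; exact (hc v).symm⟩
  have ma : MA sc G := fun B b1 b2 b3 b4 b hb =>
    As ⟨b, b1 hb⟩ (a3 (y := B.subgroupOf G) ⟨(normal_subgroupOf_iff_le_normalizer b1).2 b2,
      fun x hx y hy => Subtype.ext (b3 _ hx _ hy)⟩ (fun a ha => b4 (As a ha)) hb)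
  have mx : MX V G := ⟨full, max, hI⟩
  obtain ⟨S, st⟩ := j.str K V Γ sc G _ ks ma
  exact j.fin K V Γ sc G _ ks S st (j.m3 K V Γ sc G _ ks S mx st (j.m2 K V Γ sc G _ ks S mx st
    (j.m1 K V Γ sc G _ ks S mx st))) (j.piece K V Γ sc G _ ks hL)

theorem PP.mono {m n : ℕ} (h : PP n) (k : m ≤ n) : PP m :=
  fun Ω G H _ _ _ _ _ _ _ h1 => h Ω G H (h1.trans_le k)

theorem LL.mono {m n : ℕ} (h : LL n) (k : m ≤ n) : LL m :=
  fun V G H _ _ _ _ _ _ _ _ h1 => h V G H (h1.trans_le k)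

theorem lstep (j : Jobs) {n : ℕ} (hP : PP n) (hL : LL n) : LL (n + 1) := by
  intro V G H _ _ _ _ _ _ _ _ hn hs pc
  rcases subsingleton_or_nontrivial V with hV | hV
  · exact SolMod.of_forall fun _ _ => Subsingleton.elim _ _
  haveI : Finite (AddMonoid.End V) := DFunLike.finite (V →+ V)
  let φ : G →* (AddMonoid.End V)ˣ := (DistribMulAction.toAddMonoidEnd G V).toHomUnits
  let ψ : H →* (AddMonoid.End V)ˣ := (DistribMulAction.toAddMonoidEnd H V).toHomUnits
  obtain ⟨M, m1, m2, m3⟩ := Finite.exists_le_maximal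
    (p := fun M : Subgroup (AddMonoid.End V)ˣ => Group.IsSolvable M) (a := φ.range)
    (Group.isSolvable_of_surjective φ.rangeRestrict_surjective)
  have hc := solv_cl j (PP.mono hP (Nat.lt_succ_iff.1 hn)) (LL.mono hL (Nat.lt_succ_iff.1 hn)) M m2
    (fun f hf => ⟨⟨f, (AddEquiv.ofBijective f hf).symm.toAddMonoidHom,
      AddMonoidHom.ext (AddEquiv.ofBijective f hf).apply_symm_apply,
      AddMonoidHom.ext (AddEquiv.ofBijective f hf).symm_apply_apply⟩, fun _ => rfl⟩)
    fun G' h1 h2 => m3 h2 h1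
  have hm : ∀ h, ψ h ∈ cl V M := fun h u v => by
    obtain ⟨g, k⟩ := pc h u v
    exact ⟨φ g, m1 ⟨g, rfl⟩, k⟩
  exact (SolOn.of_solvable (Ω := V) hc).comap (ψ.codRestrict _ hm)

theorem pstep (j : Jobs) {n : ℕ} (hP : PP n) (hL : LL (n + 1)) : PP (n + 1) := by
  intro Ω G H _ _ _ _ _ _ _ hn hs c
  by_cases hp : Prim G Ω
  swap
  · exact j.pred Ω G H (PP.mono hP (Nat.lt_succ_iff.1 hn)) hs c hp
  by_cases ht : ∃ (g : G) (x : Ω), g • x ≠ x
  swap
  · push Not at ht
    refine SolMod.of_forall fun h x => ?_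
    obtain ⟨g, k, -⟩ := c h x x x
    rw [k, ht]
  obtain ⟨_, G₀, _, _, _, h1, h2, h3, h4⟩ := j.pstr Ω G hs hp ht
  refine j.pend Ω G₀ H (LL.mono hL hn) h1 (fun h x y z => ?_) (jobAff j.aff2 Ω G₀ h1 h2 h3)
  obtain ⟨g, k1, k2, k3⟩ := c h x y z
  obtain ⟨a, g₀, k⟩ := h4 g
  exact ⟨a, g₀, k1.trans (k x), k2.trans (k y), k3.trans (k z)⟩

theorem pp_all (j : Jobs) (n : ℕ) : PP n ∧ LL n := by
  induction n with
  | zero => exact ⟨fun _ _ _ _ _ _ _ _ _ _ h => absurd h (Nat.not_lt_zero _),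
      fun _ _ _ _ _ _ _ _ _ _ _ h => absurd h (Nat.not_lt_zero _)⟩
  | succ n ih => exact ⟨pstep j ih.1 (lstep j ih.1 ih.2), lstep j ih.1 ih.2⟩

theorem main (j : Jobs) {Ω : Type*} [Finite Ω] (G : Subgroup (Equiv.Perm Ω))
    (hG : Group.IsSolvable G) (H : Subgroup (Equiv.Perm Ω))
    (hH : ∀ h ∈ H, ∀ a b c : Ω, ∃ g ∈ G, g a = h a ∧ g b = h b ∧ g c = h c) :
    Group.IsSolvable H := by
  obtain ⟨n, ⟨e⟩⟩ := Finite.exists_equiv_fin Ω
  let φ : Equiv.Perm Ω →* Equiv.Perm (Fin n) := e.permCongrHom.toMonoidHom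
  have hi : Function.Injective φ := e.permCongrHom.injective
  have h1 : Group.IsSolvable (H.map φ) := ((pp_all j _).1 (Fin n) (G.map φ) (H.map φ)
    (Nat.lt_succ_self _) (Group.isSolvable_of_surjective (φ.subgroupMap_surjective G)) (by
      rintro ⟨_, h, hh, rfl⟩ a b c
      obtain ⟨g, hg, k1, k2, k3⟩ := hH h hh (e.symm a) (e.symm b) (e.symm c)
      exact ⟨⟨_, g, hg, rfl⟩, congrArg e k1.symm, congrArg e k2.symm, congrArg e k3.symm⟩)).solvable
  exact Group.isSolvable_of_isSolvable_injective (f := (H.equivMapOfInjective φ hi).toMonoidHom)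
    (H.equivMapOfInjective φ hi).injective

end H91.CLA
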