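import Cfsg.Agent.H91.CL3Spec

/-! CL3 tower (row S3621): job IDEM. -/

set_option autoImplicit false
set_option linter.unusedSectionVars false

namespace H91.CLI

open H91.CL
open scoped Pointwise

variable {V : Type} [AddCommGroup V] [Finite V] {R : Subring (AddMonoid.End V)}

/-- `W` is the fixed space of an idempotent of `R`. -/
def Fx (R : Subring (AddMonoid.End V)) (W : AddSubgroup V) : Prop :=
  ∃ f ∈ R, f * f = f ∧ ∀ v, v ∈ W ↔ f v = v

/-- The atoms. -/
def At (R : Subring (AddMonoid.End V)) : Set (AddSubgroup V) := {W | Minimal (fun U => Fx R U ∧ U ≠ ⊥) W}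

theorem fx_of {f : AddMonoid.End V} (h : f ∈ R) (h2 : f * f = f) :
    Fx R (AddMonoidHom.eqLocus f (AddMonoidHom.id V)) := ⟨f, h, h2, fun _ => Iff.rfl⟩

theorem Fx.inf (hc : ∀ x ∈ R, ∀ y ∈ R, x * y = y * x) {U W : AddSubgroup V} (h : Fx R U)
    (h' : Fx R W) : Fx R (U ⊓ W) := by
  obtain ⟨e, e1, e2, e3⟩ := h
  obtain ⟨f, f1, f2, f3⟩ := h'
  refine ⟨e * f, mul_mem e1 f1, by
    rw [mul_assoc, ← mul_assoc f, hc f f1 e e1, mul_assoc, f2, ← mul_assoc, e2], fun v => ?_⟩
  rw [AddSubgroup.mem_inf, e3, f3]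
  refine ⟨fun k => show e (f v) = v by rw [k.2, k.1], fun k => ⟨?_, ?_⟩⟩
  · rw [← k]; show (e * (e * f)) v = _; rw [← mul_assoc, e2]
  · rw [← k]; show (f * (e * f)) v = _; rw [← mul_assoc, hc f f1 e e1, mul_assoc, f2]

/-- Complements. -/
theorem Fx.compl (hc : ∀ x ∈ R, ∀ y ∈ R, x * y = y * x) {W : AddSubgroup V} (h : Fx R W) :
    ∃ W', Fx R W' ∧ Disjoint W W' ∧ ∀ U, Fx R U → U ≤ (U ⊓ W) ⊔ (U ⊓ W') := by
  obtain ⟨e, e1, e2, e3⟩ := h
  have ee : ∀ v, e (e v) = e v := fun v => DFunLike.congr_fun e2 v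
  refine ⟨_, fx_of (f := 1 - e) (sub_mem (one_mem _) e1) (by
    rw [sub_mul, mul_sub, mul_sub, e2]; simp), AddSubgroup.disjoint_def.2 fun {v} h1 h2 => ?_, ?_⟩
  · have h3 : v - e v = v := h2
    rw [(e3 v).1 h1, sub_self] at h3
    exact h3.symm
  · rintro U ⟨f, f1, -, f3⟩ v hv
    have h1 : e v ∈ U := (f3 _).2 (by
      show (f * e) v = _
      rw [hc f f1 e e1]; show e (f v) = _; rw [(f3 v).1 hv])
    refine AddSubgroup.mem_sup.2 ⟨e v, ⟨h1, (e3 _).2 (ee v)⟩, v - e v, ⟨U.sub_mem hv h1, ?_⟩, by abel⟩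
    show (v - e v) - e (v - e v) = v - e v
    rw [map_sub, ee, sub_self, sub_zero]

theorem exists_at {W : AddSubgroup V} (h : Fx R W) (h0 : W ≠ ⊥) : ∃ U ∈ At R, U ≤ W := by
  obtain ⟨U, h1, h2⟩ := exists_minimal_le_of_wellFoundedLT (fun U => Fx R U ∧ U ≠ ⊥) W ⟨h, h0⟩
  exact ⟨U, h2, h1⟩

theorem le_sSup_at (hc : ∀ x ∈ R, ∀ y ∈ R, x * y = y * x) (W : AddSubgroup V) (h : Fx R W) :
    W ≤ sSup (At R) := by
  induction W using WellFoundedLT.induction with
  | ind W ih =>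
    rcases eq_or_ne W ⊥ with rfl | h0
    · exact bot_le
    obtain ⟨U, h1, h2⟩ := exists_at h h0
    obtain ⟨U', h3, h4, h5⟩ := h1.1.1.compl hc
    refine (h5 W h).trans (sup_le (inf_le_right.trans (le_sSup h1)) (ih _ ?_ (h.inf hc h3)))
    exact lt_of_le_of_ne inf_le_left fun k =>
      h1.1.2 (h4.eq_bot_of_le (h2.trans (k ▸ inf_le_right)))

theorem ind_at (hc : ∀ x ∈ R, ∀ y ∈ R, x * y = y * x) : sSupIndep (At R) := fun W h => by
  obtain ⟨W', h3, h4, h5⟩ := h.1.1.compl hc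
  refine h4.mono_right (sSup_le fun U hU => (h5 U hU.1.1.1).trans (sup_le ?_ inf_le_right))
  by_cases k : U ⊓ W = ⊥
  · rw [k]; exact bot_le
  · have k1 := hU.1.1.1.inf hc h.1.1
    exact absurd (le_antisymm ((hU.1.2 ⟨k1, k⟩ inf_le_left).trans inf_le_right)
      ((h.2 ⟨k1, k⟩ inf_le_right).trans inf_le_left)) hU.2

theorem jobIDEM : JobIDEM := fun V G _ _ _ _ _ hV p A hp hv hA hc hd => by
  haveI := Fact.mk hp
  set r := DistribMulAction.toAddMonoidEnd G V with hr
  set R := Subring.closure (r '' A) with hR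
  have rA : ∀ a ∈ A, r a ∈ R := fun a ha => Subring.subset_closure ⟨a, ha, rfl⟩
  have cm : ∀ x ∈ R, ∀ y ∈ R, x * y = y * x := fun x hx y hy =>
    congrArg Subtype.val ((Subring.isMulCommutative_closure (s := r '' A) (by
      rintro _ ⟨a, ha, rfl⟩ _ ⟨b, hb, rfl⟩
      rw [← map_mul, hc a ha b hb, map_mul])).1.1 ⟨x, hx⟩ ⟨y, hy⟩)
  obtain ⟨v0, h0⟩ := exists_ne (0 : V)
  haveI : Nontrivial (AddMonoid.End V) := ⟨1, 0, fun k => h0 (DFunLike.congr_fun k v0)⟩
  haveI : CharP (AddMonoid.End V) p := (CharP.charP_iff_prime_eq_zero hp).2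
    (AddMonoidHom.ext fun v => (AddMonoid.End.natCast_apply p v).trans (hv v))
  have cj : ∀ g : G, ∀ x ∈ R, r g * x * r g⁻¹ ∈ R := fun g x hx => by
    induction hx using Subring.closure_induction with
    | mem x hx =>
      obtain ⟨a, ha, rfl⟩ := hx
      rw [← map_mul, ← map_mul]; exact rA _ (hA.conj_mem a ha g)
    | zero => simp
    | one => rw [mul_one, ← map_mul, mul_inv_cancel, map_one]; exact one_mem _
    | add x y _ _ h1 h2 => rw [mul_add, add_mul]; exact add_mem h1 h2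
    | neg x _ h1 => rw [mul_neg, neg_mul]; exact neg_mem h1
    | mul x y _ _ h1 h2 =>
      have := mul_mem h1 h2
      rwa [mul_assoc, ← mul_assoc (r g⁻¹), ← mul_assoc (r g⁻¹), ← map_mul, inv_mul_cancel, map_one,
        one_mul, ← mul_assoc, mul_assoc (r g)] at this
  have gi : ∀ g : G, r g⁻¹ * r g = 1 := fun g => by rw [← map_mul, inv_mul_cancel, map_one]
  have ig : ∀ g : G, r g * r g⁻¹ = 1 := fun g => by rw [← map_mul, mul_inv_cancel, map_one]
  by_cases hi : ∃ f ∈ R, f * f = f ∧ f ≠ 0 ∧ f ≠ 1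
  · obtain ⟨f, f1, f2, f3, f4⟩ := hi
    have fs : ∀ (g : G) W, Fx R W → Fx R (g • W) := by
      rintro g W ⟨e, e1, e2, e3⟩
      refine ⟨_, cj g e e1, ?_, fun v => ?_⟩
      · rw [mul_assoc, ← mul_assoc (r g⁻¹), ← mul_assoc (r g⁻¹), gi, one_mul, ← mul_assoc,
          mul_assoc (r g), e2]
      · rw [AddSubgroup.mem_pointwise_smul_iff_inv_smul_mem, e3]
        exact (smul_eq_iff_eq_inv_smul g).symm
    have tp : sSup (At R) = ⊤ := top_le_iff.1 (le_sSup_at cm ⊤ ⟨1, one_mem _, one_mul _,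
      fun _ => ⟨fun _ => rfl, fun _ => trivial⟩⟩)
    refine Or.inl ⟨At R, ⟨ind_at cm, tp, fun k => k.1.2 rfl, ?_, fun g W hW => ⟨⟨fs g W hW.1.1, fun k =>
      hW.1.2 (by rw [← inv_smul_smul g W, k]; exact AddSubgroup.map_bot _)⟩, fun U hU k => ?_⟩⟩,
      fun W hW a ha => ?_⟩
    · by_contra k
      rw [Set.not_nontrivial_iff] at k
      obtain ⟨U, h1, h2⟩ := exists_at (fx_of f1 f2) fun k => f3 (AddMonoidHom.ext fun v =>
        (k.le (show f v ∈ AddMonoidHom.eqLocus f _ from DFunLike.congr_fun f2 v) :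
          f v ∈ (⊥ : AddSubgroup V)))
      refine f4 (AddMonoidHom.ext fun v => h2 ?_)
      exact (sSup_le fun W hW => (k hW h1).le : sSup (At R) ≤ U) (tp.ge trivial)
    · rw [AddSubgroup.pointwise_smul_le_iff]
      refine hW.2 ⟨fs g⁻¹ U hU.1, fun k => hU.2 ?_⟩ (AddSubgroup.le_pointwise_smul_iff.1 k)
      rw [← smul_inv_smul g U, k]; exact AddSubgroup.map_bot _
    · obtain ⟨e, e1, -, e3⟩ := hW.1.1
      ext v
      rw [AddSubgroup.mem_pointwise_smul_iff_inv_smul_mem, e3, e3]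
      have : e (a⁻¹ • v) = a⁻¹ • e v := DFunLike.congr_fun (cm e e1 _ (rA _ (inv_mem ha))) v
      rw [this, smul_left_cancel_iff]
  · push Not at hi
    obtain ⟨q, hq⟩ : ∃ q, p ^ (Nat.card A).totient = q + 2 := Nat.exists_eq_add_of_le'
      (Nat.one_lt_pow (Nat.totient_pos.2 Nat.card_pos).ne' hp.one_lt)
    have pw : ∀ x ∈ R, x ^ p ^ (Nat.card A).totient = x := fun x hx => by
      induction hx using Subring.closure_induction with
      | mem x hx =>
        obtain ⟨a, ha, rfl⟩ := hx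
        have h1 : p ^ (Nat.card A).totient ≡ 1 [MOD orderOf a] :=
          (Nat.ModEq.pow_totient ((Nat.Prime.coprime_iff_not_dvd hp).2 hd)).of_dvd
            (A.orderOf_dvd_natCard ha)
        rw [← map_pow, pow_eq_pow_iff_modEq.2 h1, pow_one]
      | zero => rw [hq]; simp
      | one => simp
      | add x y hx hy h1 h2 => rw [add_pow_char_pow_of_commute _ _ (cm x hx y hy), h1, h2]
      | neg x _ h1 => rw [neg_pow, neg_one_pow_char_pow, h1, neg_one_mul]
      | mul x y hx hy h1 h2 => rw [Commute.mul_pow (cm x hx y hy), h1, h2]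
    have hF : IsField R := ⟨⟨1, 0, one_ne_zero⟩, fun x y => Subtype.ext (cm _ x.2 _ y.2), fun {x} hx => by
      have h1 := pw _ x.2
      rw [hq] at h1
      refine ⟨x ^ q, Subtype.ext ?_⟩
      show x.1 * x.1 ^ q = 1
      rw [← pow_succ']
      refine hi _ (pow_mem x.2 _) ?_ fun k => hx (Subtype.ext ?_)
      · rw [← pow_add, show q + 1 + (q + 1) = q + 2 + q by omega, pow_add, h1, pow_succ']
      · rw [← h1, pow_succ, k, zero_mul]; rfl⟩
    letI := hF.toField
    haveI : Finite (AddMonoid.End V) := DFunLike.finite (V →+ V)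
    refine Or.inr ⟨R, inferInstance, inferInstance, (inferInstance : Module R V), fun g => ?_,
      fun a ha => ⟨⟨_, rA a ha⟩, fun _ => rfl⟩, eq_top_iff.2 fun x _ => ?_⟩
    · refine ⟨{ toFun := fun x => ⟨_, cj g x x.2⟩
                invFun := fun x => ⟨_, cj g⁻¹ x x.2⟩
                left_inv := fun x => Subtype.ext ?_
                right_inv := fun x => Subtype.ext ?_
                map_mul' := fun x y => Subtype.ext ?_
                map_add' := fun x y => Subtype.ext ?_ }, fun a v => ?_⟩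
      · show r g⁻¹ * (r g * x * r g⁻¹) * r g⁻¹⁻¹ = x
        rw [inv_inv, ← mul_assoc, ← mul_assoc, gi, one_mul, mul_assoc, gi, mul_one]
      · show r g * (r g⁻¹ * x * r g⁻¹⁻¹) * r g⁻¹ = x
        rw [inv_inv, ← mul_assoc, ← mul_assoc, ig, one_mul, mul_assoc, ig, mul_one]
      · show r g * (x * y) * r g⁻¹ = r g * x * r g⁻¹ * (r g * y * r g⁻¹)
        rw [mul_assoc (r g * x), ← mul_assoc (r g⁻¹), ← mul_assoc (r g⁻¹), gi, one_mul, ← mul_assoc,
          ← mul_assoc]
      · show r g * (x + y) * r g⁻¹ = r g * x * r g⁻¹ + r g * y * r g⁻¹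
        rw [mul_add, add_mul]
      · show g • a.1 v = g • a.1 (g⁻¹ • g • v)
        rw [inv_smul_smul]
    · obtain ⟨x, hx⟩ := x
      have hx' := Subring.mem_closure_iff.1 hx
      induction hx' using AddSubgroup.closure_induction with
      | mem x h1 =>
        have h2 : Submonoid.closure (r '' A) ≤ A.toSubmonoid.map r :=
          Submonoid.closure_le.2 fun _ h => h
        obtain ⟨a, ha, rfl⟩ := h2 h1
        exact AddSubgroup.subset_closure ⟨a, ha, fun _ => rfl⟩
      | zero => exact zero_mem _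
      | add x y h1 h2 i1 i2 =>
        exact add_mem (i1 (Subring.mem_closure_iff.2 h1) trivial)
          (i2 (Subring.mem_closure_iff.2 h2) trivial)
      | neg x h1 i1 => exact neg_mem (i1 (Subring.mem_closure_iff.2 h1) trivial)

end H91.CLI
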