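import Cfsg.Agent.H91.CL3Spec

/-! CL3 tower (row S3621): job M1. -/

set_option autoImplicit false
set_option linter.unusedSectionVars false

namespace H91.CLM

open H91.CL Subgroup
open scoped commutatorElement

variable {K V Γ : Type} [Field K] [Finite K] [AddCommGroup V] [Module K V] [Finite V] [Nontrivial V]
  [Group Γ] [Finite Γ] [DistribMulAction Γ V] [FaithfulSMul Γ V] {sc : Kˣ →* Γ} {G H S : Subgroup Γ}

local notation "ρ" => DistribMulAction.toAddMonoidEnd Γ V
local notation "κ" => Module.toAddMonoidEnd K V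

theorem rho_sc (s : KS V sc G H) (a : Kˣ) : ρ (sc a) = κ a := AddMonoidHom.ext (s.hsc a)

theorem comm_A (s : KS V sc G H) {t x : Γ} (ht : Lin K V t) (hx : x ∈ sc.range) : t * x = x * t := by
  obtain ⟨a, rfl⟩ := hx
  exact s.comm_sc ht a

theorem sum0 [Fintype S] (s : KS V sc G H) (c : Cls V sc S) {x : Γ} (hx : x ∈ S)
    (h : x ∉ sc.range) : ∑ t : S, ρ ⁅(t : Γ), x⁆ = 0 := by
  choose f hf using fun t : S => c.comm t t.2 x hx
  let χ : S →* Kˣ := MonoidHom.mk' f fun a b => s.sc_inj (by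
    rw [map_mul, hf, hf, hf, ← comm_A s (c.lin _ (c.sc_le (c.comm _ b.2 _ hx)))
      (c.comm _ a.2 _ hx)]
    calc ⁅((a * b : S) : Γ), x⁆ = a * ⁅(b : Γ), x⁆ * (a : Γ)⁻¹ * ⁅(a : Γ), x⁆ := by
          simp only [coe_mul, commutatorElement_def]; group
      _ = _ := by rw [comm_A s (c.lin _ a.2) (c.comm _ b.2 _ hx), mul_inv_cancel_right])
  have h1 : (Units.coeHom K).comp χ ≠ 1 := fun k => h (c.cen x hx fun y hy => by
    have h2 : f ⟨y, hy⟩ = 1 := Units.ext (DFunLike.congr_fun k (⟨y, hy⟩ : S) :)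
    have h3 := hf ⟨y, hy⟩
    rw [h2, map_one] at h3
    exact (commutatorElement_eq_one_iff_mul_comm.1 h3.symm).symm)
  have h2 := congrArg κ (sum_hom_units_eq_zero _ h1)
  rw [map_sum, map_zero] at h2
  rw [← h2]
  exact Finset.sum_congr rfl fun t _ => by rw [← hf, rho_sc s]; rfl

theorem sum1 [Fintype S] (s : KS V sc G H) (c : Cls V sc S) {x : Γ} (h : x ∈ sc.range) :
    ∑ t : S, ρ ⁅(t : Γ), x⁆ = κ (Nat.card S) := by
  rw [Finset.sum_congr rfl fun (t : S) _ => show ρ ⁅(t : Γ), x⁆ = 1 by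
    rw [commutatorElement_eq_one_iff_mul_comm.2 (comm_A s (c.lin _ t.2) h), map_one]]
  simp

theorem avg_mem [Fintype S] (s : KS V sc G H) (c : Cls V sc S) {x : Γ} (hx : x ∈ S) :
    ∑ t : S, ρ t * ρ x * ρ (t : Γ)⁻¹ ∈ (κ).range := by
  rw [Finset.sum_congr rfl fun (t : S) _ => show ρ t * ρ x * ρ (t : Γ)⁻¹ = ρ ⁅(t : Γ), x⁆ * ρ x by
    rw [← map_mul, ← map_mul, ← map_mul, commutatorElement_def, inv_mul_cancel_right],
    ← Finset.sum_mul]
  by_cases h : x ∈ sc.range
  · rw [sum1 s c h]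
    obtain ⟨a, rfl⟩ := h
    rw [rho_sc s]
    exact mul_mem ⟨_, rfl⟩ ⟨_, rfl⟩
  · rw [sum0 s c hx h, zero_mul]; exact zero_mem _

theorem jobM1 : JobM1 := fun K V Γ _ _ _ _ _ _ _ _ _ _ sc G H s S mx st c hc lc => by
  classical
  haveI := Fintype.ofFinite S
  set r := DistribMulAction.toAddMonoidEnd Γ V with hr
  set k := Module.toAddMonoidEnd K V with hk
  have cS : ∀ x ∈ S, c * x * c⁻¹ ∈ S := fun x hx => (mem_normalizer_iff.1 (st.nor hc) x).1 hx
  have cS' : ∀ x ∈ S, c⁻¹ * x * c ∈ S := fun x hx => by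
    simpa using (mem_normalizer_iff.1 (st.nor (inv_mem hc)) x).1 hx
  let lam : S → AddMonoid.End V := fun m => ∑ t : S, r (c * t * c⁻¹ * (m : Γ)⁻¹ * (t : Γ)⁻¹)
  have tw : ∀ m, ∀ x ∈ S, lam m * r x = r (c * x * c⁻¹) * lam m := fun m x hx => by
    simp only [lam, Finset.sum_mul, Finset.mul_sum, ← map_mul]
    refine (Fintype.sum_equiv (Equiv.mulLeft (⟨x, hx⟩ : S)) _ _ fun t => ?_).symm
    congr 1
    simp only [Equiv.coe_mulLeft, coe_mul]
    group
  let T : S → AddMonoid.End V := fun m => ∑ t : S, r t * (r m * lam m) * r (t : Γ)⁻¹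
  have T1 : ∀ m, ∃ y, T m = lam m * y := fun m => ⟨∑ t : S, r (c⁻¹ * (t * m) * c) * r (t : Γ)⁻¹, by
    rw [Finset.mul_sum]
    refine Finset.sum_congr rfl fun t _ => ?_
    rw [← mul_assoc (lam m), tw m _ (cS' _ (mul_mem t.2 m.2)), ← mul_assoc, ← map_mul]
    congr 3
    group⟩
  have T2 : ∀ m, T m ∈ k.range := fun m => by
    simp only [T, lam, Finset.mul_sum, Finset.sum_mul]
    rw [Finset.sum_comm]
    refine sum_mem fun u _ => ?_
    simp only [← map_mul r (m : Γ)]
    exact avg_mem s st.cls (mul_mem m.2 (mul_mem (mul_mem (cS _ u.2) (inv_mem m.2)) (inv_mem u.2)))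
  have S1 : ∑ m : S, r m * lam m = k (Nat.card (sc.range.subgroupOf S) * Nat.card S) := by
    simp only [lam, Finset.mul_sum]
    rw [Finset.sum_comm, Finset.sum_congr rfl fun (u : S) _ =>
      show ∑ m : S, r m * r (c * u * c⁻¹ * (m : Γ)⁻¹ * (u : Γ)⁻¹) =
        if u ∈ sc.range.subgroupOf S then k (Nat.card S) else 0 from ?_]
    · rw [← Finset.sum_filter, Finset.sum_const, map_mul, map_natCast k (Nat.card (subgroupOf _ _)),
        nsmul_eq_mul, Nat.card_eq_fintype_card (α := subgroupOf _ _), Fintype.card_subtype]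
    · rw [Finset.sum_congr rfl fun (m : S) _ => show r m * r (c * u * c⁻¹ * (m : Γ)⁻¹ * (u : Γ)⁻¹) =
        r ⁅(m : Γ), c * u * c⁻¹⁆ * r (c * u * c⁻¹ * (u : Γ)⁻¹) by
          rw [← map_mul, ← map_mul, commutatorElement_def]; congr 1; group, ← Finset.sum_mul]
      split_ifs with h
      · rw [mem_subgroupOf] at h
        have h1 : c * u * c⁻¹ = u := by rw [comm_A s lc h, mul_inv_cancel_right]
        rw [h1, sum1 s st.cls h, mul_inv_cancel, map_one, mul_one]
      · rw [sum0 s st.cls (cS _ u.2), zero_mul]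
        intro h1
        refine h ?_
        have h2 : c⁻¹ * (c * u * c⁻¹) = c * u * c⁻¹ * c⁻¹ := comm_A s lc.inv h1
        have h3 : (u : Γ) = c * u * c⁻¹ := by
          rw [← mul_left_inj c⁻¹, ← h2]; group
        rw [mem_subgroupOf, h3]; exact h1
  have n0 : (Nat.card S * (Nat.card (sc.range.subgroupOf S) * Nat.card S) : K) ≠ 0 := by
    obtain ⟨j, hj⟩ := card_subgroup_dvd_card (sc.range.subgroupOf S)
    refine mul_ne_zero st.inn.card (mul_ne_zero (fun h => st.inn.card ?_) st.inn.card)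
    rw [hj, Nat.cast_mul, h, zero_mul]
  have T3 : ∑ m, T m = k (Nat.card S * (Nat.card (sc.range.subgroupOf S) * Nat.card S)) := by
    simp only [T]
    rw [Finset.sum_comm]
    simp only [← Finset.sum_mul, ← Finset.mul_sum, S1]
    rw [Finset.sum_congr rfl fun (t : S) _ => show r t * k _ * r (t : Γ)⁻¹ = k _ from
      AddMonoidHom.ext fun v => (st.cls.lin _ t.2 _ _).trans (congrArg _ (smul_inv_smul _ v))]
    rw [Finset.sum_const, nsmul_eq_mul, map_mul k (Nat.card S : K), map_natCast, Finset.card_univ,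
      Nat.card_eq_fintype_card (α := S)]
  obtain ⟨v0, h0⟩ := exists_ne (0 : V)
  obtain ⟨m, -, hm⟩ := Finset.exists_ne_zero_of_sum_ne_zero (s := Finset.univ) (f := T) (by
    rw [T3]
    exact fun h => smul_ne_zero n0 h0 (DFunLike.congr_fun h v0))
  obtain ⟨a, ha⟩ := T2 m
  obtain ⟨y, hy⟩ := T1 m
  have a0 : a ≠ 0 := by rintro rfl; exact hm (by rw [← ha, map_zero])
  have su : Function.Surjective (lam m) := fun v => ⟨y (a⁻¹ • v), by
    have := DFunLike.congr_fun (ha.trans hy) (a⁻¹ • v)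
    exact this.symm.trans (smul_inv_smul₀ a0 v)⟩
  obtain ⟨l, hl⟩ := mx.full (lam m) (Finite.surjective_iff_bijective.1 su)
  have hl' : r l = lam m := AddMonoidHom.ext hl
  refine ⟨l, ?_, fun x hx => eq_of_smul_eq_smul (α := V) fun v => ?_⟩
  · show r l ∈ Subring.closure _
    rw [hl']
    exact sum_mem fun u _ => Subring.subset_closure
      ⟨_, mul_mem (mul_mem (cS _ u.2) (inv_mem m.2)) (inv_mem u.2), rfl⟩
  · have := tw m x hx
    rw [← hl', ← map_mul, ← map_mul] at this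
    exact DFunLike.congr_fun this v

end H91.CLM
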