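import Cfsg.Agent.H91.CL3Asm
import Cfsg.Agent.H91.CL3Aff2
import Cfsg.Agent.H91.CL3Idem
import Cfsg.Agent.H91.CL3M1
import Cfsg.Agent.H10.CLSTR
import Cfsg.Agent.H4.CLM2
import Cfsg.Agent.H42.CLM3
import Cfsg.Agent.H42.CLSing
import Cfsg.Agent.H44.CL3End
import Cfsg.Agent.H46.CL3HAM
import Cfsg.Agent.H54.CL3LSemi
import Cfsg.Agent.H70.CL3A
import Cfsg.Agent.H93.ClAdd
import Cfsg.Agent.H93.ClImp

/-! CL3 tower (row S3621): everything but chapter 3. -/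

set_option autoImplicit false

namespace H91.CLF

theorem jobs (h : H91.CL.JobPiece) : H91.CLA.Jobs where
  idem := H91.CLI.jobIDEM
  pred := H70.CL.jobPRed
  pstr := H70.CL.jobPStr
  pend := H44.CL3.jobPEnd
  aff2 := H91.CLB.jobAff2 H91.CLI.jobIDEM (H93.Cl.jobADD1 H42.CL.jobSING) H46.CL.jobHAM
  limp := H93.Cl.jobLImp
  lsemi := H54.CL3.jobLSemi H42.CL.jobSING
  str := H10.CLSTR.jobSTR H70.CL.jobInn
  m1 := H91.CLM.jobM1
  m2 := H4.CLM2.jobM2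
  m3 := H42.CL.jobM3
  fin := H44.CL3.jobEND
  piece := h

theorem main (h : H91.CL.JobPiece) {Ω : Type*} [Finite Ω] (G : Subgroup (Equiv.Perm Ω))
    (hG : Group.IsSolvable G) (H : Subgroup (Equiv.Perm Ω))
    (hH : ∀ h ∈ H, ∀ a b c : Ω, ∃ g ∈ G, g a = h a ∧ g b = h b ∧ g c = h c) :
    Group.IsSolvable H := H91.CLA.main (jobs h) G hG H hH

end H91.CLF
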