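/- Standard subgroups of type `2·Ω₈⁺(2)`: the combinatorial job `I` (blueprint `STDO8.md`). -/
import Cfsg.Agent.H11.E8Spec
import Cfsg.Agent.H49.Kit

set_option autoImplicit false

open H11.E8 H49

namespace H91.E8I

attribute [local instance 10000] List.decidableBAll List.decidableBEx

/-- the sum of the `m i` over the bits `i < n` of `y` -/
def lin (m : ℕ → ℕ) (y n : ℕ) : ℕ :=
  Nat.rec (motive := fun _ => ℕ) 0 (fun i acc => cond (H72.tb y i) (Nat.xor acc (m i)) acc) n

theorem lin_succ (m : ℕ → ℕ) (y n : ℕ) :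
    lin m y (n + 1) = if y.testBit n then lin m y n ^^^ m n else lin m y n := by
  show cond (H72.tb y n) (lin m y n ^^^ m n) (lin m y n) = _
  rw [H72.tb_eq]; cases y.testBit n <;> rfl

theorem lin_lt {m : ℕ → ℕ} (y : ℕ) {n : ℕ} (hm : ∀ i < n, m i < 256) : lin m y n < 256 := by
  induction n with
  | zero => show 0 < 256; omega
  | succ n ih =>
    have := ih fun i hi => hm i (by omega)
    rw [lin_succ]; split_ifs
    exacts [xor_lt this (hm n (by omega)), this]

theorem map_lin {f m m' : ℕ → ℕ} (hf : ∀ x < 256, ∀ y < 256, f (x ^^^ y) = f x ^^^ f y) (y : ℕ)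
    {n : ℕ} (hm : ∀ i < n, m i < 256) (e : ∀ i < n, f (m i) = m' i) :
    f (lin m y n) = lin m' y n := by
  induction n with
  | zero =>
    have := hf 0 (by omega) 0 (by omega)
    rw [Nat.xor_self, Nat.xor_self] at this
    exact this
  | succ n ih =>
    have h1 : ∀ i < n, m i < 256 := fun i hi => hm i (by omega)
    have := ih h1 fun i hi => e i (by omega)
    rw [lin_succ, lin_succ]; split_ifs
    · rw [hf _ (lin_lt y h1) _ (hm n (by omega)), this, e n (by omega)]
    · exact this

theorem lin_mod {S : ℕ} {c m : ℕ → ℕ} (y : ℕ) {n : ℕ}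
    (e : ∀ i < n, c i = m i ∨ c i = m i ^^^ S) :
    lin c y n = lin m y n ∨ lin c y n = lin m y n ^^^ S := by
  induction n with
  | zero => exact Or.inl rfl
  | succ n ih =>
    have := ih fun i hi => e i (by omega)
    rw [lin_succ, lin_succ]; split_ifs
    · rcases this with h | h <;> rcases e n (by omega) with k | k <;> rw [h, k]
      · exact Or.inl rfl
      · exact Or.inr (Nat.xor_assoc _ _ _).symm
      · exact Or.inr (by ac_rfl)
      · exact Or.inl (by rw [Nat.xor_comm (m n), Nat.xor_assoc, Nat.xor_xor_cancel_left])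
    · exact this

theorem testBit_lin {π : ℕ → ℕ} (y : ℕ) {n : ℕ} (hi : ∀ i < 8, ∀ j < 8, π i = π j → i = j)
    (hn : n ≤ 8) {i : ℕ} (h : i < 8) :
    (lin (fun i => 2 ^ π i) y n).testBit (π i) = (decide (i < n) && y.testBit i) := by
  induction n with
  | zero => show (0 : ℕ).testBit _ = _; simp
  | succ n ih =>
    have := ih (by omega)
    by_cases e : n = i
    · subst e
      rw [lin_succ]; split_ifs with hb
      · rw [Nat.testBit_xor, this, Nat.testBit_two_pow_self]; simp [hb]
      · rw [this]; simp [hb]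
    · have e2 : decide (i < n + 1) = decide (i < n) := by simp; omega
      rw [lin_succ, e2]; split_ifs with hb
      · rw [Nat.testBit_xor, this, Nat.testBit_two_pow_of_ne fun k => e (hi n (by omega) i h k),
          Bool.xor_false]
      · exact this

theorem act_pow {a i : ℕ} (hi : i < 8) : act a (2 ^ i) = 2 ^ ap a i :=
  Nat.eq_of_testBit_eq fun j => by
    rw [Bool.eq_iff_iff, testBit_act]
    simp only [Nat.testBit_two_pow, decide_eq_true_eq]
    exact ⟨fun ⟨k, _, h1, h2⟩ => h1 ▸ h2, fun h => ⟨i, hi, rfl, h⟩⟩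

/-- the permutation `(i j)(k l)` -/
def sw (i j k l x : ℕ) : ℕ :=
  if x = i then j else if x = j then i else if x = k then l else if x = l then k else x

set_option synthInstance.maxSize 2000 in
theorem exists_sw : ∀ i < 8, ∀ j < 8, ∀ k < 8, i ≠ j → i ≠ k → j ≠ k →
    i ^^^ j ^^^ k < 8 ∧ i ^^^ j ^^^ k ≠ i ∧ i ^^^ j ^^^ k ≠ j ∧ i ^^^ j ^^^ k ≠ k ∧
      okA (ptab 3 (sw i j k (i ^^^ j ^^^ k)) 8) = true ∧
      ∀ x < 8, ap (ptab 3 (sw i j k (i ^^^ j ^^^ k)) 8) x = sw i j k (i ^^^ j ^^^ k) x := by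
  decide +kernel

theorem ty_one : ∀ y < 256, ty y = 1 → ∃ j < 8, y = 2 ^ j ∨ y = 2 ^ j ^^^ 255 := by
  decide +kernel

theorem ty_pow : ∀ j < 8, 2 ^ j < 256 ∧ ty (2 ^ j) = 1 ∧ ty (2 ^ j ^^^ 255) = 1 ∧ ∀ k < 8,
    (2 ^ j = 2 ^ k → j = k) ∧ 2 ^ j ≠ 2 ^ k ^^^ 255 ∧ (j ≠ k → wt (2 ^ j ^^^ 2 ^ k) = 2) := by
  decide +kernel

theorem wt_two : ∀ y < 256, wt y = 2 → ∃ j < 8, ∃ k < 8, y = 2 ^ j ^^^ 2 ^ k := by
  decide +kernel

instance decTyEq (x y : ℕ) : Decidable (TyEq x y) := by unfold TyEq; infer_instance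

def r8 : List ℕ := [0, 1, 2, 3, 4, 5, 6, 7]

theorem mem_r8 {i : ℕ} : i ∈ r8 ↔ i < 8 := by simp only [r8, List.mem_cons]; simp; omega

/-- a certificate -/
noncomputable def okc (m m' : ℕ → ℕ) (c : ℕ) : Bool :=
  Nat.beq (lin m (pap 8 255 c 3) 8) 255 && Nat.beq (lin m' (pap 8 255 c 2) 8) 255 &&
    Nat.beq (act (Nat.shiftRight c 32) (lin m' (pap 8 255 c 3) 8)) (lin m (pap 8 255 c 2) 8) &&
    Nat.beq (act (Nat.shiftRight c 32) (lin m' (pap 8 255 c 1) 8)) (lin m (pap 8 255 c 0) 8) &&
    !decide (TyEq (lin m (pap 8 255 c 1) 8) (lin m' (pap 8 255 c 0) 8)) &&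
    okA (Nat.shiftRight c 32)

noncomputable def chkM (S : ℕ) (g cs : List ℕ) (m : ℕ → ℕ) : Bool :=
  !Nat.beq (lin m 255 8) S ||
    (g.any fun h => r8.any fun i => r8.any fun j => Nat.blt i j &&
      frc (act h (Nat.xor (m i) (m j))) fun z => r8.all fun k => r8.all fun l =>
        !Nat.beq z (Nat.xor (m k) (m l))) ||
    [3, 4, 5, 6, 7].all fun r => frc (ptab 8 (fun i => m (sw 0 1 2 r i)) 8) fun P =>
      cs.any fun c => okc m (pap 8 255 P) c

noncomputable def chkC (S : ℕ) (g cs : List ℕ) (c : ℕ → ℕ) : Bool :=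
  !(Nat.beq (lin c 255 8) S || Nat.beq (lin c 255 8) 0) ||
    ((List.range 254).any fun y => frc (lin c (y + 1) 8) fun z => Nat.beq z S || Nat.beq z 0) ||
    (List.range 256).all fun b =>
      frc (ptab 8 (fun i => cond (H72.tb b i) (Nat.xor (c i) S) (c i)) 8) fun P =>
        chkM S g cs (pap 8 255 P)

noncomputable def fin (S : ℕ) (g cs l : List ℕ) : Bool :=
  !Nat.beq l.length 8 || frc (ptab 8 (fun i => l.getD i 0) 8) fun P => chkC S g cs (pap 8 255 P)

/-- all unions of orbits with at most eight elements -/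
noncomputable def go (f : List ℕ → Bool) (O : List (List ℕ)) : List ℕ → Bool :=
  List.rec (motive := fun _ => List ℕ → Bool) f
    (fun o _ ih acc => ih acc && (Nat.blt 8 (acc ++ o).length || ih (acc ++ o))) O

theorem go_spec (f : List ℕ → Bool) {L O : List (List ℕ)} (h : L.Sublist O) :
    ∀ acc, go f O acc = true → (acc ++ L.flatten).length ≤ 8 → f (acc ++ L.flatten) = true := by
  induction h with
  | slnil => intro acc h _; rw [List.flatten_nil, List.append_nil]; exact h
  | cons o _ ih => exact fun acc h => ih acc (Bool.and_eq_true_iff.1 h).1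
  | cons_cons o _ ih =>
    intro acc h hl
    rw [List.flatten_cons, ← List.append_assoc] at hl ⊢
    refine ih _ ((Bool.or_eq_true_iff.1 (Bool.and_eq_true_iff.1 h).2).resolve_left fun k => ?_) hl
    rw [Nat.blt_eq] at k
    rw [List.length_append] at hl
    omega

/-- the orbits on the masks modulo `S` -/
def Orb (S : ℕ) (O : List (ℕ × List (ℕ × ℕ))) (g : List ℕ) : Prop :=
  (∀ o ∈ O, o.1 < 256 ∧ ∀ p ∈ o.2, okA p.2 = true ∧ act p.2 S = S ∧ act p.2 o.1 = p.1) ∧
  (∀ x < 256, ∃ o ∈ O, ∃ p ∈ o.2, p.1 = x ∨ p.1 = x ^^^ S) ∧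
  (O.map fun o => o.2.map Prod.fst).flatten.Pairwise (fun a b => a ≠ b ∧ a ≠ b ^^^ S) ∧
  ∀ h ∈ g, okA h = true ∧ act h S = S

instance decOrb (S : ℕ) (O : List (ℕ × List (ℕ × ℕ))) (g : List ℕ) : Decidable (Orb S O g) := by
  unfold Orb; infer_instance

def O1 : List (ℕ × List (ℕ × ℕ)) := [(0, [(0, 16434824)]), (254, [(254, 16434824)]), (2, [(2,
  16434824), (4, 16205392), (8, 14140504), (16, 15673952), (32, 13609064), (64, 11415152), (128,
  9350264)]), (14, [(14, 16434824), (50, 16362248), (194, 11644808), (84, 16096528), (164,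
  13737808), (152, 13967128), (104, 15801688)]), (60, [(60, 16434824), (204, 11789960), (240,
  7072520), (90, 16205392), (170, 13882960), (150, 14140504), (102, 15946840)]), (126, [(126,
  16434824), (190, 14571144), (222, 11789960), (238, 9926280), (246, 7072520), (250, 5208840),
  (252, 3079440)]), (6, [(6, 16434824), (10, 14599368), (18, 16362248), (34, 14526792), (66,
  11644808), (130, 9809352), (12, 12534480), (20, 16096528), (36, 13737808), (68, 12425616), (132,
  10066896), (24, 13967128), (40, 15801688), (72, 10296216), (136, 12130776), (48, 8332128), (80,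
  8295840), (144, 5937120), (96, 6166440), (160, 8001000), (192, 7742448)]), (62, [(62, 16434824),
  (206, 11789960), (242, 7072520), (94, 16205392), (174, 13882960), (244, 6806800), (158,
  14140504), (110, 15946840), (248, 4677400), (118, 15673952), (186, 13351520), (220, 10992800),
  (182, 13609064), (122, 15415400), (236, 8863400), (214, 11415152), (234, 9092720), (124,
  15120560), (230, 9350264), (218, 11156600), (188, 12991160)]), (22, [(22, 16434824), (38,
  14571144), (70, 11789960), (134, 9926280), (26, 14599368), (42, 16405704), (74, 9954504), (138,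
  11760840), (82, 7072520), (146, 5208840), (98, 5237064), (162, 7043400), (28, 12534480), (44,
  10212048), (76, 16147152), (140, 13824720), (52, 6806800), (148, 3079440), (100, 3043152), (196,
  6748560), (56, 4677400), (88, 2813720), (168, 2784600), (200, 4619160), (112, 15557472), (176,
  13235040), (208, 10876320), (224, 8746920)]), (30, [(30, 16434824), (46, 14571144), (78,
  11789960), (142, 9926280), (54, 16362248), (58, 14498568), (114, 7072520), (178, 5208840), (198,
  11644808), (202, 9781128), (210, 6999944), (226, 5136264), (86, 16096528), (92, 12369168), (116,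
  6806800), (212, 3079440), (166, 13737808), (172, 10010448), (180, 6770512), (228, 3043152),
  (154, 13967128), (156, 12103448), (184, 4677400), (216, 2813720), (106, 15801688), (108,
  10267992), (120, 4705624), (232, 2784600)])]
def g1 : List ℕ := [14571144, 16096528]
def c1 : List ℕ := [52853566913826197, 62582586962276822, 62582586962276838, 62582586962276726,
  62582586962276790, 52853571174871701, 62582591223303721, 62582591223303705, 62582591223303817,
  62582591223303753]
def O7 : List (ℕ × List (ℕ × ℕ)) := [(0, [(0, 16434824)]), (8, [(8, 16434824)]), (240, [(240,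
  16434824)]), (248, [(248, 16434824)]), (1, [(1, 16434824), (2, 14599809), (4, 12535362)]), (9,
  [(9, 16434824), (10, 14599809), (12, 12535362)]), (241, [(241, 16434824), (242, 14599809), (244,
  12535362)]), (249, [(249, 16434824), (250, 14599809), (252, 12535362)]), (16, [(16, 16434824),
  (32, 14571144), (64, 11789960), (128, 9926280)]), (24, [(24, 16434824), (40, 14571144), (72,
  11789960), (136, 9926280)]), (112, [(112, 16434824), (176, 14571144), (208, 11789960), (224,
  9926280)]), (120, [(120, 16434824), (184, 14571144), (216, 11789960), (232, 9926280)]), (48,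
  [(48, 16434824), (192, 11789960), (80, 16205392), (160, 13882960), (144, 14140945), (96,
  15947281)]), (51, [(51, 16434824), (195, 11789960), (85, 16205392), (165, 13882960), (150,
  14140945), (102, 15947281)]), (56, [(56, 16434824), (200, 11789960), (88, 16205392), (168,
  13882960), (152, 14140945), (104, 15947281)]), (59, [(59, 16434824), (203, 11789960), (93,
  16205392), (173, 13882960), (158, 14140945), (110, 15947281)]), (17, [(17, 16434824), (33,
  14571144), (65, 11789960), (129, 9926280), (18, 14599809), (34, 16406145), (66, 9954945), (130,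
  11761281), (20, 12535362), (36, 10212930), (68, 16148034), (132, 13825602)]), (25, [(25,
  16434824), (41, 14571144), (73, 11789960), (137, 9926280), (26, 14599809), (42, 16406145), (74,
  9954945), (138, 11761281), (28, 12535362), (44, 10212930), (76, 16148034), (140, 13825602)]),
  (49, [(49, 16434824), (193, 11789960), (81, 16205392), (161, 13882960), (50, 14599809), (194,
  9954945), (146, 14140945), (98, 15947281), (84, 12535362), (164, 10212930), (148, 12305930),
  (100, 10442250)]), (57, [(57, 16434824), (201, 11789960), (89, 16205392), (169, 13882960), (58,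
  14599809), (202, 9954945), (154, 14140945), (106, 15947281), (92, 12535362), (172, 10212930),
  (156, 12305930), (108, 10442250)]), (113, [(113, 16434824), (177, 14571144), (209, 11789960),
  (225, 9926280), (178, 14599809), (114, 16406145), (226, 9954945), (210, 11761281), (212,
  12535362), (228, 10212930), (116, 16148034), (180, 13825602)]), (121, [(121, 16434824), (185,
  14571144), (217, 11789960), (233, 9926280), (186, 14599809), (122, 16406145), (234, 9954945),
  (218, 11761281), (220, 12535362), (236, 10212930), (124, 16148034), (188, 13825602)])]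
def g7 : List ℕ := [16205392, 9954945]
def c7 : List ℕ := [62703808338015937, 70150250837963567, 70275320286671647, 22181307300311951,
  30064530797753167, 62703812161451582, 62703812160715241, 62703812159666649, 70461966203156921,
  70461966198962553, 62703808338852118, 62703808339900710, 70461962387585350, 70461962391779718,
  70150254659826640, 70275324106437600, 22181311115883376, 30064534604936112, 70275324107486160,
  70150254658778080, 30064534609130352, 22181311111689136, 70275320285623087, 70150250839012127,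
  30064530793558927, 22181307304506191, 62703808338052657, 22181307297166127, 30064530791461663,
  70150250841109391, 70275320292963151, 62703812161488590, 70461966206302697, 70461966205254105,
  62703812157569465, 62703812153375097, 70461962384439574, 70461962385488166, 62703808341997894,
  62703808346192262, 22181311119029200, 30064534611227616, 70150254656680816, 70275324100146096,
  30064534612276176, 22181311117980640, 70275324104340336, 70150254652486576, 30064530790413103,
  22181307298214687, 70275320288768911, 70150250845303631, 62703812380276273, 62582591223362519,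
  62582591223362535, 62582591223362423, 62582591223362487, 62703808119191246, 62582586962277335,
  62582586962277351, 62582586962277239, 62582586962277303, 62703812380313281, 62703808119227966]

theorem orb1 : Orb 1 O1 g1 := by decide +kernel

theorem orb7 : Orb 7 O7 g7 := by decide +kernel

theorem go1 : go (fin 1 g1 c1) (O1.map fun o => o.2.map Prod.fst) [] = true := by decide +kernel

theorem go7 : go (fin 7 g7 c7) (O7.map fun o => o.2.map Prod.fst) [] = true := by decide +kernel

/-- the hypotheses of the job -/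
structure Hyp (S : ℕ) (θ : ℕ → ℕ) (R : (ℕ → ℕ) → Prop) : Prop where
  lt : ∀ y < 256, θ y < 256
  add : ∀ x < 256, ∀ y < 256, θ (x ^^^ y) = θ x ^^^ θ y
  ker : ∀ y < 256, θ y = 0 → y = 0
  top : θ 255 = S
  comp : ∀ σ ρ, R σ → R ρ → R (σ ∘ ρ)
  ra : ∀ a, okA a = true → R (act a)
  rs : ∀ a, okA a = true → ∃ σ, R σ ∧ ∀ y < 256, σ (θ y) = θ (act a y)
  h1 : ∀ σ, R σ → σ 255 = 255 → ∀ x < 256, TyEq x (σ x)
  h2 : ∀ σ, R σ → σ S = S → ∀ y < 256, ∀ y' < 256, σ (θ y) = θ y' → TyEq y y'

variable {S : ℕ} {θ : ℕ → ℕ} {R : (ℕ → ℕ) → Prop}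

theorem Hyp.inj (H : Hyp S θ R) {x y : ℕ} (hx : x < 256) (hy : y < 256) (e : θ x = θ y) :
    x = y :=
  Nat.xor_eq_zero_iff.1 (H.ker _ (xor_lt hx hy) (by rw [H.add x hx y hy, e, Nat.xor_self]))

theorem Hyp.sur (H : Hyp S θ R) {x : ℕ} (hx : x < 256) : ∃ y < 256, θ y = x := by
  obtain ⟨y, hy⟩ := Finite.surjective_of_injective (f := fun y : Fin 256 =>
    (⟨θ y, H.lt y y.2⟩ : Fin 256)) (fun a b e => Fin.ext (H.inj a.2 b.2 (congrArg Fin.val e)))
    ⟨x, hx⟩
  exact ⟨y, y.2, congrArg Fin.val hy⟩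

/-- a permutation of the eight coordinates -/
structure Pm (π : ℕ → ℕ) : Prop where
  lt : ∀ i < 8, π i < 8
  inj : ∀ i < 8, ∀ j < 8, π i = π j → i = j
  sur : ∀ j < 8, ∃ i < 8, π i = j

variable {π m : ℕ → ℕ}

theorem Pm.pow (P : Pm π) : ∀ i < 8, 2 ^ π i < 256 := fun i hi => (ty_pow _ (P.lt i hi)).1

theorem Pm.full (P : Pm π) : lin (fun i => 2 ^ π i) 255 8 = 255 :=
  eq_of_bits (lin_lt _ P.pow) (by omega) fun j => by
    obtain ⟨i, hi, e⟩ := P.sur j j.2
    have h : ∀ i < 8, (255 : ℕ).testBit i = true := by decide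
    rw [h j j.2, ← e, testBit_lin _ P.inj le_rfl hi, h i hi]
    simpa using hi

theorem Pm.lin_inj (P : Pm π) {x y : ℕ} (hx : x < 256) (hy : y < 256)
    (e : lin (fun i => 2 ^ π i) x 8 = lin (fun i => 2 ^ π i) y 8) : x = y :=
  eq_of_bits hx hy fun i => by
    have h := testBit_lin x P.inj le_rfl i.2
    rw [e, testBit_lin y P.inj le_rfl i.2] at h
    simpa using h.symm

theorem lin_zero (m : ℕ → ℕ) (n : ℕ) : lin m 0 n = 0 := by
  induction n with
  | zero => rfl
  | succ n ih => rw [lin_succ, Nat.zero_testBit, if_neg (by simp), ih]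

theorem Hyp.lin (H : Hyp S θ R) (P : Pm π) (hm : ∀ i < 8, m i = θ (2 ^ π i)) (y : ℕ) :
    lin m y 8 = θ (lin (fun i => 2 ^ π i) y 8) :=
  (map_lin H.add y P.pow fun i hi => (hm i hi).symm).symm

theorem Hyp.leaf (H : Hyp S θ R) (P : Pm π) (hm : ∀ i < 8, m i = θ (2 ^ π i)) {g cs : List ℕ}
    (hg : ∀ h ∈ g, okA h = true ∧ act h S = S) : chkM S g cs m = true → False := by
  have hl : ∀ i < 8, m i < 256 := fun i hi => hm i hi ▸ H.lt _ (P.pow i hi)
  simp only [chkM, frc_eq, Bool.or_eq_true, Bool.not_eq_true', List.any_eq_true, List.all_eq_true,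
    Bool.and_eq_true, mem_r8, Nat.blt_eq, ← Bool.not_eq_true, Nat.beq_eq]
  rintro ((h | ⟨h, hh, i, hi, j, hj, hij, hz⟩) | h)
  · exact h (by rw [H.lin P hm, P.full, H.top])
  · obtain ⟨y, hy, e⟩ := H.sur (act_lt h (m i ^^^ m j))
    have h2 := ((ty_pow _ (P.lt i hi)).2.2.2 _ (P.lt j hj)).2.2
      fun k => hij.ne (P.inj i hi j hj k)
    have h3 := (H.h2 _ (H.ra h (hg h hh).1) (hg h hh).2 _ (xor_lt (P.pow i hi) (P.pow j hj)) y hy
      (by rw [e, H.add _ (P.pow i hi) _ (P.pow j hj), hm i hi, hm j hj])).2 (by rw [h2])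
    obtain ⟨a, ha, b, hb, rfl⟩ := wt_two y hy (h3.trans h2)
    obtain ⟨k, hk, rfl⟩ := P.sur a ha
    obtain ⟨l, hl, rfl⟩ := P.sur b hb
    refine hz k hk l hl (e.symm.trans ?_)
    rw [H.add _ (P.pow k hk) _ (P.pow l hl), hm k hk, hm l hl]; rfl
  · have n : ∀ i < 8, ∀ j < 8, i ≠ j → π i ≠ π j := fun i hi j hj e k => e (P.inj i hi j hj k)
    obtain ⟨h0, h1, h2, h3, h4, h5⟩ := exists_sw _ (P.lt 0 (by omega)) _ (P.lt 1 (by omega)) _
      (P.lt 2 (by omega)) (n 0 (by omega) 1 (by omega) (by omega))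
      (n 0 (by omega) 2 (by omega) (by omega)) (n 1 (by omega) 2 (by omega) (by omega))
    obtain ⟨r, hr, e⟩ := P.sur _ h0
    rw [← e] at h1 h2 h3 h4 h5
    have hs : ∀ i < 8, sw 0 1 2 r i < 8 := fun i hi => by unfold sw; split_ifs <;> omega
    have hp : ∀ i < 8, sw (π 0) (π 1) (π 2) (π r) (π i) = π (sw 0 1 2 r i) := fun i hi => by
      have k : ∀ j < 8, π i = π j ↔ i = j := fun j hj => ⟨P.inj i hi j hj, fun k => k ▸ rfl⟩
      simp only [sw, k 0 (by omega), k 1 (by omega), k 2 (by omega), k r hr]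
      split_ifs <;> rfl
    obtain ⟨σ, hσ, hθ⟩ := H.rs _ h4
    obtain ⟨c, -, hc⟩ := h r (by
      have : r ≠ 0 ∧ r ≠ 1 ∧ r ≠ 2 := ⟨fun k => h1 (k ▸ rfl), fun k => h2 (k ▸ rfl),
        fun k => h3 (k ▸ rfl)⟩
      simp only [List.mem_cons]; omega)
    generalize hm' : pap 8 255 (ptab 8 (fun i => m (sw 0 1 2 r i)) 8) = m' at hc
    have e' : ∀ i < 8, m' i = θ (2 ^ π (sw 0 1 2 r i)) := fun i hi => by
      rw [← hm', ← hm _ (hs i hi)]
      exact pap_ptab (W := 8) (fun i hi => hl _ (hs i hi)) hi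
    have key : ∀ y, σ (E8I.lin m y 8) = E8I.lin m' y 8 := fun y => by
      rw [H.lin P hm, hθ _ (lin_lt _ P.pow), map_lin (fun x _ y _ => act_xor h4 x y) y P.pow
        fun i hi => (act_pow (P.lt i hi)).trans (by rw [h5 _ (P.lt i hi), hp i hi])]
      exact map_lin H.add y (fun i hi => P.pow _ (hs i hi)) fun i hi => (e' i hi).symm
    simp only [okc, Bool.and_eq_true, Nat.beq_eq, Bool.not_eq_true', decide_eq_false_iff_not] at hc
    obtain ⟨⟨⟨⟨⟨c1, c2⟩, c3⟩, c4⟩, c5⟩, c6⟩ := hc
    refine c5 ?_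
    have := H.h1 _ (H.comp _ _ hσ (H.comp _ _ (H.ra _ c6) hσ)) (by
      show σ (act _ (σ 255)) = 255
      rw [← c1, key, c3, key, c2, c1]) _ (lin_lt (pap 8 255 c 1) hl)
    rwa [Function.comp, Function.comp, key, c4, key] at this

theorem Hyp.cls (H : Hyp S θ R) (P : Pm π) {c : ℕ → ℕ}
    (hc : ∀ i < 8, c i = θ (2 ^ π i) ∨ c i = θ (2 ^ π i) ^^^ S) {g cs : List ℕ}
    (hg : ∀ h ∈ g, okA h = true ∧ act h S = S) : chkC S g cs c = true → False := by
  have hm : ∀ i < 8, (fun i => θ (2 ^ π i)) i = θ (2 ^ π i) := fun _ _ => rfl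
  simp only [chkC, frc_eq, Bool.or_eq_true, Bool.not_eq_true', List.any_eq_true, List.all_eq_true,
    List.mem_range, ← Bool.not_eq_true, Nat.beq_eq]
  rintro ((h | ⟨y, hy, h⟩) | h)
  · refine h ?_
    have := lin_mod 255 hc
    rwa [H.lin P hm, P.full, H.top, Nat.xor_self] at this
  · have k := lin_mod (y + 1) hc
    rw [H.lin P hm] at k
    have k2 : θ (E8I.lin (fun i => 2 ^ π i) (y + 1) 8) = 0 ∨
        θ (E8I.lin (fun i => 2 ^ π i) (y + 1) 8) = S := by
      rcases k with k | k <;> rw [k] at h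
      · exact h.symm
      · refine h.imp (fun h => ?_) Nat.xor_eq_zero_iff.1
        rw [← Nat.xor_xor_cancel_right (θ _) S, h, Nat.xor_self]
    rcases k2 with k2 | k2
    · have := P.lin_inj (x := y + 1) (y := 0) (by omega) (by omega)
        ((H.ker _ (lin_lt _ P.pow) k2).trans (lin_zero _ _).symm)
      omega
    · have := P.lin_inj (x := y + 1) (y := 255) (by omega) (by omega)
        ((H.inj (lin_lt _ P.pow) (by omega) (k2.trans H.top.symm)).trans P.full.symm)
      omega
  · have e : ∀ i < 8, cond (H72.tb (Nat.ofBits fun i : Fin 8 => decide (c i ≠ θ (2 ^ π i))) i)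
        (Nat.xor (c i) S) (c i) = θ (2 ^ π i) := fun i hi => by
      rw [H72.tb_eq, Nat.testBit_ofBits_lt _ _ hi]
      by_cases k : c i = θ (2 ^ π i)
      · simp [k]
      · simp only [k, ne_eq, not_false_eq_true, decide_true, cond_true]
        rw [(hc i hi).resolve_left k]
        exact Nat.xor_xor_cancel_right _ _
    refine H.leaf P (fun i hi => ?_) hg (h _ (Nat.ofBits_lt_two_pow (n := 8)
      fun i => decide (c i ≠ θ (2 ^ π i))))
    rw [← e i hi]
    exact pap_ptab (W := 8) (fun i hi => (e i hi).symm ▸ H.lt _ (P.pow i hi)) hi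

theorem Hyp.false (H : Hyp S θ R) {O : List (ℕ × List (ℕ × ℕ))} {g cs : List ℕ} (hO : Orb S O g)
    (hgo : go (fin S g cs) (O.map fun o => o.2.map Prod.fst) [] = true) : False := by
  classical
  obtain ⟨h1, h2, h3, h4⟩ := hO
  have p2 : ∀ j < 8, 2 ^ j < 256 := fun j hj => (ty_pow j hj).1
  let T : ℕ → Prop := fun x => ∃ j < 8, x = θ (2 ^ j) ∨ x = θ (2 ^ j) ^^^ S
  have hT : ∀ y < 256, T (θ y) ↔ ty y = 1 := fun y hy => by
    constructor
    · rintro ⟨j, hj, e | e⟩
      · rw [H.inj hy (p2 j hj) e]; exact (ty_pow j hj).2.1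
      · rw [← H.top, ← H.add _ (p2 j hj) _ (by omega)] at e
        rw [H.inj hy (xor_lt (p2 j hj) (by omega)) e]; exact (ty_pow j hj).2.2.1
    · intro e
      obtain ⟨j, hj, rfl | rfl⟩ := ty_one y hy e
      · exact ⟨j, hj, Or.inl rfl⟩
      · exact ⟨j, hj, Or.inr (by rw [H.add _ (p2 j hj) _ (by omega), H.top])⟩
  have hI : ∀ o ∈ O, ∀ p ∈ o.2, T p.1 ↔ T o.1 := fun o ho p hp => by
    obtain ⟨k1, k2, k3⟩ := (h1 o ho).2 p hp
    obtain ⟨y, hy, e⟩ := H.sur (h1 o ho).1
    obtain ⟨y', hy', e'⟩ := H.sur (act_lt p.2 o.1)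
    rw [← k3, ← e', ← e, hT y hy, hT y' hy',
      (H.h2 _ (H.ra _ k1) k2 y hy y' hy' (by rw [e, e'])).1]
  have hs : ((O.filter fun o => T o.1).map fun o => o.2.map Prod.fst).Sublist
      (O.map fun o => o.2.map Prod.fst) := List.filter_sublist.map _
  have hgo' := go_spec _ hs [] hgo
  have hp := h3.sublist hs.flatten
  have hmem : ∀ x, x ∈ ((O.filter fun o => T o.1).map fun o => o.2.map Prod.fst).flatten ↔
      ∃ o ∈ O, T o.1 ∧ ∃ p ∈ o.2, p.1 = x := fun x => by
    simp only [List.mem_flatten, List.mem_map, List.mem_filter, decide_eq_true_eq]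
    exact ⟨fun ⟨_, ⟨o, ⟨a, b⟩, e⟩, c⟩ => ⟨o, a, b, List.mem_map.1 (e ▸ c)⟩,
      fun ⟨o, a, b, c⟩ => ⟨_, ⟨o, ⟨a, b⟩, rfl⟩, List.mem_map.2 c⟩⟩
  rw [List.nil_append] at hgo'
  generalize ((O.filter fun o => T o.1).map fun o => o.2.map Prod.fst).flatten = l at hgo' hp hmem
  have hl : ∀ i, ∃ j, i < l.length → j < 8 ∧
      (l.getD i 0 = θ (2 ^ j) ∨ l.getD i 0 = θ (2 ^ j) ^^^ S) := fun i => by
    by_cases hi : i < l.length
    · obtain ⟨o, ho, a, p, hp, e⟩ := (hmem _).1 (List.getElem_mem hi)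
      obtain ⟨j, hj⟩ := (hI o ho p hp).2 a
      exact ⟨j, fun _ => by rwa [List.getD_eq_getElem _ _ hi, ← e]⟩
    · exact ⟨0, fun k => absurd k hi⟩
  choose π hπ using hl
  have xx : ∀ {a b c : ℕ}, (a = c ∨ a = c ^^^ S) → (b = c ∨ b = c ^^^ S) →
      a = b ∨ a = b ^^^ S := by
    rintro a b c (rfl | rfl) (rfl | rfl)
    exacts [Or.inl rfl, Or.inr (Nat.xor_xor_cancel_right _ _).symm, Or.inr rfl, Or.inl rfl]
  have hi : ∀ i < l.length, ∀ j < l.length, π i = π j → i = j := fun i hi j hj e => by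
    have a := (hπ i hi).2
    have b := (hπ j hj).2
    rw [List.getD_eq_getElem _ _ hi, e] at a
    rw [List.getD_eq_getElem _ _ hj] at b
    rcases lt_trichotomy i j with k | k | k
    · exact absurd (xx a b) (not_or.2 (List.pairwise_iff_getElem.1 hp i j hi hj k))
    · exact k
    · exact absurd (xx b a) (not_or.2 (List.pairwise_iff_getElem.1 hp j i hj hi k))
  have hsur : ∀ j < 8, ∃ i < l.length, π i = j := fun j hj => by
    obtain ⟨o, ho, p, hp, e⟩ := h2 _ (H.lt _ (p2 j hj))
    obtain ⟨i, hi, e'⟩ := List.getElem_of_mem ((hmem _).2 ⟨o, ho, (hI o ho p hp).1 ⟨j, hj, e⟩,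
      p, hp, rfl⟩)
    obtain ⟨a, b⟩ := hπ i hi
    rw [List.getD_eq_getElem _ _ hi, e'] at b
    refine ⟨i, hi, ?_⟩
    have s : ∀ {a c : ℕ}, (a = c ∨ a = c ^^^ S) → c = a ∨ c = a ^^^ S := fun h =>
      xx (Or.inl rfl) h
    rcases xx (s b) (s e) with k | k
    · exact ((ty_pow _ a).2.2.2 j hj).1 (H.inj (p2 _ a) (p2 j hj) k)
    · rw [← H.top, ← H.add _ (p2 j hj) _ (by omega)] at k
      exact absurd (H.inj (p2 _ a) (xor_lt (p2 j hj) (by omega)) k) ((ty_pow _ a).2.2.2 j hj).2.1
  have h8 : l.length = 8 := by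
    rw [← Finset.card_range l.length, ← Finset.card_range 8]
    refine Finset.card_nbij π (fun i a => ?_) (fun i a j b => ?_) fun j a => ?_
    · exact Finset.mem_coe.2 (Finset.mem_range.2 (hπ i (Finset.mem_range.1 a)).1)
    · exact hi i (Finset.mem_range.1 a) j (Finset.mem_range.1 b)
    · obtain ⟨i, b, c⟩ := hsur j (Finset.mem_range.1 a)
      exact ⟨i, Finset.mem_coe.2 (Finset.mem_range.2 b), c⟩
  have hf := hgo' h8.le
  rw [h8] at hπ hi hsur
  rw [fin, h8, frc_eq] at hf
  have hS : S < 256 := H.top ▸ H.lt _ (by omega)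
  have e : ∀ i < 8, pap 8 255 (ptab 8 (fun i => l.getD i 0) 8) i = l.getD i 0 := fun i hi =>
    pap_ptab (W := 8) (fun i hi => by
      have a := H.lt _ (p2 _ (hπ i hi).1)
      rcases (hπ i hi).2 with k | k <;> rw [k]
      exacts [a, xor_lt a hS]) hi
  exact H.cls ⟨fun i a => (hπ i a).1, hi, hsur⟩ (fun i a => (e i a).symm ▸ (hπ i a).2) h4 hf

theorem jobI : JobI := by
  intro S hS θ R a b c d _ e f g h i
  have H : Hyp S θ R := ⟨a, b, c, d, e, f, g, h, i⟩
  simp only [List.mem_cons, List.not_mem_nil, or_false] at hS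
  rcases hS with rfl | rfl
  exacts [H.false orb1 go1, H.false orb7 go7]

end H91.E8I
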