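import Cfsg.Agent.H11.FBSpec

/-! Tower FB, job B2b: the group of order 27 and its inverting element. -/

set_option autoImplicit false

namespace H91.FBB2b

open MulAction Subgroup H11.FB Pointwise

universe u v

/-- The abstract form: a central extension over an abelian group of order nine. -/
theorem abs {N S A : Type*} [Group N] [Finite N] [Group S] [CommGroup A] (π : N →* S) (φ : A →* S)
    (hφ : Function.Injective φ) (hA : Nat.card A = 9) (hr : ∀ a, ∃ g, π g = φ a) {t₀ h x : N}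
    (hι : ∀ a, π t₀ * φ a * (π t₀)⁻¹ = φ a⁻¹) (h1 : π h = 1) (h3 : orderOf h = 3)
    (hc : ∀ g, g * h = h * g) (h9 : ¬ 9 ∣ Nat.card π.ker) (x3 : x ^ 3 = 1) (hx : π x ∈ φ.range) :
    ∃ (U : Subgroup N) (t : N), Nat.card U = 27 ∧ h ∈ U ∧ x ∈ U ∧ (∀ v ∈ U, π v ∈ φ.range) ∧
      (∀ v ∈ U, ∀ w ∈ U, v * w * v⁻¹ * w⁻¹ ∈ zpowers h) ∧ ∀ v ∈ U, t * v * t⁻¹ * v ∈ zpowers h := by
  have : Fact (Nat.Prime 3) := ⟨Nat.prime_three⟩
  let M : Subgroup N := φ.range.comap π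
  have hk : π.ker ≤ M := fun g hg => ⟨1, by rw [map_one, MonoidHom.mem_ker.1 hg]⟩
  have hM : Nat.card M = Nat.card π.ker * 9 := by
    have e1 : (π.comp M.subtype).range = φ.range := by
      ext s
      constructor
      · rintro ⟨g, rfl⟩
        exact g.2
      · rintro ⟨a, rfl⟩
        obtain ⟨g, hg⟩ := hr a
        exact ⟨⟨g, a, hg.symm⟩, hg⟩
    have e2 : (π.comp M.subtype).ker = π.ker.subgroupOf M := rfl
    rw [← (π.comp M.subtype).ker.card_mul_index, index_ker, e1, e2,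
      Nat.card_congr (subgroupOfEquivOfLe hk).toEquiv, ← hA,
      Nat.card_congr (MonoidHom.ofInjective hφ).toEquiv]
  have hz : Nat.card (zpowers h) = 3 := by rw [Nat.card_zpowers, h3]
  obtain ⟨m, hm⟩ : 3 ∣ Nat.card π.ker := h3 ▸ orderOf_dvd_natCard _ (MonoidHom.mem_ker.2 h1)
  have m3 : ¬ 3 ∣ m := fun ⟨k, e⟩ => h9 ⟨k, by rw [hm, e]; ring⟩
  have hxp : IsPGroup 3 (zpowers (⟨x, hx⟩ : M)) := by
    rintro ⟨_, k, rfl⟩
    refine ⟨1, Subtype.ext (Subtype.ext ?_)⟩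
    change (x ^ k) ^ 3 ^ 1 = 1
    rw [pow_one, ← zpow_natCast, zpow_comm, zpow_natCast, x3, one_zpow]
  obtain ⟨Q, hQ⟩ := hxp.exists_le_sylow
  let h' : M := ⟨h, hk h1⟩
  have : (zpowers h').Normal := ⟨by
    rintro _ ⟨k, rfl⟩ g
    have : Commute g h' := Subtype.ext (hc g)
    change g * h' ^ k * g⁻¹ ∈ _
    rw [(this.zpow_right k).eq, mul_inv_cancel_right]
    exact ⟨k, rfl⟩⟩
  have hhQ : h' ∈ (Q : Subgroup M) := (IsPGroup.of_card (n := 1) (by
    rw [Nat.card_zpowers, ← orderOf_coe, h3, pow_one]) : IsPGroup 3 (zpowers h')).le_sylow_of_normal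
      Q (mem_zpowers _)
  let U : Subgroup N := (Q : Subgroup M).map M.subtype
  have hU : Nat.card U = 27 := by
    rw [card_map_of_injective M.subtype_injective]
    refine Q.card_eq_multiplicity.trans ?_
    rw [hM, hm, show 3 * m * 9 = 3 ^ 3 * m by ring,
      Nat.factorization_mul (by norm_num) (by rintro rfl; exact m3 (dvd_zero 3)), Finsupp.add_apply,
      Nat.factorization_eq_zero_of_not_dvd m3, Nat.prime_three.factorization_pow]
    simp
  have hhU : h ∈ U := ⟨h', hhQ, rfl⟩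
  have hUM : U ≤ M := map_subtype_le _
  have key : ∀ y ∈ U, π y = 1 → y ∈ zpowers h := fun y hy e => by
    have l1 : zpowers h ≤ U ⊓ π.ker := zpowers_le.2 ⟨hhU, h1⟩
    obtain ⟨k, -, e1⟩ := (Nat.dvd_prime_pow Nat.prime_three (m := 3)).1
      ((card_dvd_of_le (inf_le_left : U ⊓ π.ker ≤ U)).trans hU.dvd)
    have e2 : k ≤ 1 := by
      by_contra! k2
      exact h9 (((pow_dvd_pow 3 k2).trans e1.symm.dvd).trans (card_dvd_of_le inf_le_right))
    refine (eq_of_le_of_card_ge l1 ?_).ge ⟨hy, e⟩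
    rw [e1, hz]
    exact Nat.pow_le_pow_right (by norm_num) e2
  have ht₀ : t₀ ∈ normalizer (M : Set N) := mem_normalizer_fintype (by
    rintro g ⟨a, ha⟩
    exact ⟨a⁻¹, by rw [map_mul, map_mul, map_inv π, ← ha, hι]⟩)
  obtain ⟨n, hn⟩ := exists_smul_eq M (M.normalizerMonoidHom ⟨t₀, ht₀⟩ • Q) Q
  refine ⟨U, n * t₀, hU, hhU, ⟨_, hQ (mem_zpowers _), rfl⟩, hUM, fun v hv w hw => key _
    (U.mul_mem (U.mul_mem (U.mul_mem hv hw) (U.inv_mem hv)) (U.inv_mem hw)) ?_,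
    fun v hv => key _ (U.mul_mem ?_ hv) ?_⟩
  · obtain ⟨a, ha⟩ := hUM hv
    obtain ⟨b, hb⟩ := hUM hw
    simp only [map_mul, map_inv]
    rw [← ha, ← hb, ← map_mul, mul_comm a, map_mul, mul_inv_cancel_right, mul_inv_cancel]
  · obtain ⟨q, hq, rfl⟩ := hv
    have : MulAut.conj n • M.normalizerMonoidHom ⟨t₀, ht₀⟩ • q ∈ ((n • M.normalizerMonoidHom ⟨t₀, ht₀⟩ • Q :
        Sylow 3 M) : Subgroup M) := smul_mem_pointwise_smul _ _ _ (smul_mem_pointwise_smul _ _ _ hq)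
    rw [hn] at this
    refine ⟨_, this, ?_⟩
    change (n : N) * (t₀ * q * t₀⁻¹) * (n : N)⁻¹ = n * t₀ * q * (n * t₀)⁻¹
    group
  · obtain ⟨a, ha⟩ := hUM hv
    obtain ⟨b, hb⟩ := n.2
    have e : π ((n : N) * t₀ * v * ((n : N) * t₀)⁻¹ * v) =
        π n * (π t₀ * π v * (π t₀)⁻¹) * (π n)⁻¹ * π v := by
      simp only [map_mul, map_inv]
      group
    rw [e, ← ha, ← hb, hι, ← map_inv, ← map_mul, ← map_mul, ← map_mul, mul_inv_cancel_comm,
      inv_mul_cancel, map_one]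

/-- The elementary abelian group generated by two disjoint 3-cycles. -/
def φ : Multiplicative (ZMod 3 × ZMod 3) →* Equiv.Perm (Fin 6) where
  toFun p := (Equiv.swap 0 1 * Equiv.swap 1 2) ^ p.toAdd.1.val *
    (Equiv.swap 3 4 * Equiv.swap 4 5) ^ p.toAdd.2.val
  map_one' := by decide +kernel
  map_mul' := by decide +kernel

/-- The inverting permutation. -/
def ι : Equiv.Perm (Fin 6) := Equiv.swap 0 1 * Equiv.swap 3 4

theorem φ_inj : Function.Injective φ := (injective_iff_map_eq_one φ).2 (by decide +kernel)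

theorem φ_sign : ∀ a, Equiv.Perm.sign (φ a) = 1 := by decide +kernel

theorem ι_sign : Equiv.Perm.sign ι = 1 := by decide +kernel

theorem ι_inv : ∀ a, ι * φ a * ι⁻¹ = φ a⁻¹ := by decide +kernel

theorem φ_lt : ∀ a, ∀ i : Fin 6, i < 3 → φ a i = 0 ∨ φ a i = 1 ∨ φ a i = 2 := by decide +kernel

theorem φ_fun : ∀ p q r : Fin 6, (∀ i, ![0, 1, 2, p, q, r] (![0, 1, 2, p, q, r]
    (![0, 1, 2, p, q, r] i)) = i) → ∃ a, ∀ i, φ a i = ![0, 1, 2, p, q, r] i := by decide +kernel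

theorem φ_mem {s : Equiv.Perm (Fin 6)} (h0 : s 0 = 0) (h1 : s 1 = 1) (h2 : s 2 = 2)
    (h : s ^ 3 = 1) : s ∈ φ.range := by
  have e : ∀ i, ![0, 1, 2, s 3, s 4, s 5] i = s i := fun i => by
    fin_cases i <;> simp [h0, h1, h2]
  obtain ⟨a, ha⟩ := φ_fun (s 3) (s 4) (s 5) fun i => by
    rw [e, e, e]
    exact DFunLike.congr_fun h i
  exact ⟨a, Equiv.ext fun i => (ha i).trans (e i)⟩

theorem jobB2b : JobB2b.{u, v} := by
  intro G Ω _ _ _ _ _ _ a b c d K H P h x cx hh h3 h6 h9 hx x3 xh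
  have hp : (orderOf h).Prime := h3 ▸ Nat.prime_three
  have t1 := cx.th1 h hh hp
  have t2 := cx.th2 h hh hp
  have hmin : orderOf h = (Nat.card H).minFac := by
    have d3 : 3 ∣ Nat.card H := h3 ▸ orderOf_dvd_natCard H hh
    have n1 : Nat.card H ≠ 1 := fun e => by rw [e] at d3; exact absurd d3 (by decide)
    have l1 := Nat.minFac_le_of_dvd (by norm_num) d3
    have l2 := (Nat.minFac_prime n1).two_le
    have l3 : (Nat.card H).minFac ≠ 2 := fun e =>
      (Nat.not_even_iff_odd.2 cx.odd) (even_iff_two_dvd.2 (e ▸ Nat.minFac_dvd _))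
    omega
  have hc := t2.perf (Or.inl h6) (cx.fh.cen h hh hmin)
  have hN : ∀ g : G, g * h = h * g → g ∈ normalizer (zpowers h : Set G) := fun g e =>
    mem_normalizer_fintype (by
      rintro _ ⟨k, rfl⟩
      have : Commute g h := e
      change g * h ^ k * g⁻¹ ∈ _
      rw [(this.zpow_right k).eq, mul_inv_cancel_right]
      exact ⟨k, rfl⟩)
  obtain ⟨ha, hb, hc', hd⟩ := mem_L4.1 (cx.hy.fr.Hle hh)
  obtain ⟨n1, n2, -, n4, -, -⟩ := cx.hy.ne
  let p : Ω → Prop := fun ω => h • ω = ω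
  have E₀ : Fin 6 ≃ Subtype p := (Finite.equivFinOfCardEq (by
    rw [← h6, ← Nat.card_coe_set_eq]; rfl)).symm
  have l36 : 3 ≤ 6 := by norm_num
  obtain ⟨s, hs⟩ := Equiv.Perm.exists_extending_pair (fun i : Fin 3 => E₀ (Fin.castLE l36 i))
    ![⟨a, ha⟩, ⟨b, hb⟩, ⟨c, hc'⟩] (E₀.injective.comp (Fin.castLE_injective l36)) (by
      intro i j e
      have e' := congrArg Subtype.val e
      fin_cases i <;> fin_cases j <;>
        first | rfl | exact absurd e' ‹_› | exact absurd e'.symm ‹_›)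
  let E : Fin 6 ≃ Subtype p := E₀.trans s
  have E0 : (E 0 : Ω) = a := congrArg Subtype.val (hs 0)
  have E1 : (E 1 : Ω) = b := congrArg Subtype.val (hs 1)
  have E2 : (E 2 : Ω) = c := congrArg Subtype.val (hs 2)
  let N := normalizer (zpowers h : Set G)
  have inv : ∀ (g : N) (ω : Ω), p ω → p ((g : G) • ω) := fun g ω e => by
    change h • (g : G) • ω = _
    rw [← mul_smul, ← hc g g.2, mul_smul, e]
  let π₀ : N →* Equiv.Perm (Subtype p) := MonoidHom.toHomPerm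
    { toFun := fun g ω => ⟨(g : G) • ω.1, inv g _ ω.2⟩
      map_one' := funext fun ω => Subtype.ext (one_smul _ _)
      map_mul' := fun g k => funext fun ω => Subtype.ext (mul_smul _ _ _) }
  let π : N →* Equiv.Perm (Fin 6) := E.symm.permCongrHom.toMonoidHom.comp π₀
  have hπ : ∀ (g : N) i, (E (π g i) : Ω) = (g : G) • (E i : Ω) := fun g i => by
    change (E (E.symm (π₀ g (E.symm.symm i))) : Ω) = _
    rw [E.apply_symm_apply]
    rfl
  have hπ' : ∀ (g : N) i j, (g : G) • (E i : Ω) = E j → π g i = j := fun g i j e =>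
    E.injective (Subtype.ext ((hπ g i).trans e))
  have hs : ∀ σ : Equiv.Perm (Fin 6), Equiv.Perm.sign σ = 1 → ∃ g, π g = σ := fun σ e => by
    obtain ⟨g, hg, e'⟩ := t2.alt (Or.inl h6) (σ.extendDomain E)
      ((Equiv.Perm.sign_extendDomain σ E).trans e)
      fun ω hω => Equiv.Perm.extendDomain_apply_not_subtype σ E hω
    exact ⟨⟨g, hg⟩, Equiv.ext fun i => hπ' _ _ _ ((e' _ (E i).2).trans
      (Equiv.Perm.extendDomain_apply_image σ E i))⟩
  have hker : π.ker = H.subgroupOf N := by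
    ext g
    constructor
    · intro e
      have f : ∀ ω, p ω → (g : G) • ω = ω := fun ω hω => by
        have := hπ g (E.symm ⟨ω, hω⟩)
        rw [MonoidHom.mem_ker.1 e, Equiv.Perm.one_apply, E.apply_symm_apply] at this
        exact this.symm
      exact (t1.nl g (mem_L4.2 ⟨f a ha, f b hb, f c hc', f d hd⟩)).1 g.2
    · intro e
      exact Equiv.ext fun i => hπ' _ _ _ (t1.fixH (by omega) g e _ (E i).2)
  have hHN : H ≤ N := fun g hg => (t1.nl g (cx.hy.fr.Hle hg)).2 hg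
  obtain ⟨t₀, ht₀⟩ := hs ι ι_sign
  obtain ⟨xa, xb, xc⟩ := mem_X3.1 hx
  have x3' : (⟨x, hN x xh⟩ : N) ^ 3 = 1 := Subtype.ext (x3 ▸ pow_orderOf_eq_one x)
  obtain ⟨U, t, u1, u2, u3, u4, u5, u6⟩ := abs π φ φ_inj (by simp) (fun a => hs _ (φ_sign a))
    (t₀ := t₀) (h := ⟨h, hHN hh⟩) (x := ⟨x, hN x xh⟩) (ht₀ ▸ ι_inv)
    (MonoidHom.mem_ker.1 (hker ▸ hh)) ((orderOf_coe _).symm.trans h3)
    (fun g => Subtype.ext (hc g g.2))
    (by rwa [hker, Nat.card_congr (subgroupOfEquivOfLe hHN).toEquiv]) x3'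
    (φ_mem (hπ' _ _ _ (by rw [E0]; exact xa)) (hπ' _ _ _ (by rw [E1]; exact xb))
      (hπ' _ _ _ (by rw [E2]; exact xc)) (by rw [← map_pow, x3', map_one]))
  have z : ∀ y : N, y ∈ zpowers (⟨h, hHN hh⟩ : N) → (y : G) ∈ zpowers h := by
    rintro _ ⟨k, rfl⟩
    exact ⟨k, rfl⟩
  refine ⟨U.map N.subtype, t, (card_map_of_injective N.subtype_injective).trans u1, ⟨_, u2, rfl⟩,
    ⟨_, u3, rfl⟩, hc t t.2, ?_, ?_, ?_, ?_⟩
  · rintro _ ⟨v, -, rfl⟩
    exact hc v v.2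
  · rintro _ ⟨v, hv, rfl⟩
    obtain ⟨k, hk⟩ := u4 v hv
    have f : ∀ i : Fin 6, i < 3 → (v : G) • (E i : Ω) ∈ ({a, b, c} : Set Ω) := fun i hi => by
      rw [← hπ, ← hk]
      rcases φ_lt k i hi with e | e | e <;> rw [e]
      exacts [Or.inl E0, Or.inr (Or.inl E1), Or.inr (Or.inr E2)]
    exact ⟨E0 ▸ f 0 (by decide), E1 ▸ f 1 (by decide), E2 ▸ f 2 (by decide)⟩
  · rintro _ ⟨v, hv, rfl⟩ _ ⟨w, hw, rfl⟩
    exact z _ (u5 v hv w hw)
  · rintro _ ⟨v, hv, rfl⟩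
    exact z _ (u6 v hv)

end H91.FBB2b
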