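import Cfsg.Agent.H15.KGSpec
import Cfsg.Agent.H19.L3Fin

/-! Tower KG, slot A7: `A₇` has at most nine classes. -/

set_option autoImplicit false
set_option maxRecDepth 100000

namespace H91.KG

open H15.KG Equiv Equiv.Perm H19

attribute [local instance 10000] List.decidableBAll List.decidableBEx

/-- representatives of the even classes of `S₇`, each with an odd permutation -/
def ro7 : List (Perm (Fin 7) × Perm (Fin 7)) :=
  [(1, c[0, 1]), (c[0, 1] * c[2, 3], c[0, 1]), (c[0, 1, 2], c[5, 6]),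
    (c[0, 1, 2] * c[3, 4, 5], c[0, 3] * c[1, 4] * c[2, 5]), (c[0, 1, 2, 3] * c[4, 5], c[4, 5]),
    (c[0, 1, 2, 3, 4], c[5, 6]), (c[0, 1, 2] * c[3, 4] * c[5, 6], c[5, 6]),
    (c[0, 1, 2, 3, 4, 5, 6], c[1, 6] * c[2, 5] * c[3, 4])]

def cl7 : Fin 9 → Perm (Fin 7) :=
  ![1, c[0, 1] * c[2, 3], c[0, 1, 2], c[0, 1, 2] * c[3, 4, 5], c[0, 1, 2, 3] * c[4, 5],
    c[0, 1, 2, 3, 4], c[0, 1, 2] * c[3, 4] * c[5, 6], c[0, 1, 2, 3, 4, 5, 6], c[0, 6, 5, 4, 3, 2, 1]]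

theorem cl7_sign : ∀ i, sign (cl7 i) = 1 := by decide +kernel

theorem jobA7 : JobA7 := by
  refine (Nat.card_le_card_of_surjective (fun i : Fin 9 => ConjClasses.mk
    (⟨cl7 i, mem_alternatingGroup.2 (cl7_sign i)⟩ : alternatingGroup (Fin 7))) fun C => ?_).trans (by simp)
  obtain ⟨x, rfl⟩ := ConjClasses.mk_surjective C
  obtain ⟨r, hr, s, hs⟩ := exists_rep ro7 Prod.fst (by decide +kernel) x
  have h : ∀ r ∈ ro7, sign r.2 = -1 ∧ (∃ i, r.1 = cl7 i) ∧ ∃ i, r.1 * r.2 = r.2 * cl7 i := by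
    decide +kernel
  obtain ⟨h1, ⟨i, h2⟩, j, h3⟩ := h r hr
  rcases Int.units_eq_one_or (sign s) with e | e
  · exact ⟨i, ConjClasses.mk_eq_mk_iff_isConj.2 (isConj_alt e (by simp [hs, h2]))⟩
  · refine ⟨j, ConjClasses.mk_eq_mk_iff_isConj.2 (isConj_alt (t := s * r.2) (by simp [e, h1]) ?_)⟩
    simp only [hs]
    rw [mul_assoc, ← h3]; group

end H91.KG
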