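import Cfsg.Agent.Base

/-! Extending a bijection between linearly independent families to a linear automorphism. -/

namespace H91

open Module

/-- Two linearly independent finite families with the same index type are matched by a linear
automorphism. -/
theorem exists_linearEquiv_of_linearIndependent {K V ι : Type*} [DivisionRing K] [AddCommGroup V]
    [Module K V] [Finite ι] {u v : ι → V} (hu : LinearIndependent K u)
    (hv : LinearIndependent K v) : ∃ g : V ≃ₗ[K] V, ∀ i, g (u i) = v i := by
  have q {w : ι → V} (hw : LinearIndependent K w) (i : ι) :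
    (hw.linearCombinationEquiv (Finsupp.single i 1) : V) = w i := by simp
  let f := hu.linearCombinationEquiv.symm ≪≫ₗ hv.linearCombinationEquiv
  have : FiniteDimensional K (Submodule.span K (Set.range u)) :=
    FiniteDimensional.span_of_finite K (Set.finite_range _)
  obtain ⟨g, hg⟩ := Submodule.exists_linearEquiv_restrict_eq f
  refine ⟨g, fun i => ?_⟩
  rw [← q hu i, ← hg, ← q hv i]
  simp [f]

/-- If the family is shorter than the dimension, an automorphism fixing it may be given any
determinant. -/
theorem exists_linearEquiv_fixing_det {K V ι : Type*} [Field K] [AddCommGroup V]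
    [Module K V] [FiniteDimensional K V] [Fintype ι] {u : ι → V}
    (hlt : Fintype.card ι < finrank K V) (a : Kˣ) :
    ∃ g : V ≃ₗ[K] V, LinearMap.det (g : V →ₗ[K] V) = a ∧ ∀ i, g (u i) = u i := by
  classical
  have hspan : Submodule.span K (Set.range u) ≠ ⊤ := by
    intro h
    have := finrank_range_le_card (R := K) u
    unfold Set.finrank at this
    rw [h, finrank_top] at this
    omega
  obtain ⟨φ, hφ0, hφ⟩ := Submodule.exists_le_ker_of_lt_top _ hspan.lt_top
  obtain ⟨w, hw⟩ : ∃ w, φ w = 1 := by
    obtain ⟨w, hw⟩ : ∃ w, φ w ≠ 0 := by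
      by_contra h
      push Not at h
      exact hφ0 (LinearMap.ext h)
    exact ⟨(φ w)⁻¹ • w, by simp [hw]⟩
  let f : V →ₗ[K] V := LinearMap.transvection φ (((a : K) - 1) • w)
  have hdet : LinearMap.det f = a := by
    simp [f, LinearMap.transvection.det, hw]
  have hunit : IsUnit (LinearMap.det f) := by rw [hdet]; exact a.isUnit
  refine ⟨LinearMap.equivOfIsUnitDet hunit, by simpa using hdet, fun i => ?_⟩
  have : φ (u i) = 0 := hφ (Submodule.subset_span ⟨i, rfl⟩)
  simp [f, LinearMap.transvection.apply, this]

/-- Linearly independent families shorter than the dimension are matched by an automorphism of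
determinant one. -/
theorem exists_linearEquiv_det_one_of_linearIndependent {K V ι : Type*} [Field K] [AddCommGroup V]
    [Module K V] [FiniteDimensional K V] [Fintype ι] {u v : ι → V} (hu : LinearIndependent K u)
    (hv : LinearIndependent K v) (hlt : Fintype.card ι < finrank K V) :
    ∃ g : V ≃ₗ[K] V, LinearMap.det (g : V →ₗ[K] V) = 1 ∧ ∀ i, g (u i) = v i := by
  obtain ⟨g, hg⟩ := exists_linearEquiv_of_linearIndependent hu hv
  obtain ⟨h, hdet, hh⟩ := exists_linearEquiv_fixing_det (u := u) hlt (LinearEquiv.det g)⁻¹
  refine ⟨h ≪≫ₗ g, ?_, fun i => by simp [hh, hg]⟩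
  rw [LinearEquiv.coe_trans, LinearMap.det_comp, hdet, ← LinearEquiv.coe_det]
  exact Units.mul_inv _

end H91
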