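import Cfsg.Agent.H70.R3Spec
import Cfsg.Agent.H58.LDW
import Cfsg.Agent.H28.CharKer

/-! A conjugacy class of a linear group of degree at most four meets an abelian subgroup in at
most 24 elements. -/

set_option autoImplicit false

namespace H91.R3Meet

open Cfsg H28 H70.R3 H58.LD Matrix

universe u

theorem jobMeet : JobMeet.{u} := by
  intro X _ _ T hT c ⟨χ, ⟨n, ρ, hρ⟩, hk, hd⟩
  subst hρ
  have hn : n ≤ 4 := by
    simpa [charDegree, Representation.char_one] using hd
  let σ : X →* Mt n ℂ := (LinearMap.toMatrixAlgEquiv' (R := ℂ) (n := Fin n)).toMonoidHom.comp ρ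
  have hσ : Function.Injective σ := (injective_iff_map_eq_one σ).2 fun g hg => by
    have : ρ g = 1 := (LinearMap.toMatrixAlgEquiv' (R := ℂ) (n := Fin n)).injective
      (hg.trans (map_one _).symm)
    exact Subgroup.mem_bot.1 (hk ▸ (mem_charKer_rep ρ).2 this)
  obtain ⟨ρ', d, hs, e⟩ := exists_diag σ (fun t : T => (t : X))
    (fun a b => congrArg σ (congrArg Subtype.val (hT.is_comm.comm a b)))
    fun t => ⟨Nat.card X, Nat.cast_ne_zero.2 Nat.card_pos.ne', by rw [pow_card_eq_one', map_one]⟩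
  rcases Set.eq_empty_or_nonempty {t : X | t ∈ T ∧ ConjClasses.mk t = c} with h0 | ⟨t₀, h1, h2⟩
  · rw [h0, Set.ncard_empty]
    omega
  have key : ∀ t : {t : X | t ∈ T ∧ ConjClasses.mk t = c}, ∃ π : Equiv.Perm (Fin n),
      ∀ i, d ⟨t.1, t.2.1⟩ (π i) = d ⟨t₀, h1⟩ i := fun t => by
    obtain ⟨g, hg⟩ := isConj_iff.1 (ConjClasses.mk_eq_mk_iff_isConj.1 (h2.trans t.2.2.symm))
    obtain ⟨π, hπ⟩ := exists_perm ρ' g
    exact ⟨π, hπ (e ⟨t₀, h1⟩) (e ⟨t.1, t.2.1⟩) (by
      change ρ' (g * t₀) = ρ' (t.1 * g)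
      rw [← hg, inv_mul_cancel_right])⟩
  choose π hπ using key
  have hi : Function.Injective π := fun a b h => Subtype.ext (hs.inj hσ (by
    refine (e ⟨a.1, a.2.1⟩).trans (Eq.trans ?_ (e ⟨b.1, b.2.1⟩).symm)
    congr 1
    funext j
    obtain ⟨i, rfl⟩ := (π a).surjective j
    rw [hπ a, h, hπ b]))
  have := Nat.card_le_card_of_injective π hi
  rw [Nat.card_coe_set_eq, Nat.card_perm, Nat.card_eq_fintype_card, Fintype.card_fin] at this
  exact this.trans (Nat.factorial_le hn)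

end H91.R3Meet
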