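import Cfsg.Agent.H52.RCSpec

/-! Tower RC, jobs KW and KB. -/

set_option autoImplicit false

namespace H91.RCKw

open H52.RC Subgroup

universe u

theorem jobKW : JobKW.{u} := by
  intro _ G _ _ T _ hT
  have : Fact (Nat.Prime 2) := ⟨Nat.prime_two⟩
  let C := centralizer (T : Set G)
  obtain ⟨P⟩ : Nonempty (Sylow 2 C) := inferInstance
  have hP : normalizer (P : Set C) ≤ centralizer (P : Set C) := fun g _ p hp => by
    obtain ⟨k, hk⟩ := P.isPGroup' ⟨p, hp⟩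
    exact Subtype.ext (g.2 p (hT p p.2 ⟨k, congrArg (fun z : P => ((z : C) : G)) hk⟩))
  have ho : Odd (Nat.card (MonoidHom.transferSylow P hP).ker) :=
    Nat.not_even_iff_odd.1 fun e => MonoidHom.not_dvd_card_ker_transferSylow P hP e.two_dvd
  refine ⟨(MonoidHom.transferSylow P hP).ker.map C.subtype, by
    rwa [card_map_of_injective C.subtype_injective], fun y => ⟨?_, fun ⟨h1, h2⟩ => ⟨⟨y, h2⟩, ?_, rfl⟩⟩⟩
  · rintro ⟨z, hz, rfl⟩
    refine ⟨?_, z.2⟩
    rw [coe_subtype, orderOf_coe]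
    exact ho.of_dvd_nat (orderOf_dvd_natCard _ hz)
  · refine eq_one_of_P2 (P.isPGroup' _) (Odd.of_dvd_nat ?_ (orderOf_map_dvd _ _))
    rwa [← orderOf_coe]

theorem jobKB : JobKB.{u} := by
  intro ka G _ _ m hH x ho x1 ⟨g, hg⟩
  obtain ⟨-, -, -, -, -, -, k7, k8, -⟩ := ka G
  have gx : g ∉ C1 x := fun e => x1 (eq_one_of_inv_comm hg (mem_C1.1 e) ho)
  have hz : x ∉ center G := fun e => gx (mem_C1.2 (mem_center_iff.1 e g))
  have h1 := hH x ⟨g, hg⟩ hz
  have cm : ∀ {b : G}, b * x * b⁻¹ = x → b ∈ C1 x := fun e => mem_C1.2 (mul_inv_eq_iff_eq_mul.1 e)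
  have le : C1 x ≤ Cs x := fun b hb => Or.inl (mul_inv_eq_iff_eq_mul.2 (mem_C1.1 hb).eq)
  have ri : (C1 x).relIndex (Cs x) = 2 := relIndex_eq_two_iff_exists_notMem_and.2
    ⟨g, Or.inr hg, gx, fun b hb => hb.symm.imp (fun e => cm (by
      rw [show b * g * x * (b * g)⁻¹ = b * (g * x * g⁻¹) * b⁻¹ by group, hg,
        show b * x⁻¹ * b⁻¹ = (b * x * b⁻¹)⁻¹ by group, e, inv_inv])) cm⟩
  have h2 : v2 (Cs x) = m + 1 := by
    have := ((C1 x).subgroupOf (Cs x)).card_mul_index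
    rw [Nat.card_congr (subgroupOfEquivOfLe le).toEquiv, ← relIndex, ri] at this
    rw [v2, ← this, Nat.factorization_mul Nat.card_pos.ne' two_ne_zero, Finsupp.add_apply,
      Nat.prime_two.factorization_self, ← h1, v2]
  refine ⟨hz, h1, h2, fun R hR hR' => ?_⟩
  obtain ⟨T, t1, t2, t3⟩ := k7 _ R hR hR'
  have hn : Cs x ≤ normalizer (C1 x : Set G) := fun b hb => by
    have : ((C1 x).subgroupOf (Cs x)).Normal := normal_of_index_eq_two ri
    exact (normal_subgroupOf_iff_le_normalizer le).1 this hb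
  have t4 : Nat.card (T ⊓ C1 x : Subgroup G) = 2 ^ m :=
    h1 ▸ (k8 _ _ ((k8 _ _ t2).2.1 _ hn le)).1
  rw [h2] at t3
  refine ⟨T, t1, t2.1, t2.2.1, t3, t4, ?_⟩
  by_contra! hs
  have : T ≤ C1 x := fun s h => cm ((t2.1 h).resolve_right (hs s h))
  rw [inf_eq_left.2 this, t3] at t4
  exact absurd (Nat.pow_right_injective le_rfl t4) (by omega)

end H91.RCKw
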