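/- Element orders of projective classical groups through elementary divisors. -/
import Cfsg.Agent.H53.SpClass
import Cfsg.Agent.H57.RootOrder

set_option autoImplicit false

namespace H91
open Polynomial Module Matrix H53

/-! ### direct products -/
section group
variable {L : Type*} [Group L] [Finite L] {r : ℕ}

/-- some element order is a common multiple of `r` and the order of `x` -/
def GoodAt (r : ℕ) (x : L) : Prop := ∃ y : L, orderOf x ∣ orderOf y ∧ r ∣ orderOf y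

theorem exists_orderOf_eq_of_dvd {y : L} {k : ℕ} (h : k ∣ orderOf y) : ∃ z : L, orderOf z = k :=
  ⟨y ^ (orderOf y / k), orderOf_pow_orderOf_div (orderOf_pos y).ne' h⟩

omit [Finite L] in
theorem orderOf_elab_dvd (m : ℕ) (z : Multiplicative (Fin m → ZMod r)) : orderOf z ∣ r :=
  orderOf_dvd_of_pow_eq_one (by
    rw [← ofAdd_toAdd z, ← ofAdd_nsmul, ofAdd_eq_one]
    ext i; simp)

theorem range_absorb_two (m : ℕ) {w c : L} (hw : r ∣ orderOf w)
    (h : ∀ x : L, GoodAt r x ∨ orderOf x ∣ (orderOf w).lcm (orderOf c)) :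
    Set.range (orderOf : L × L × Multiplicative (Fin m → ZMod r) → ℕ) =
      Set.range (orderOf : L × L → ℕ) := by
  refine Set.Subset.antisymm ?_ ?_
  · rintro _ ⟨⟨a, b, z⟩, rfl⟩
    have key : ∃ y : L × L, orderOf a ∣ orderOf y ∧ orderOf b ∣ orderOf y ∧ r ∣ orderOf y := by
      rcases h a with ⟨y, h1, h2⟩ | ha
      · exact ⟨(y, b), by simp only [Prod.orderOf]; exact ⟨h1.trans (Nat.dvd_lcm_left _ _),
          Nat.dvd_lcm_right _ _, h2.trans (Nat.dvd_lcm_left _ _)⟩⟩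
      rcases h b with ⟨y, h1, h2⟩ | hb
      · exact ⟨(a, y), by simp only [Prod.orderOf]; exact ⟨Nat.dvd_lcm_left _ _,
          h1.trans (Nat.dvd_lcm_right _ _), h2.trans (Nat.dvd_lcm_right _ _)⟩⟩
      · exact ⟨(w, c), by simp only [Prod.orderOf]; exact ⟨ha, hb, hw.trans (Nat.dvd_lcm_left _ _)⟩⟩
    obtain ⟨y, h1, h2, h3⟩ := key
    refine exists_orderOf_eq_of_dvd (y := y) ?_
    generalize orderOf y = o at *
    simp only [Prod.orderOf]
    exact Nat.lcm_dvd h1 (Nat.lcm_dvd h2 ((orderOf_elab_dvd m z).trans h3))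
  · rintro _ ⟨⟨a, b⟩, rfl⟩
    exact ⟨(a, b, 1), by simp [Prod.orderOf]⟩

theorem range_absorb_three (m : ℕ) {u c s : L} (hs : r ∣ orderOf s)
    (h : ∀ x : L, GoodAt r x ∨ orderOf x ∣ (orderOf u).lcm (orderOf c)) :
    Set.range (orderOf : L × L × L × Multiplicative (Fin m → ZMod r) → ℕ) =
      Set.range (orderOf : L × L × L → ℕ) := by
  refine Set.Subset.antisymm ?_ ?_
  · rintro _ ⟨⟨a, b, d, z⟩, rfl⟩
    have l1 := @Nat.dvd_lcm_left
    have l2 := @Nat.dvd_lcm_right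
    have key : ∃ y : L × L × L, orderOf a ∣ orderOf y ∧ orderOf b ∣ orderOf y ∧
        orderOf d ∣ orderOf y ∧ r ∣ orderOf y := by
      rcases h a with ⟨y, h1, h2⟩ | ha
      · exact ⟨(y, b, d), by simp only [Prod.orderOf]; exact ⟨h1.trans (l1 _ _),
          (l1 _ _).trans (l2 _ _), (l2 _ _).trans (l2 _ _), h2.trans (l1 _ _)⟩⟩
      rcases h b with ⟨y, h1, h2⟩ | hb
      · exact ⟨(a, y, d), by simp only [Prod.orderOf]; exact ⟨l1 _ _,
          (h1.trans (l1 _ _)).trans (l2 _ _), (l2 _ _).trans (l2 _ _),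
          (h2.trans (l1 _ _)).trans (l2 _ _)⟩⟩
      rcases h d with ⟨y, h1, h2⟩ | hd
      · exact ⟨(a, b, y), by simp only [Prod.orderOf]; exact ⟨l1 _ _,
          (l1 _ _).trans (l2 _ _), (h1.trans (l2 _ _)).trans (l2 _ _),
          (h2.trans (l2 _ _)).trans (l2 _ _)⟩⟩
      · exact ⟨(s, u, c), by simp only [Prod.orderOf]; exact ⟨ha.trans (l2 _ _), hb.trans (l2 _ _),
          hd.trans (l2 _ _), hs.trans (l1 _ _)⟩⟩
    obtain ⟨y, h1, h2, h3, h4⟩ := key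
    refine exists_orderOf_eq_of_dvd (y := y) ?_
    generalize orderOf y = o at *
    simp only [Prod.orderOf]
    exact Nat.lcm_dvd h1 (Nat.lcm_dvd h2 (Nat.lcm_dvd h3 ((orderOf_elab_dvd m z).trans h4)))
  · rintro _ ⟨⟨a, b, d⟩, rfl⟩
    exact ⟨(a, b, d, 1), by simp [Prod.orderOf]⟩

end group

/-! ### multisets of elementary divisors -/
variable {F : Type*} [Field F] {s t s₁ s₂ t₁ t₂ : Multiset F[X]} {φ P : F[X]} {k j : ℕ} {a b c : F}

/-- the `k`-th power is a scalar -/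
def Sc (s : Multiset F[X]) (k : ℕ) : Prop := ∃ c : F, ∀ P ∈ s, P ∣ X ^ k - C c
def Ok (s : Multiset F[X]) : Prop := ∀ P ∈ s, IsPP P ∧ P.coeff 0 ≠ 0
noncomputable def mdeg (s : Multiset F[X]) : ℕ := (s.map natDegree).sum
noncomputable def nu (P : F[X]) : F := (-1) ^ P.natDegree * P.coeff 0
noncomputable def mdet (s : Multiset F[X]) : F := (s.map nu).prod

theorem Ok.add (h : Ok s) (h' : Ok t) : Ok (s + t) := fun P hP =>
  (Multiset.mem_add.1 hP).elim (h P) (h' P)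
theorem Ok.mono (h : Ok t) (hle : s ≤ t) : Ok s := fun P hP => h P (Multiset.mem_of_le hle hP)
theorem ok_singleton : Ok {P} ↔ IsPP P ∧ P.coeff 0 ≠ 0 := by simp [Ok]
theorem mdeg_add : mdeg (s + t) = mdeg s + mdeg t := by simp [mdeg]
theorem mdeg_singleton : mdeg {P} = P.natDegree := by simp [mdeg]
theorem mdeg_nsmul : mdeg (k • s) = k * mdeg s := by
  simp [mdeg, Multiset.map_nsmul, Multiset.sum_nsmul]
theorem mdet_add : mdet (s + t) = mdet s * mdet t := by simp [mdet]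
theorem mdet_singleton : mdet {P} = nu P := by simp [mdet]
theorem mdet_nsmul : mdet (k • s) = mdet s ^ k := by
  simp [mdet, Multiset.map_nsmul, Multiset.prod_nsmul]

theorem nu_pow (hm : φ.Monic) : nu (φ ^ k) = nu φ ^ k := by
  rw [nu, nu, hm.natDegree_pow, coeff_zero_eq_eval_zero, eval_pow, ← coeff_zero_eq_eval_zero,
    mul_pow, ← pow_mul, mul_comm k]

theorem nu_X_sub_one : nu (X - 1 : F[X]) = 1 := by simp [nu, natDegree_X_sub_one]

theorem mdet_eq (s : Multiset F[X]) :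
    mdet s = (-1) ^ mdeg s * (s.map fun P => P.coeff 0).prod := by
  induction s using Multiset.induction_on with
  | empty => simp [mdet, mdeg]
  | cons P s ih =>
    rw [← Multiset.singleton_add, mdet_add, ih, mdeg_add, mdet_singleton, mdeg_singleton, nu]
    simp only [Multiset.map_add, Multiset.prod_add, Multiset.map_singleton, Multiset.prod_singleton]
    ring

section matrix
variable {n : Type*} [Fintype n] [DecidableEq n] {A : Matrix n n F}

theorem mdeg_med (A : Matrix n n F) : mdeg (med A) = Fintype.card n := sum_natDegree_med A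
theorem mdet_med (A : Matrix n n F) : mdet (med A) = A.det := by
  rw [mdet_eq, mdeg_med, det_eq_of_med]
theorem ok_med (hA : IsUnit A) : Ok (med A) := fun P hP =>
  ⟨med_isPP A P hP, (isUnit_iff_med A).1 hA P hP⟩
theorem sc_med (A : Matrix n n F) (k : ℕ) : Sc (med A) k ↔ ∃ c : F, A ^ k = c • 1 :=
  exists_congr fun c => (pow_eq_smul_one_iff_med A k c).symm

end matrix

theorem C_eq_of_dvd (hP : IsPP P) (h1 : P ∣ X ^ k - C a) (h2 : P ∣ X ^ k - C b) : a = b := by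
  have h : P ∣ C (b - a) := by
    have := dvd_sub h1 h2
    rwa [sub_sub_sub_cancel_left, ← C_sub] at this
  by_contra hne
  have := natDegree_le_of_dvd h (C_ne_zero.2 (sub_ne_zero.2 (Ne.symm hne)))
  rw [natDegree_C] at this
  exact absurd hP.natDegree_pos (by omega)

theorem dvd_pow_mul (h : P ∣ X ^ k - C c) (j : ℕ) : P ∣ X ^ (k * j) - C (c ^ j) := by
  rw [pow_mul, C_pow]; exact h.trans (sub_dvd_pow_sub_pow _ _ j)

theorem ne_zero_of_dvd (h : IsPP P ∧ P.coeff 0 ≠ 0) (h1 : P ∣ X ^ k - C c) : c ≠ 0 := by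
  rintro rfl
  obtain ⟨⟨φ, l, -, hi, hl, rfl⟩, h0⟩ := h
  rw [C_0, sub_zero] at h1
  exact not_dvd_X_of_coeff hi ((coeff_zero_pow_ne_zero_iff hl).1 h0)
    (hi.prime.dvd_of_dvd_pow ((dvd_pow_self φ hl.ne').trans h1))

/-- `t` are the elementary divisors after multiplication with the scalar `a` -/
structure Tw (a : F) (s t : Multiset F[X]) : Prop where
  ok : Ok t
  deg : mdeg t = mdeg s
  det : mdet t = a ^ mdeg s * mdet s
  dvd : ∀ k c, (∀ P ∈ t, P ∣ X ^ k - C (a ^ k * c)) ↔ ∀ P ∈ s, P ∣ X ^ k - C c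
  real : ∀ (σ : F →+* F) (ε : F) (alt : Prop), a * σ a = 1 → Real σ ε alt s → Real σ ε alt t

theorem exists_tw (hs : Ok s) (ha : a ≠ 0) : ∃ t, Tw a s t := by
  obtain ⟨d, hd⟩ : ∃ d, mdeg s = d := ⟨_, rfl⟩
  obtain ⟨A, rfl⟩ := exists_med_eq (n := Fin d) (fun P hP => (hs P hP).1)
    (hd.trans (Fintype.card_fin _).symm)
  have hA : IsUnit A := (isUnit_iff_med A).2 fun P hP => (hs P hP).2
  refine ⟨med (a • A), ok_med ?_, by rw [mdeg_med, mdeg_med],
    by rw [mdet_med, mdet_med, det_smul, mdeg_med], fun k c => ?_, fun σ ε alt h hR => ?_⟩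
  · rw [isUnit_iff_isUnit_det, det_smul] at *
    exact (IsUnit.mk0 _ (pow_ne_zero _ ha)).mul hA
  · rw [← pow_eq_smul_one_iff_med, ← pow_eq_smul_one_iff_med, _root_.smul_pow, mul_smul]
    exact (smul_right_injective _ (pow_ne_zero k ha)).eq_iff
  · obtain ⟨B, h1, h2, h3⟩ := Real.exists_form hR
    refine real_ed h1 h2 fun x y => ?_
    rw [map_smul, LinearMap.smul_apply, LinearMap.smul_apply, LinearMap.map_smulₛₗ₂, map_smul,
      h3, smul_smul, mul_comm, h, one_smul]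

/-- the elements of `L` are described by the multisets with property `R` -/
structure Fam (L : Type*) [Group L] (R : Multiset F[X] → Prop) : Prop where
  ex : ∀ x : L, ∃ s, R s ∧ ∀ k, x ^ k = 1 ↔ Sc s k
  real : ∀ s, R s → ∃ x : L, ∀ k, x ^ k = 1 ↔ Sc s k

variable {L : Type*} [Group L] {R : Multiset F[X] → Prop} {r : ℕ}

theorem Fam.good (h : Fam L R) (hr : r.Prime) {x : L} (hx : ∀ k, Sc (s₁ + s₂) k → x ^ k = 1)
    (o₁ : Ok s₁) (o₂ : Ok s₂) (n₁ : s₁ ≠ 0) (n₂ : s₂ ≠ 0) (ha : a ^ r = 1) (hb : b ^ r = 1)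
    (hab : a ≠ b) (w₁ : Tw a s₁ t₁) (w₂ : Tw b s₂ t₂) (hs : R (s₁ + s₂)) (ht : R (t₁ + t₂)) :
    GoodAt r x := by
  obtain ⟨z, hz⟩ := h.real _ hs
  obtain ⟨y, hy⟩ := h.real _ ht
  have hxz : orderOf x ∣ orderOf z :=
    orderOf_dvd_of_pow_eq_one (hx _ ((hz _).1 (pow_orderOf_eq_one z)))
  by_cases hrz : r ∣ orderOf z
  · exact ⟨z, hxz, hrz⟩
  obtain ⟨c, hc⟩ := (hy _).1 (pow_orderOf_eq_one y)
  set k := orderOf y
  have a0 : a ≠ 0 := by rintro rfl; simp [hr.ne_zero] at ha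
  have b0 : b ≠ 0 := by rintro rfl; simp [hr.ne_zero] at hb
  have d₁ := (w₁.dvd k ((a ^ k)⁻¹ * c)).1 fun P hP => by
    rw [mul_inv_cancel_left₀ (pow_ne_zero k a0)]; exact hc P (Multiset.mem_add.2 (Or.inl hP))
  have d₂ := (w₂.dvd k ((b ^ k)⁻¹ * c)).1 fun P hP => by
    rw [mul_inv_cancel_left₀ (pow_ne_zero k b0)]; exact hc P (Multiset.mem_add.2 (Or.inr hP))
  have e : ∀ u : F, u ^ r = 1 → ((u ^ k)⁻¹ * c) ^ r = c ^ r := fun u hu => by
    rw [mul_pow, inv_pow, ← pow_mul, mul_comm k, pow_mul, hu, one_pow, inv_one, one_mul]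
  have hzk : orderOf z ∣ k := by
    refine Nat.Coprime.dvd_of_dvd_mul_right ((hr.coprime_iff_not_dvd.2 hrz).symm)
      (orderOf_dvd_of_pow_eq_one ((hz _).2 ⟨c ^ r, fun P hP => ?_⟩))
    rcases Multiset.mem_add.1 hP with hP | hP
    · exact e a ha ▸ dvd_pow_mul (d₁ P hP) r
    · exact e b hb ▸ dvd_pow_mul (d₂ P hP) r
  refine ⟨y, hxz.trans hzk, ?_⟩
  obtain ⟨c₀, h₀⟩ := (hz k).1 (orderOf_dvd_iff_pow_eq_one.1 hzk)
  obtain ⟨P₁, p₁⟩ := Multiset.exists_mem_of_ne_zero n₁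
  obtain ⟨P₂, p₂⟩ := Multiset.exists_mem_of_ne_zero n₂
  have e₁ := C_eq_of_dvd (o₁ _ p₁).1 (d₁ _ p₁) (h₀ _ (Multiset.mem_add.2 (Or.inl p₁)))
  have e₂ := C_eq_of_dvd (o₂ _ p₂).1 (d₂ _ p₂) (h₀ _ (Multiset.mem_add.2 (Or.inr p₂)))
  have c0 : c ≠ 0 := right_ne_zero_of_mul (ne_zero_of_dvd (o₁ _ p₁) (d₁ _ p₁))
  have e₃ : (a / b) ^ k = 1 := by
    rw [div_pow, inv_injective (mul_right_cancel₀ c0 (e₁.trans e₂.symm)),
      div_self (pow_ne_zero k b0)]
  have := Fact.mk hr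
  have ho : orderOf (a / b) = r := orderOf_eq_prime (by rw [div_pow, ha, hb, div_one])
    fun e => hab ((div_eq_one_iff_eq b0).1 e)
  exact ho ▸ orderOf_dvd_of_pow_eq_one e₃

theorem Fam.good_det {R' : Multiset F[X] → Prop} {n : ℕ} {ζ : F}
    (h : Fam L fun s => R' s ∧ mdeg s = n ∧ mdet s = 1) (hr : r.Prime) (hζ : orderOf ζ = r)
    (hn : ¬ r ∣ n) (add : ∀ s t, R' s → R' t → R' (s + t)) (ok : ∀ s, R' s → Ok s)
    (tw : ∀ i s t, Tw (ζ ^ i) s t → R' s → R' t) {x : L} (hx : ∀ k, Sc (s₁ + s₂) k → x ^ k = 1)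
    (r₁ : R' s₁) (r₂ : R' s₂) (n₁ : s₁ ≠ 0) (n₂ : s₂ ≠ 0) (hd : mdeg (s₁ + s₂) = n)
    (he : mdet (s₁ + s₂) = 1) : GoodAt r x := by
  have h1 : ζ ^ r = 1 := hζ ▸ pow_orderOf_eq_one ζ
  have h2 : ∀ i, (ζ ^ i) ^ r = 1 := fun i => by rw [← pow_mul, mul_comm, pow_mul, h1, one_pow]
  have h0 : ζ ≠ 0 := by rintro rfl; simp [hr.ne_zero] at h1
  obtain ⟨t₁, w₁⟩ := exists_tw (ok _ r₁) (pow_ne_zero (mdeg s₂) h0)
  obtain ⟨t₂, w₂⟩ := exists_tw (ok _ r₂) (pow_ne_zero ((r - 1) * mdeg s₁) h0)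
  have h3 : ∀ i, (r - 1) * i + i = i * r := fun i => by
    rw [← Nat.succ_mul, Nat.succ_eq_add_one, Nat.sub_add_cancel hr.pos, mul_comm]
  refine h.good hr hx (ok _ r₁) (ok _ r₂) n₁ n₂ (h2 _) (h2 _) (fun e => hn ?_) w₁ w₂
    ⟨add _ _ r₁ r₂, hd, he⟩ ⟨add _ _ (tw _ _ _ w₁ r₁) (tw _ _ _ w₂ r₂), ?_, ?_⟩
  · rw [← hζ, orderOf_dvd_iff_pow_eq_one, ← hd, mdeg_add, add_comm, pow_add, e, ← pow_add, h3,
      pow_mul, h2]
  · rw [mdeg_add, w₁.deg, w₂.deg, ← mdeg_add, hd]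
  · rw [mdet_add, w₁.det, w₂.det, mul_mul_mul_comm, ← mdet_add, he, mul_one, ← pow_mul, ← pow_mul,
      ← pow_add, add_comm, mul_assoc, mul_comm (mdeg s₂), h3, pow_mul, h2]

theorem ok_unip (hk : 0 < k) : Ok ({(X - 1) ^ k} : Multiset F[X]) :=
  ok_singleton.2 ⟨isPP_X_sub_one_pow hk, (coeff_zero_pow_ne_zero_iff hk).2 (by simp)⟩
theorem mdeg_unip : mdeg ({(X - 1) ^ k} : Multiset F[X]) = k := by
  rw [mdeg_singleton, natDegree_X_sub_one_pow]
theorem mdet_unip : mdet ({(X - 1) ^ k} : Multiset F[X]) = 1 := by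
  rw [mdet_singleton, nu_pow monic_X_sub_one, nu_X_sub_one, one_pow]

theorem dvd_lcm_of_dvd_mul {p T : ℕ} {x u c : L} (h : orderOf x ∣ orderOf c * p ^ T)
    (hu : p ^ T ∣ orderOf u) (hc : (orderOf c).Coprime p) :
    orderOf x ∣ (orderOf u).lcm (orderOf c) :=
  h.trans ((hc.pow_right T).mul_dvd_of_dvd_of_dvd (Nat.dvd_lcm_right _ _)
    (hu.trans (Nat.dvd_lcm_left _ _)))

theorem le_pow_clog_pred {p n : ℕ} (hp : 1 < p) (h : ¬ ∃ j, n - 1 = p ^ j) :
    n ≤ p ^ Nat.clog p (n - 1) := by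
  have h1 := Nat.le_pow_clog hp (n - 1)
  have h2 : n - 1 ≠ p ^ Nat.clog p (n - 1) := fun e => h ⟨_, e⟩
  omega

/-! ### one irreducible polynomial over a finite field -/

theorem pord_dvd_mul {l : ℕ} (h : P ∣ X ^ j - C c) (hc : c ^ l = 1) : pord P ∣ j * l := by
  rw [pord_dvd_iff, ← C_1, ← hc]; exact dvd_pow_mul h l

theorem sc_unip (p : ℕ) [Fact p.Prime] [CharP F p] [Finite F] (hk : 0 < k)
    (h : ((X - 1 : F[X]) ^ k) ∣ X ^ j - C c) : c = 1 ∧ p ^ Nat.clog p k ∣ j := by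
  have h1 : c = 1 := by
    have := eval_dvd (x := 1) ((dvd_pow_self _ hk.ne').trans h)
    simp only [eval_sub, eval_X, eval_one, sub_self, eval_pow, one_pow, eval_C, zero_dvd_iff] at this
    exact (sub_eq_zero.1 this).symm
  subst h1
  refine ⟨rfl, ?_⟩
  have := (pord_dvd_iff _ _).2 (C_1 (R := F) ▸ h)
  rwa [pord_pow p irreducible_X_sub_one (by simp) hk, pord_X_sub_one, one_mul] at this

theorem pow_dvd_of_le (p : ℕ) [Fact p.Prime] [CharP F p] {T : ℕ} (h : φ ∣ X ^ j - C c)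
    (hk : k ≤ p ^ T) : φ ^ k ∣ X ^ (j * p ^ T) - C (c ^ p ^ T) := by
  rw [pow_mul, C_pow, ← sub_pow_char_pow]
  exact (pow_dvd_pow_of_dvd h k).trans (pow_dvd_pow _ hk)

theorem Fam.unip (p : ℕ) [Fact p.Prime] [CharP F p] [Finite F] (h : Fam L R) (hk : 0 < k)
    (hs : R s) (hm : (X - 1) ^ k ∈ s) :
    ∃ u : L, p ^ Nat.clog p k ∣ orderOf u ∧ ∀ j, u ^ j = 1 ↔ Sc s j := by
  obtain ⟨u, hu⟩ := h.real s hs
  obtain ⟨c, hc⟩ := (hu _).1 (pow_orderOf_eq_one u)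
  exact ⟨u, (sc_unip p hk (hc _ hm)).2, hu⟩

theorem Fam.absorb_det (p : ℕ) [Fact p.Prime] [CharP F p] [Finite F] [Finite L]
    {R' : Multiset F[X] → Prop} {n : ℕ} {ζ : F}
    (h : Fam L fun s => R' s ∧ mdeg s = n ∧ mdet s = 1) (hr : r.Prime) (hζ : orderOf ζ = r)
    (hn : ¬ r ∣ n) (add : ∀ s t, R' s → R' t → R' (s + t)) (ok : ∀ s, R' s → Ok s)
    (tw : ∀ i s t, Tw (ζ ^ i) s t → R' s → R' t) (un : ∀ k, 0 < k → R' {(X - 1) ^ k})
    (h2 : 2 ≤ n) {c : L} (hc : (orderOf c).Coprime p)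
    (hbad : ∀ s, R' s → mdeg s = n → mdet s = 1 →
      (∃ s₁ s₂, s = s₁ + s₂ ∧ R' s₁ ∧ R' s₂ ∧ s₁ ≠ 0 ∧ s₂ ≠ 0) ∨
        ∀ T, n ≤ p ^ T → Sc s (orderOf c * p ^ T)) (m : ℕ) :
    Set.range (orderOf : L × L × L × Multiplicative (Fin m → ZMod r) → ℕ) =
      Set.range (orderOf : L × L × L → ℕ) ∧ ((¬ ∃ j : ℕ, n - 1 = p ^ j) →
      Set.range (orderOf : L × L × Multiplicative (Fin m → ZMod r) → ℕ) =
        Set.range (orderOf : L × L → ℕ)) := by
  have hp : 1 < p := (Fact.out : p.Prime).one_lt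
  have key : ∀ T, n ≤ p ^ T → ∀ u : L, p ^ T ∣ orderOf u →
      ∀ x : L, GoodAt r x ∨ orderOf x ∣ (orderOf u).lcm (orderOf c) := fun T hT u hu x => by
    obtain ⟨s, ⟨h3, h4, h5⟩, hx⟩ := h.ex x
    rcases hbad s h3 h4 h5 with ⟨s₁, s₂, rfl, r₁, r₂, n₁, n₂⟩ | hb
    · exact Or.inl (h.good_det hr hζ hn add ok tw (fun k => (hx k).2) r₁ r₂ n₁ n₂ h4 h5)
    · exact Or.inr (dvd_lcm_of_dvd_mul (orderOf_dvd_of_pow_eq_one ((hx _).2 (hb T hT))) hu hc)
  have d : mdeg ({(X - 1) ^ (n - 1)} + {(X - 1) ^ 1} : Multiset F[X]) = n := by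
    rw [mdeg_add, mdeg_unip, mdeg_unip]; omega
  have e : mdet ({(X - 1) ^ (n - 1)} + {(X - 1) ^ 1} : Multiset F[X]) = 1 := by
    rw [mdet_add, mdet_unip, mdet_unip, mul_one]
  obtain ⟨w₀, h3, h4⟩ := h.unip p (k := n - 1) (by omega)
    ⟨add _ _ (un _ (by omega)) (un 1 one_pos), d, e⟩ (by simp)
  obtain ⟨w, h5, h6⟩ := h.good_det hr hζ hn add ok tw (fun k => (h4 k).2) (un _ (by omega))
    (un 1 one_pos) (by simp) (by simp) d e
  obtain ⟨u, h7, -⟩ := h.unip p (k := n) (by omega) ⟨un _ (by omega), mdeg_unip, mdet_unip⟩ (by simp)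
  exact ⟨range_absorb_three m h6 (key _ (Nat.le_pow_clog hp n) u h7),
    fun hj => range_absorb_two m h6 (key _ (le_pow_clog_pred hp hj) w (h3.trans h5))⟩

variable [Finite F]

theorem exists_orderOf_eq_of_dvd_card (hr : r ∣ Nat.card F - 1) : ∃ ζ : F, orderOf ζ = r := by
  obtain ⟨g, hg⟩ := IsCyclic.exists_ofOrder_eq_natCard (α := Fˣ)
  rw [Nat.card_units] at hg
  obtain ⟨z, hz⟩ := exists_orderOf_eq_of_dvd (hg ▸ hr)
  exact ⟨z, by rw [orderOf_units, hz]⟩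

theorem pow_card_sub_one (hc : c ≠ 0) : c ^ (Nat.card F - 1) = 1 := by
  have := Fintype.ofFinite F
  rw [Nat.card_eq_fintype_card]; exact FiniteField.pow_card_sub_one_eq_one c hc

theorem exists_irr_pord (p : ℕ) [Fact p.Prime] [CharP F p] {N n : ℕ} (hn : 0 < n)
    (hN : N ∣ Nat.card F ^ n - 1) : ∃ ψ : F[X], ψ.Monic ∧ Irreducible ψ ∧ ψ.coeff 0 ≠ 0 ∧
      pord ψ = N ∧ ∃ k, 0 < k ∧ n = ψ.natDegree * k := by
  have hc := (coprime_card_pow_sub_one (F := F) p hn).coprime_dvd_left hN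
  obtain ⟨ψ, h1, h2, h3, h4, -⟩ := exists_irreducible_pord_eq (F := F) (e := N) fun e =>
    (Fact.out : p.Prime).coprime_iff_not_dvd.1 hc.symm ((CharP.cast_eq_zero_iff F p N).1 e)
  obtain ⟨k, hk⟩ := (natDegree_dvd_iff_pord_dvd h2 h3 n).2 (h4 ▸ hN)
  exact ⟨ψ, h1, h2, h3, h4, k, Nat.pos_of_ne_zero (by rintro rfl; omega), hk⟩

theorem exists_dvd_of_pord_dvd (hi : Irreducible φ) (h0 : φ.coeff 0 ≠ 0) {l : ℕ}
    (hl : l ∣ Nat.card F - 1) (h : pord φ ∣ j * l) : ∃ c : F, c ^ l = 1 ∧ φ ∣ X ^ j - C c := by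
  classical
  have := Fact.mk hi
  have := Fintype.ofFinite F
  have h1 : (AdjoinRoot.root φ ^ j) ^ l = 1 := by
    rw [← pow_mul]; exact orderOf_dvd_iff_pow_eq_one.1 h
  have h2 : (AdjoinRoot.root φ ^ j) ^ Fintype.card F = AdjoinRoot.root φ ^ j := by
    obtain ⟨e, he⟩ := hl
    rw [← Nat.sub_add_cancel (Fintype.card_pos (α := F)), ← Nat.card_eq_fintype_card, he, pow_succ,
      pow_mul, h1, one_pow, one_mul]
  have hq : (X ^ Fintype.card F - X : F[X]) = ∏ a : F, (X - C a) := by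
    have hm : (X ^ Fintype.card F - X : F[X]).Monic :=
      (monic_X_pow _).sub_of_left (by
        rw [degree_X_pow, degree_X]; exact_mod_cast Fintype.one_lt_card)
    rw [← prod_multiset_X_sub_C_of_monic_of_roots_card_eq hm (by
      rw [FiniteField.roots_X_pow_card_sub_X, FiniteField.X_pow_card_sub_X_natDegree_eq F
        Fintype.one_lt_card]; rfl), FiniteField.roots_X_pow_card_sub_X]
    rfl
  have h3 := congrArg (aeval (AdjoinRoot.root φ ^ j)) hq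
  rw [map_sub, map_pow, aeval_X, h2, sub_self, map_prod, eq_comm, Finset.prod_eq_zero_iff] at h3
  obtain ⟨c, -, hc⟩ := h3
  rw [map_sub, aeval_X, aeval_C, sub_eq_zero] at hc
  refine ⟨c, (algebraMap F (AdjoinRoot φ)).injective ?_, (root_pow_eq_iff φ j c).1 hc⟩
  rw [map_pow, ← hc, h1, map_one]

theorem root_pow_geom (hm : φ.Monic) (hi : Irreducible φ) (k : ℕ) :
    φ ∣ X ^ (∑ i ∈ Finset.range (φ.natDegree * k), Nat.card F ^ i) - C (nu φ ^ k) := by
  have := Fact.mk hi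
  have := H57.finite_adjoinRoot hm
  rw [← root_pow_eq_iff]
  have h1 : algebraMap F _ (nu φ) =
      AdjoinRoot.root φ ^ ∑ i ∈ Finset.range φ.natDegree, Nat.card F ^ i := by
    have := FiniteField.algebraMap_norm_eq_pow_sum F (AdjoinRoot φ) (x := AdjoinRoot.root φ)
    rw [finrank_adjoinRoot hm.ne_zero] at this
    rw [← this]
    congr 1
    have h2 := Algebra.PowerBasis.norm_gen_eq_coeff_zero_minpoly (AdjoinRoot.powerBasis' hm)
    rw [AdjoinRoot.powerBasis'_gen, AdjoinRoot.powerBasis'_dim,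
      AdjoinRoot.minpoly_root hm.ne_zero, hm.leadingCoeff, inv_one, C_1, mul_one] at h2
    exact h2.symm
  have h2 : ∀ i, algebraMap F (AdjoinRoot φ) (nu φ) ^ Nat.card F ^ i = algebraMap F _ (nu φ) :=
    fun i => by
      have := Fintype.ofFinite F
      rw [← map_pow, Nat.card_eq_fintype_card, FiniteField.pow_card_pow]
  induction k with
  | zero => simp
  | succ k ih =>
    rw [Nat.mul_succ, Finset.sum_range_add, pow_add, ih, pow_succ, map_mul, ← h2 (φ.natDegree * k),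
      h1, ← pow_mul, Finset.sum_mul]
    simp only [← pow_add, add_comm]

section selfdual
variable (p : ℕ) [Fact p.Prime] [CharP F p] {σ : F →+* F} {e : ℕ} (hσ : ∀ x, σ x = x ^ p ^ e)
  (hσ2 : ∀ x, σ (σ x) = x) (hm : φ.Monic) (hi : Irreducible φ) (h0 : φ.coeff 0 ≠ 0)
include hσ hσ2 hi h0

omit [Finite F] in
theorem aeval_pstar_root_iff : haveI := Fact.mk hi
    aeval (AdjoinRoot.root φ) (pstar σ φ) = 0 ↔ aeval ((AdjoinRoot.root φ)⁻¹ ^ p ^ e) φ = 0 := by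
  have := Fact.mk hi
  have hr : AdjoinRoot.root φ ≠ 0 := (isUnit_root h0).ne_zero
  have : CharP (AdjoinRoot φ) p := charP_of_injective_algebraMap (algebraMap F _).injective p
  have h1 := map_aeval_eq_aeval_map (φ := σ) (ψ := iterateFrobenius (AdjoinRoot φ) p e)
    (by ext x; simp [hσ, iterateFrobenius_def]) (φ.map σ) (AdjoinRoot.root φ)⁻¹
  rw [Polynomial.map_map, show σ.comp σ = RingHom.id F from RingHom.ext hσ2, Polynomial.map_id,
    iterateFrobenius_def, iterateFrobenius_def] at h1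
  rw [aeval_pstar (mul_inv_cancel₀ hr) h0, ← h1, smul_eq_zero, mul_eq_zero,
    pow_eq_zero_iff (pow_ne_zero e (Fact.out : p.Prime).ne_zero)]
  simp [h0, hr]

include hm

theorem pord_dvd_of_pstar (hs : pstar σ φ = φ) :
    ∃ i, 0 < i ∧ pord φ ∣ Nat.card F ^ i + p ^ e := by
  have := Fact.mk hi
  have := H57.finite_adjoinRoot hm
  have hr : AdjoinRoot.root φ ≠ 0 := (isUnit_root h0).ne_zero
  have h1 := (aeval_pstar_root_iff p hσ hσ2 hi h0).1 (by rw [hs]; simp)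
  let g : AdjoinRoot φ →ₐ[F] AdjoinRoot φ :=
    AdjoinRoot.liftAlgHom φ (Algebra.ofId F _) ((AdjoinRoot.root φ)⁻¹ ^ p ^ e) h1
  have hg : Function.Bijective g := (Finite.injective_iff_bijective).1 g.toRingHom.injective
  obtain ⟨i, hi'⟩ := FiniteField.exists_forall_apply_eq_pow F p (AdjoinRoot φ)
    (AlgEquiv.ofBijective g hg)
  have h2 : (AdjoinRoot.root φ)⁻¹ ^ p ^ e = AdjoinRoot.root φ ^ Nat.card F ^ i := by
    rw [← hi']; simp [g]
  have h3 : AdjoinRoot.root φ ^ Nat.card F ^ φ.natDegree = AdjoinRoot.root φ := by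
    have := orderOf_dvd_iff_pow_eq_one.1 (pord_dvd_card_pow_sub_one hi h0)
    rw [← Nat.sub_add_cancel (Nat.one_le_pow φ.natDegree _ Nat.card_pos), pow_succ, this, one_mul]
  refine ⟨φ.natDegree + i, Nat.add_pos_left (natDegree_pos_iff_degree_pos.2 (degree_pos_of_irreducible hi)) _,
    orderOf_dvd_iff_pow_eq_one.2 ?_⟩
  rw [pow_add, pow_add, pow_mul, h3, ← h2, ← mul_pow, inv_mul_cancel₀ hr, one_pow]

theorem pstar_eq_of_pord_dvd {i : ℕ} (h : pord φ ∣ Nat.card F ^ i + p ^ e) : pstar σ φ = φ := by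
  have := Fact.mk hi
  have := Fintype.ofFinite F
  have hr : AdjoinRoot.root φ ≠ 0 := (isUnit_root h0).ne_zero
  have h1 : AdjoinRoot.root φ ^ (Nat.card F ^ i + p ^ e) = 1 := orderOf_dvd_iff_pow_eq_one.1 h
  have h2 : (AdjoinRoot.root φ)⁻¹ ^ p ^ e = AdjoinRoot.root φ ^ Nat.card F ^ i := by
    rw [inv_pow]; exact (eq_inv_of_mul_eq_one_left (by rw [← pow_add, h1])).symm
  have h3 : aeval (AdjoinRoot.root φ ^ Nat.card F ^ i) φ = 0 := by
    rw [Nat.card_eq_fintype_card]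
    clear h h1 h2
    induction i with
    | zero => simp
    | succ i ih =>
      rw [pow_succ, pow_mul, ← expand_aeval, FiniteField.expand_card, map_pow, ih,
        zero_pow Fintype.card_ne_zero]
  have h4 := (aeval_pstar_root_iff p hσ hσ2 hi h0).2 (h2 ▸ h3)
  rw [AdjoinRoot.aeval_eq, AdjoinRoot.mk_eq_zero] at h4
  exact (eq_of_monic_of_dvd_of_natDegree_le hm (monic_pstar hm.ne_zero) h4
    (natDegree_pstar φ).le)

end selfdual

end H91
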