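import Cfsg.Agent.H91.VCSpec

/-! VC tower (row S4070): the assembly. -/

set_option autoImplicit false
set_option linter.unusedSectionVars false

namespace H91.VCA

open H91.VC H33.Solv Subgroup MulAction Module
open scoped commutatorElement

theorem cr_ind {G : Type} [Group G]
    (Q : ∀ (V : Type) [AddCommGroup V] [DistribMulAction G V], Prop) (R : ℕ → Prop)
    (hR : ∀ a b, 0 < a → R a → b ∣ a → R b)
    (h0 : ∀ (V : Type) [AddCommGroup V] [DistribMulAction G V], Subsingleton V → Q V)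
    (h1 : ∀ (V : Type) [AddCommGroup V] [DistribMulAction G V] [Finite V] [Nontrivial V],
      R (Nat.card V) → Irr G V → Q V)
    (h2 : ∀ (V : Type) [AddCommGroup V] [DistribMulAction G V] (U W : AddSubgroup V) (hU : Inv G U)
      (hW : Inv G W), U ⊓ W = ⊥ → U ⊔ W = ⊤ → @Q U _ (subAct U hU) → @Q W _ (subAct W hW) → Q V) (n : ℕ) :
    ∀ (V : Type) [AddCommGroup V] [DistribMulAction G V] [Finite V], Nat.card V < n →
      R (Nat.card V) → CR G V → Q V := by
  induction n with
  | zero => exact fun _ _ _ _ h => (Nat.not_lt_zero _ h).elim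
  | succ n ih =>
    intro V _ _ _ hn hr hc
    have hlt : ∀ U : AddSubgroup V, U ≠ ⊤ → Nat.card U < n := fun U hU =>
      lt_of_lt_of_le (lt_of_le_of_ne (AddSubgroup.card_le_card_addGroup U) fun e =>
        hU (AddSubgroup.eq_top_of_card_eq U e)) (Nat.lt_succ_iff.1 hn)
    rcases subsingleton_or_nontrivial V with h | h
    · exact h0 V h
    by_cases hi : Irr G V
    · exact h1 V hr hi
    simp only [Irr, not_forall, not_or] at hi
    obtain ⟨U, hU, k1, k2⟩ := hi
    obtain ⟨W, hW, k3, k4⟩ := hc U hU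
    exact h2 V U W hU hW k3 k4
      (@ih U _ (subAct U hU) _ (hlt U k2)
        (hR _ _ Nat.card_pos hr (AddSubgroup.card_addSubgroup_dvd_card U)) (hc.sub hU))
      (@ih W _ (subAct W hW) _ (hlt W fun e => k1 (by rwa [e, inf_top_eq] at k3))
        (hR _ _ Nat.card_pos hr (AddSubgroup.card_addSubgroup_dvd_card W)) (hc.sub hW))

section Gen

variable {G V : Type} [Group G] [AddCommGroup V] [DistribMulAction G V]

theorem triv_sum {U W : AddSubgroup V} (hU : Inv G U) (hW : Inv G W) (h : U ⊔ W = ⊤)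
    {X : Subgroup G} (k1 : @Triv G U _ (subAct U hU).toMulAction X)
    (k2 : @Triv G W _ (subAct W hW).toMulAction X) : Triv V X := fun g hg v => by
  obtain ⟨a, ha, b, hb, rfl⟩ := AddSubgroup.mem_sup.1 (h ▸ AddSubgroup.mem_top v)
  rw [smul_add]
  exact congrArg₂ _ (congrArg Subtype.val (k1 g hg ⟨a, ha⟩)) (congrArg Subtype.val (k2 g hg ⟨b, hb⟩))

theorem orb_one {d : ℕ} : Orb G V 1 d ↔ ∃ v : V, Triv V (ds (stabilizer G v) d) :=
  ⟨fun ⟨u, h, _⟩ => ⟨u 0, h 0 one_pos⟩, fun ⟨v, h⟩ => ⟨fun _ => v, fun _ _ => h,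
    fun _ _ _ _ _ _ => by omega⟩⟩

theorem orb_two {d : ℕ} {v w : V} (h1 : Triv V (ds (stabilizer G v) d))
    (h2 : Triv V (ds (stabilizer G w) d)) (h : ∀ g : G, g • v ≠ w) : Orb G V 2 d := by
  refine ⟨fun j => if j = 0 then v else w, fun j _ => by
    beta_reduce
    split_ifs <;> assumption,
    fun j hj k hk g e => ?_⟩
  by_cases a : j = 0 <;> by_cases b : k = 0
  · omega
  · exact (h g (by simpa [a, b] using e)).elim
  · exact (h g⁻¹ (by rw [inv_smul_eq_iff]; simpa [a, b] using e.symm)).elim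
  · omega

theorem orb_cr [Finite V] {d : ℕ} (R : ℕ → Prop) (hR : ∀ a b, 0 < a → R a → b ∣ a → R b)
    (h1 : ∀ (V : Type) [AddCommGroup V] [DistribMulAction G V] [Finite V] [Nontrivial V],
      R (Nat.card V) → Irr G V → Orb G V 1 d) (hr : R (Nat.card V)) (hc : CR G V) :
    Orb G V 1 d := by
  refine cr_ind (fun V _ _ => Orb G V 1 d) R hR
    (fun V _ _ h => orb_one.2 ⟨0, fun _ _ _ => Subsingleton.elim _ _⟩) h1
    (fun V _ _ U W hU hW h' h k1 k2 => ?_) _ V (Nat.lt_succ_self _) hr hc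
  obtain ⟨u, hu⟩ := (@orb_one G U _ _ (subAct U hU) d).1 k1
  obtain ⟨w, hw⟩ := (@orb_one G W _ _ (subAct W hW) d).1 k2
  have key : ∀ g ∈ stabilizer G ((u : V) + w), g • (u : V) = u ∧ g • (w : V) = w := fun g hg => by
    have e : g • (u : V) - u = w - g • (w : V) := by
      rw [sub_eq_sub_iff_add_eq_add, ← smul_add, add_comm (w : V)]; exact hg
    have k : g • (u : V) - u ∈ U ⊓ W :=
      ⟨U.sub_mem (hU g _ u.2) u.2, e ▸ W.sub_mem w.2 (hW g _ w.2)⟩
    rw [h', AddSubgroup.mem_bot] at k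
    exact ⟨sub_eq_zero.1 k, (sub_eq_zero.1 (e ▸ k)).symm⟩
  exact orb_one.2 ⟨(u : V) + w, triv_sum hU hW h
    (@Triv.mono _ _ _ _ _ (subAct U hU).toMulAction hu (ds_mono (fun g hg =>
      Subtype.ext (key g hg).1) d))
    (@Triv.mono _ _ _ _ _ (subAct W hW).toMulAction hw (ds_mono (fun g hg =>
      Subtype.ext (key g hg).2) d))⟩

theorem triv_comm {X : Subgroup G} (h : ∀ a ∈ X, ∀ b ∈ X, ∀ v : V, a • b • v = b • a • v) :
    Triv V (ds X 1) :=
  triv_iff.2 (commutator_le.2 fun a ha b hb => Equiv.ext fun v => by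
    change ⁅a, b⁆ • v = v
    rw [commutatorElement_def, mul_smul, mul_smul, mul_smul, h a ha b hb, smul_inv_smul,
      smul_inv_smul])

theorem small [Finite V] (h : Nat.card V < 4) :
    Triv V (ds (⊤ : Subgroup G) (FF (Nat.card V))) := by
  by_cases h3 : Nat.card V < 3
  · intro g _ v
    by_contra k
    have h0 : v ≠ 0 := fun e => k (by rw [e, smul_zero])
    have h1 : g • v ≠ 0 := mt (smul_eq_zero_iff_eq g).1 h0
    have := Set.ncard_le_card ({0, v, g • v} : Set V)
    rw [Set.ncard_eq_three.2 ⟨_, _, _, h0.symm, h1.symm, Ne.symm k, rfl⟩] at this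
    omega
  · have e : Nat.card V = 3 := by omega
    have : Fact (Nat.Prime 3) := ⟨Nat.prime_three⟩
    obtain ⟨x, hx⟩ := (isAddCyclic_of_prime_card e).exists_zsmul_surjective
    have key : ∀ g : G, ∃ n : ℤ, ∀ v : V, g • v = n • v := fun g => by
      obtain ⟨n, hn⟩ := hx (g • x)
      refine ⟨n, fun v => ?_⟩
      obtain ⟨m, rfl⟩ := hx v
      change g • m • x = n • m • x
      rw [smul_comm g m, smul_comm n m]
      exact congrArg _ hn.symm
    rw [e]
    refine triv_comm fun a _ b _ v => ?_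
    obtain ⟨m, hm⟩ := key a
    obtain ⟨n, hn⟩ := key b
    rw [hm, hn, hn, hm, smul_comm]

theorem aff_ds {H : Subgroup G} {β : G → V} (f : Aff H β) {a : ℕ}
    (h : Triv V (ds (⊤ : Subgroup G) a)) : ds (⊤ : Subgroup G) (a + 1) ≤ H :=
  commutator_le.2 fun x hx y hy => by
    have h1 : β 1 = 0 := by simpa using f.coc 1 1
    have h2 : ∀ g ∈ ds (⊤ : Subgroup G) a, β g⁻¹ = -β g := fun g hg => by
      have := f.coc g g⁻¹
      rw [mul_inv_cancel, h1, h g hg] at this
      exact eq_neg_of_add_eq_zero_right this.symm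
    have h3 := (f.eq 1 ⁅x, y⁆).1 (by
      rw [commutatorElement_def, f.coc, f.coc, f.coc, h1, h x hx, h _ (mul_mem hx hy),
        h _ (mul_mem (mul_mem hx hy) (inv_mem hx)), h2 x hx, h2 y hy]
      abel)
    simpa using h3

theorem card_inf_stab {N : Subgroup G} [hN : N.Normal] {g : G} {u w : V} (h : g • u = w) :
    Nat.card ↥(N ⊓ stabilizer G u) = Nat.card ↥(N ⊓ stabilizer G w) := by
  rw [← h, stabilizer_smul_eq_stabilizer_map_conj,
    ← card_map_of_injective (f := (MulAut.conj g).toMonoidHom) (MulAut.conj g).injective,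
    map_inf _ _ _ (MulAut.conj g).injective]
  have : N.map (MulAut.conj g).toMonoidHom = N := by
    ext x
    exact ⟨by rintro ⟨y, hy, rfl⟩; exact hN.conj_mem y hy g, fun hx =>
      ⟨g⁻¹ * x * g, hN.conj_mem' x hx g, by simp [mul_assoc]⟩⟩
  rw [this]

/-- The data of an imprimitive module. -/
theorem exists_imp [Finite G] [Finite V] (hi : Irr G V) (hq : ¬ QPrim G V) :
    ∃ (e : V →+ V) (H : Subgroup G) (m : Imp e H), IsCoatom H ∧ Nontrivial e.range ∧
      Nat.card e.range < Nat.card V ∧ H.index < Nat.card V ∧ 2 ≤ H.index ∧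
      @Irr H e.range _ _ (subAct _ (inv_range m.comm)) := by
  obtain ⟨e, H, hH, h0, h1, h2, h3⟩ := coarsen hi hq
  refine ⟨e, H, ⟨hi, h0, h1, h2, h3⟩, hH, (AddSubgroup.nontrivial_iff_ne_bot _).2 fun e' =>
    h0 (AddMonoidHom.range_eq_bot_iff.1 e'), lt_of_le_of_ne (AddSubgroup.card_le_card_addGroup _)
      fun k => ?_, index_lt h0 h1 h3, one_lt_index_of_ne_top hH.1, irr_range hi h1 h2 h3⟩
  have e' := AddSubgroup.eq_top_of_card_eq _ k
  obtain ⟨g, hg⟩ : ∃ g, g ∉ H := by
    by_contra! h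
    exact hH.1 (eq_top_iff.2 fun g _ => h g)
  refine h0 (AddMonoidHom.ext fun v => ?_)
  obtain ⟨w, hw⟩ : g⁻¹ • v ∈ e.range := e' ▸ trivial
  rw [← smul_inv_smul g v, ← hw, h3 g hg]
  rfl

theorem exists_cx {K : Type} [Field K] [Finite K] [Module K V] [Finite G] [Nontrivial V]
    (s : Scal K G V) (hs : Group.IsSolvable G) :
    ∃ (N : Subgroup G) (W : Type) (_ : AddCommGroup W) (_ : Finite W) (_ : DistribMulAction G W)
      (π : G → W), Cx s N π := by
  obtain ⟨N, hN⟩ := s.exists_ns hs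
  obtain ⟨W, _, π, hπ⟩ := exists_sec hN.comm fun a _ z hz => hN.zn.conj_mem z hz a
  have := hN.nn
  have := hN.zn
  obtain ⟨_, ha⟩ := hπ.exists_act
  exact ⟨N, W, inferInstance, hπ.finite, inferInstance, π, hs, hN, hπ, ha⟩

end Gen

theorem FF_ge {m : ℕ} (h : 4 ≤ m) : 2 ≤ FF m := by
  unfold FF; split_ifs <;> omega

theorem FF_le {m : ℕ} : FF m ≤ 8 ∧ (m < 4096 → FF m ≤ 6) ∧ (m < 64 → FF m ≤ 4) := by
  unfold FF; split_ifs <;> omega

section Prim

variable {K G V W : Type} [Field K] [Finite K] [Group G] [Finite G] [AddCommGroup V] [Module K V]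
  [Finite V] [Nontrivial V] [DistribMulAction G V] [FaithfulSMul G V] [AddCommGroup W] [Finite W]
  [DistribMulAction G W] {s : Scal K G V} {N : Subgroup G} {π : G → W} (c : Cx s N π)
include c

theorem le_N (hK : JobKER) {X : Subgroup G} {a : ℕ} (ha : 1 ≤ a) (h : Triv W (ds X a)) :
    ds X a ≤ N :=
  (hK K G V W s N π c).2.1 _ ((ds_anti X ha).trans ((ds_mono le_top 1).trans
    (hK K G V W s N π c).1)) h

theorem top_bot (hK : JobKER) {a : ℕ} (h : ds (⊤ : Subgroup G) a ≤ N) :
    ds (⊤ : Subgroup G) (a + 2) = ⊥ :=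
  eq_bot_iff.2 (ds_trans h (hK K G V W s N π c).2.2.1.le)

theorem stab_bot (hK : JobKER) {a : ℕ} {v : V} (hv : v ≠ 0) (h : ds (stabilizer G v) a ≤ N) :
    ds (stabilizer G v) (a + 1) = ⊥ :=
  eq_bot_iff.2 (ds_trans (le_inf h (ds_le _ _)) ((hK K G V W s N π c).2.2.2 v hv).le)

theorem reg_bot (hK : JobKER) {v : V}
    (h : centralizer (s.ι.range : Set G) ⊓ stabilizer G v = ⊥) : ds (stabilizer G v) 1 = ⊥ :=
  eq_bot_iff.2 (h ▸ le_inf ((ds_mono le_top 1).trans (hK K G V W s N π c).1) (ds_le _ _))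

theorem dl_prim (hK : JobKER) (hS : JobSZ) (hF : JobARF) (h4 : 4 ≤ Nat.card V)
    (hV : Nat.card V < 65536) (ih : Nat.card W < Nat.card V →
      Triv W (ds (⊤ : Subgroup G) (FF (Nat.card W)))) :
    Triv V (ds (⊤ : Subgroup G) (FF (Nat.card V))) := by
  obtain ⟨e, h1, h2, h3⟩ := hS K G V W s N π c
  have hq := Module.natCard_eq_pow_finrank (K := K) (V := V)
  by_cases he : 2 ≤ e
  · obtain ⟨k1, k2⟩ := hF.2.2 _ e _ Finite.one_lt_card he h2 h3 (hq ▸ hV)
    rw [← hq, ← h1] at k1 k2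
    have : 2 ≤ FF (Nat.card W) := FF_ge (by rw [h1]; nlinarith)
    exact (Triv.of_bot (top_bot c hK (le_N c hK (by omega) (ih k1)))).anti k2
  · have : Subsingleton W := Finite.card_le_one_iff_subsingleton.1 (by rw [h1]; nlinarith)
    have k : ds (⊤ : Subgroup G) 1 ≤ s.ι.range :=
      (le_N c hK le_rfl fun _ _ _ => Subsingleton.elim _ _).trans fun a ha =>
        (c.sec.zero a ha).1 (Subsingleton.elim _ _)
    refine Triv.anti (m := 1 + 1) ?_ (FF_ge h4)
    rw [ds_add]
    refine triv_comm fun a ha b hb v => ?_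
    rw [← mul_smul, ← mul_smul, c.ns.cent b (c.ns.le (k hb)) a (k ha)]

theorem top_le (hK : JobKER) (hD : DL) (h : Nat.card W < 65536) {a : ℕ} (h1 : 1 ≤ a)
    (ha : FF (Nat.card W) ≤ a) (X : Subgroup G) : ds X a ≤ N :=
  (ds_mono le_top a).trans (le_N c hK h1 ((hD G W c.sol c.cr h).anti ha))

end Prim

theorem dl_of (hA : JobAFF) (hI : JobIMD) (hK : JobKER) (hS : JobSZ) (hF : JobARF) : DL := by
  suffices ∀ n, ∀ (G V : Type) [Group G] [Finite G] [AddCommGroup V] [Finite V]
      [DistribMulAction G V], Nat.card V < n → Group.IsSolvable G → CR G V → Nat.card V < 65536 →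
      Triv V (ds (⊤ : Subgroup G) (FF (Nat.card V))) from
    fun G V _ _ _ _ _ hs => this _ G V (Nat.lt_succ_self _) hs
  intro n
  induction n with
  | zero => exact fun _ _ _ _ _ _ _ h => (Nat.not_lt_zero _ h).elim
  | succ n ih =>
    intro G V₀ _ _ _ _ _ hn hs hc hV
    refine cr_ind (fun V _ _ => Triv V (ds (⊤ : Subgroup G) (FF (Nat.card V₀))))
      (· ≤ Nat.card V₀) (fun a b h0 h k => (Nat.le_of_dvd h0 k).trans h)
      (fun _ _ _ _ _ _ _ => Subsingleton.elim _ _) (fun V _ _ _ _ hle hi => ?_)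
      (fun V _ _ U W hU hW _ h k1 k2 => triv_sum hU hW h k1 k2) _ V₀ (Nat.lt_succ_self _) le_rfl hc
    refine Triv.anti ?_ (hF.1 _ _ hle)
    by_cases h4 : Nat.card V < 4
    · exact small h4
    by_cases hq : QPrim G V
    · obtain ⟨K, G', _, _, _, _, _, _, _, hs', ⟨s⟩, e, -⟩ := exists_scal hs hi hq
      obtain ⟨φ, hφ⟩ := exists_hom e
      obtain ⟨N, W, _, _, _, π, c⟩ := exists_cx s hs'
      exact Triv.comap hφ (X' := ⊤) (fun _ _ => trivial) (dl_prim c hK hS hF (by omega) (by omega)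
        fun k => ih G' W (by omega) hs' c.cr (by omega))
    · obtain ⟨e, H, m, hH, _, k1, k2, k3, k4⟩ := exists_imp hi hq
      obtain ⟨M, _, _, _, β, f⟩ := hA G H hs hH
      obtain ⟨k5, k6⟩ := hI G V hs e H m
      have k7 := f.card
      refine (k6 _ _ (@ih H e.range _ _ _ _ (subAct _ (inv_range m.comm)) (by omega) inferInstance
        (@Irr.cr _ _ _ _ (subAct _ (inv_range m.comm)) k4) (by omega))
        (aff_ds f (ih G M (by omega) hs f.irr.cr (by omega)))).anti ?_
      rw [k7]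
      exact hF.2.1 _ _ _ Finite.one_lt_card k3 k5 (by omega)

/-- The inductive statement for part (a). -/
def Gd (G V : Type) [Group G] [MulAction G V] : Prop :=
  Orb G V 5 9 ∨ Orb G V 4 8 ∨ Orb G V 3 7 ∨ Orb G V 2 6

theorem Gd.orb {G V : Type} [Group G] [MulAction G V] (h : Gd G V) : Orb G V 1 9 := by
  rcases h with h | h | h | h <;> exact h.mono (by omega) (by omega)

section PrimA

variable {K G V W : Type} [Field K] [Finite K] [Group G] [Finite G] [AddCommGroup V] [Module K V]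
  [Finite V] [Nontrivial V] [DistribMulAction G V] [FaithfulSMul G V] [AddCommGroup W] [Finite W]
  [DistribMulAction G W] {s : Scal K G V} {N : Subgroup G} {π : G → W} (c : Cx s N π)
include c

theorem orb_cnt (hK : JobKER) (hC : JobCNT) {a k : ℕ} (h : ∀ X : Subgroup G, ds X a ≤ N)
    (hk : 1 + k * Nat.card G < Nat.card V) : Orb G V (k + 1) (a + 1) := by
  obtain ⟨u, h1, h2⟩ := hC G V {0} k (by rwa [Set.ncard_singleton])
  exact ⟨u, fun j hj => Triv.of_bot (stab_bot c hK (h1 j (by omega)) (h _)),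
    fun j hj i hi => h2 j (by omega) i (by omega)⟩

theorem primA (hK : JobKER) (hS : JobSZ) (hD : DL) (hP : PD) (hO : JobORA) (hX : JobFIX)
    (hC : JobCNT) (hR : JobREG) (hA : JobARA) (hT : ST) (hSP : JobSP) : Gd G V := by
  obtain ⟨e, h1, h2, h3⟩ := hS K G V W s N π c
  have hq := Module.natCard_eq_pow_finrank (K := K) (V := V)
  obtain ⟨a1, a2, a3⟩ := hA _ e _ (Nat.card G) Finite.one_lt_card h2 h3
    (by rw [← h1]; exact hO K G V W s N π c)
  rw [← hq] at a1 a2 a3
  have := c.ns.nn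
  by_cases e1 : e < 8
  · have hW : Nat.card W < 64 := by rw [h1]; nlinarith
    have k := top_bot c hK (top_le c hK hD (by omega) (a := 4) (by omega) (FF_le.2.2 hW) ⊤)
    obtain ⟨v, hv⟩ := exists_ne (0 : V)
    exact .inr (.inr (.inr (orb_two (v := 0) (w := v) ((Triv.of_bot k).mono (ds_mono le_top _))
      ((Triv.of_bot k).mono (ds_mono le_top _)) fun g => by rw [smul_zero]; exact hv.symm)))
  by_cases e2 : e < 64
  · have hW : Nat.card W < 4096 := by rw [h1]; nlinarith
    have k := top_le c hK hD (by omega) (a := 6) (by omega) (FF_le.2.1 hW)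
    by_cases e3 : e = 8 ∨ e = 9 ∨ e = 16
    · rcases hT K G V W s N π c (by rcases e3 with rfl | rfl | rfl <;> simp [h1]) with
        ⟨u, u1, u2⟩ | ⟨h64, v, w, v0, v1, w1⟩
      · refine .inr (.inr (.inl ⟨fun j => if h : j < 3 then u ⟨j, h⟩ else 0, fun j hj => ?_,
          fun j hj i hi g hg => ?_⟩))
        · beta_reduce
          rw [dif_pos hj]
          exact Triv.of_bot (stab_bot c hK (u1 _) (k _))
        · simp only [dif_pos hj, dif_pos hi] at hg
          exact congrArg Fin.val (u2 (card_inf_stab hg))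
      · refine .inr (.inr (.inr (orb_two (v := v) (w := w) ?_ ?_ fun g hg => ?_)))
        · exact (Triv.of_bot (stab_bot c hK v0 (le_N c hK (by omega)
            (hSP hP K G V W s N π c h64 v v0 v1)))).anti (by omega)
        · exact Triv.of_bot (eq_bot_iff.2 (card_eq_one.1 w1 ▸ le_inf (k _) (ds_le _ _)))
        · have := card_inf_stab (N := N) hg
          omega
    · exact .inr (.inr (.inl (orb_cnt c hK hC k (a1 (by omega) (by omega)))))
  by_cases e3 : e < 256
  · exact .inl (orb_cnt c hK hC (top_le c hK hD (by rw [h1]; nlinarith) (a := 8) (by omega) FF_le.1)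
      (a2 (by omega)))
  · have k := hR K G V W s N π c _ (hX K G V W s N π c)
    have k2 := a3 (by omega) _ (Nat.minFac_prime (n := Nat.card W) (by rw [h1]; nlinarith)).two_le
    obtain ⟨u, u1, u2⟩ := hC G V _ 4 (lt_of_le_of_lt (Nat.add_le_add_right k _) k2)
    exact .inl ⟨u, fun j hj => (Triv.of_bot (reg_bot c hK (not_not.1 (u1 j (by omega))))).anti
      (by omega), fun j hj i hi => u2 j (by omega) i (by omega)⟩

theorem primB (hS : JobSZ) (hX : JobFIX) (hB : JobBAD) (h1 : XS) (h2 : X13) (hO : JobORB)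
    (h27 : JobO27) (hA : JobARB) (ho : Odd s.ι.range.index) (hV : Odd (Nat.card V)) :
    ∃ v : V, v ≠ 0 ∧ centralizer (s.ι.range : Set G) ⊓ stabilizer G v = ⊥ := by
  obtain ⟨e, k1, k2, k3⟩ := hS K G V W s N π c
  have hq := Module.natCard_eq_pow_finrank (K := K) (V := V)
  obtain ⟨o1, o2, o3, o4, o5⟩ := hO h1 h2 K G V W s N π c ho
  refine hB K G V W s N π c ho _ (hX K G V W s N π c) ?_
  by_cases he : 2 ≤ e
  · have hW : Odd (Nat.card W) := ho.of_dvd_nat (c.sec.card ▸ relIndex_dvd_index_of_le c.ns.le)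
    have hn : finrank K V ≠ 0 := by omega
    rw [hq, k1]
    rw [k1] at o1 o2 o3 o4 o5 hW
    exact hA _ e _ _ Finite.one_lt_card ((Nat.odd_pow_iff hn).1 (hq ▸ hV)) he (Nat.odd_mul.1 hW).1
      k2 k3 o1 (fun h => o2 (by rw [h])) (fun h => o3 (by rw [h])) (fun h => o4 (by rw [h]))
      (fun h => o5 (by rw [h])) fun h => h27 K G V W s N π c ho (by rw [k1, h])
  · have : Nat.card W ≤ 1 := by rw [k1]; nlinarith
    have h3 : Nat.card W ^ 3 ≤ 1 := pow_le_one₀ (Nat.zero_le _) this
    rw [Nat.sub_eq_zero_of_le (o1.trans h3), zero_mul]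
    have := Finite.one_lt_card (α := V)
    omega

end PrimA

theorem mainA_of (hS : JobSZ) (hK : JobKER) (hD : DL) (hP : PD) (hO : JobORA) (hX : JobFIX)
    (hC : JobCNT) (hR : JobREG) (hA : JobARA) (hT : ST) (hSP : JobSP) (hAF : JobAFF)
    (hB : JobBASE) (hSV : JobSV) (hCo : JobCOL) (hI : JobIMP) : MainA := by
  have key : ∀ n, ∀ (G V : Type) [Group G] [Finite G] [AddCommGroup V] [Finite V] [Nontrivial V]
      [DistribMulAction G V], Nat.card V < n → Group.IsSolvable G → Irr G V → Gd G V := by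
    intro n
    induction n with
    | zero => exact fun _ _ _ _ _ _ _ _ h => (Nat.not_lt_zero _ h).elim
    | succ n ih =>
      intro G V _ _ _ _ _ _ hn hs hi
      by_cases hq : QPrim G V
      · obtain ⟨K, G', _, _, _, _, _, _, _, hs', ⟨s⟩, e, -⟩ := exists_scal hs hi hq
        obtain ⟨φ, hφ⟩ := exists_hom e
        obtain ⟨N, W, _, _, _, π, c⟩ := exists_cx s hs'
        exact (primA c hK hS hD hP hO hX hC hR hA hT hSP).imp (Orb.comap hφ)
          (Or.imp (Orb.comap hφ) (Or.imp (Orb.comap hφ) (Orb.comap hφ)))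
      · obtain ⟨e, H, m, hH, _, k1, k2, k3, k4⟩ := exists_imp hi hq
        obtain ⟨B, b1, b2, b3⟩ := hB hAF G H hs hH
        have := Fintype.ofFinite (G ⧸ H)
        obtain ⟨s1, s2, s3, s4⟩ := hSV H.index B.card k3
          (by rw [index, Nat.card_eq_fintype_card]; exact B.card_le_univ) b1 b2
        have col := fun c c' L h => hCo hP G (G ⧸ H) hs B c c' L h b3
        have imp := hI G V hs e H m
        rcases @ih H e.range _ _ _ _ _ (subAct _ (inv_range m.comm)) (by omega) inferInstance k4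
          with h | h | h | h
        · exact .inl (imp _ _ _ _ h (col _ _ _ (by omega) s1))
        · exact .inl (imp _ _ _ _ h (col _ _ _ (by omega) s2))
        · exact .inl (imp _ _ _ _ h (col _ _ _ (by omega) s3))
        · rcases s4 with s4 | s4 | s4
          · exact .inr (.inr (.inl (imp _ _ _ _ h (col _ _ _ (by omega) s4))))
          · exact .inr (.inl (imp _ _ _ _ h (col _ _ _ (by omega) s4)))
          · exact .inl (imp _ _ _ _ h (col _ _ _ (by omega) s4))
  exact fun G V _ _ _ _ _ hs hc => orb_cr (fun _ => True) (fun _ _ _ _ _ => trivial)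
    (fun V _ _ _ _ _ hi => (key _ G V (Nat.lt_succ_self _) hs hi).orb) trivial hc

theorem mainB_of (hS : JobSZ) (hK : JobKER) (hX : JobFIX) (hB : JobBAD) (h1 : XS) (h2 : X13)
    (hO : JobORB) (h27 : JobO27) (hA : JobARB) (hSC : JobSCO) (hC : JobODC) (hI : JobIMP) :
    MainB := by
  have key : ∀ n, ∀ (G V : Type) [Group G] [Finite G] [AddCommGroup V] [Finite V] [Nontrivial V]
      [DistribMulAction G V], Nat.card V < n → Group.IsSolvable G → Odd (Nat.card G) →
      Odd (Nat.card V) → Irr G V → Orb G V 2 1 := by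
    intro n
    induction n with
    | zero => exact fun _ _ _ _ _ _ _ _ h => (Nat.not_lt_zero _ h).elim
    | succ n ih =>
      intro G V _ _ _ _ _ _ hn hs ho hV hi
      by_cases hq : QPrim G V
      · obtain ⟨K, G', _, _, _, _, _, _, _, s, hs', e, hz⟩ := hSC G V hs inferInstance ho hi hq
        obtain ⟨φ, hφ⟩ := exists_hom e
        obtain ⟨N, W, _, _, _, π, c⟩ := exists_cx s hs'
        obtain ⟨v, v0, hv⟩ := primB c hS hX hB h1 h2 hO h27 hA hz hV
        have k : Triv V (ds (stabilizer G v) 1) := Triv.comap hφ (X' := stabilizer G' v)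
          (fun g hg => (hφ g _).symm.trans hg) (Triv.of_bot (reg_bot c hK hv))
        refine orb_two k (w := -v) (k.mono (ds_mono (fun g hg => neg_injective
          ((smul_neg g v).symm.trans hg)) 1)) fun g hg => v0 ?_
        have k1 : g • v = v := triv_of_pow (k := 2) (Nat.coprime_two_left.2 ho) pow_card_eq_one'
          (by rw [pow_two, mul_smul, hg, smul_neg, hg, neg_neg])
        refine AddMonoid.addOrderOf_eq_one_iff.1 (Nat.eq_one_of_dvd_coprimes
          (Nat.coprime_two_left.2 hV) (addOrderOf_dvd_of_nsmul_eq_zero ?_)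
          (addOrderOf_dvd_natCard v))
        rw [two_nsmul]
        exact add_eq_zero_iff_eq_neg.2 (k1.symm.trans hg)
      · obtain ⟨e, H, m, hH, _, k1, k2, k3, k4⟩ := exists_imp hi hq
        exact hI G V hs e H m _ _ _ _ (@ih H e.range _ _ _ _ _ (subAct _ (inv_range m.comm))
          (by omega) inferInstance (ho.of_dvd_nat (card_subgroup_dvd_card H))
          (hV.of_dvd_nat (AddSubgroup.card_addSubgroup_dvd_card _)) k4) (hC G H hs hH ho)
  exact fun G V _ _ _ _ _ hs ho hV hc => orb_cr Odd (fun _ _ _ h k => h.of_dvd_nat k)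
    (fun V _ _ _ _ hV hi => (key _ G V (Nat.lt_succ_self _) hs ho hV hi).mono (by omega) le_rfl)
    hV hc

end H91.VCA
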