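import Cfsg.Agent.H91.VCAsm
import Cfsg.Agent.H61.VCBAD
import Cfsg.Agent.H62.VCImp
import Cfsg.Agent.H98.VcSP
import Cfsg.Agent.H73.VCST3
import Cfsg.Agent.H5.VCSco
import Cfsg.Agent.H87.VCCol
import Cfsg.Agent.H74.VCXS
import Cfsg.Agent.H62.VCOra
import Cfsg.Agent.H84.VcFix
import Cfsg.Agent.H19.VCSZ
import Cfsg.Agent.H41.VCARA
import Cfsg.Agent.H87.VCPd
import Cfsg.Agent.H72.VCBase
import Cfsg.Agent.H88.VCWrap
import Cfsg.Agent.H96.VCX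
import Cfsg.Agent.H52.VCARB
import Cfsg.Agent.H73.VCARF
import Cfsg.Agent.H76.VCa
import Cfsg.Agent.H7.VCA
import Cfsg.Agent.H39.VCSV
import Cfsg.Agent.H60.VcCnt

/-! VC tower (row S4070) modulo `JobBR`. -/

namespace H91.VCF

open H91.VC H91.VCA

theorem dl : DL := dl_of H7.VCA.jobAFF H76.VC.jobIMD H76.VC.jobKER H19.VC.jobSZ H73.VCA.jobARF

theorem pd : PD := H87.VC.jobPD H7.VCA.jobAFF dl

theorem mainB : MainB :=
  mainB_of H19.VC.jobSZ H76.VC.jobKER H84.VcFix.jobFIX H61.VCB.jobBAD H74.VC.xs H7.VCA.x13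
    H74.VC.jobORB H7.VCA.jobO27 H52.VCARB.jobARB H5.VC.jobSCO H76.VC.jobODC H62.VCImp.jobIMP

theorem mainA (h : JobBR) : MainA :=
  mainA_of H19.VC.jobSZ H76.VC.jobKER dl pd H62.VCOra.jobORA H84.VcFix.jobFIX H60.Vc.jobCNT
    H60.Vc.jobREG H41.VC.jobARA (h H96.VCX.jobTY2 (H73.VCS.jobST3 H96.VCX.jobSTX)) H98.VcSP.jobSP
    H7.VCA.jobAFF H72.VC.jobBASE H39.VCSV.jobSV H87.VC.jobCOL H62.VCImp.jobIMP

theorem main.{u, v} (h : JobBR) : Stmt.{u, v} := H88.VCW.jobWRAP (mainA h) mainB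

end H91.VCF
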